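import Mathlib

/-!
Semilinear maps commuting with plane involutions fix lines, hence are scalar.
-/

set_option autoImplicit false

namespace Cfsg.Agent.LocalBal

open Matrix

variable {F₀ : Type*} [Field F₀] {n : ℕ}

/-- The reflection-type matrix `v ↦ v - 2 (φ ⬝ v) x`. -/
def rMat (x φ : Fin n → F₀) : Matrix (Fin n) (Fin n) F₀ := 1 - (2 : F₀) • vecMulVec x φ

theorem rMat_mulVec (x φ v : Fin n → F₀) : rMat x φ *ᵥ v = v - (2 * (φ ⬝ᵥ v)) • x := by
  simp [rMat, sub_mulVec, smul_mulVec, vecMulVec_mulVec, smul_smul]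

theorem rMat_mul_self {x φ : Fin n → F₀} (h : φ ⬝ᵥ x = 1) : rMat x φ * rMat x φ = 1 := by
  refine Matrix.ext_of_mulVec_single fun i => ?_
  rw [← mulVec_mulVec, one_mulVec, rMat_mulVec, rMat_mulVec, dotProduct_sub, dotProduct_smul, h]
  module

theorem det_rMat {x φ : Fin n → F₀} (h : φ ⬝ᵥ x = 1) : (rMat x φ).det = -1 := by
  have e : rMat x φ =
      1 + Matrix.replicateCol Unit ((-2 : F₀) • x) * Matrix.replicateRow Unit φ := by
    rw [← vecMulVec_eq, smul_vecMulVec, neg_smul, rMat, sub_eq_add_neg]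
  rw [e, Matrix.det_one_add_replicateCol_mul_replicateRow, dotProduct_smul, h, smul_eq_mul]
  ring

/-- The reflection-type matrix as an invertible matrix. -/
def rGL (x φ : Fin n → F₀) (h : φ ⬝ᵥ x = 1) : GL (Fin n) F₀ :=
  ⟨rMat x φ, rMat x φ, rMat_mul_self h, rMat_mul_self h⟩

theorem rGL_coe (x φ : Fin n → F₀) (h : φ ⬝ᵥ x = 1) :
    (rGL x φ h : Matrix (Fin n) (Fin n) F₀) = rMat x φ := rfl

/-- The involution which is `-1` on the plane spanned by `x` and `y`. -/
def planeMat (x φ y ψ : Fin n → F₀) : Matrix (Fin n) (Fin n) F₀ := rMat x φ * rMat y ψ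

theorem planeMat_mulVec {x φ y ψ : Fin n → F₀} (hy : φ ⬝ᵥ y = 0) (v : Fin n → F₀) :
    planeMat x φ y ψ *ᵥ v = v - (2 * (φ ⬝ᵥ v)) • x - (2 * (ψ ⬝ᵥ v)) • y := by
  rw [planeMat, ← mulVec_mulVec, rMat_mulVec, rMat_mulVec, dotProduct_sub, dotProduct_smul, hy,
    smul_zero, sub_zero]
  module

variable {F : Type*} [Field F] (e : F₀ →+* F) (ρ : F ≃+* F)

/-- The semilinear map `v ↦ g ρ(v)` fixes the line of the image of `x`. -/
def LineFixed (g : Matrix (Fin n) (Fin n) F) (x : Fin n → F₀) : Prop :=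
  ∃ t : F, g *ᵥ (fun i => ρ (e (x i))) = t • (fun i => e (x i))

/-- The semilinear map `v ↦ g ρ(v)` commutes with the image of the matrix `h`. -/
def CommMap (g : Matrix (Fin n) (Fin n) F) (h : Matrix (Fin n) (Fin n) F₀) : Prop :=
  g * (h.map e).map ρ = h.map e * g

theorem eq_combo_of_commMap (h2 : (2 : F) ≠ 0) {g : Matrix (Fin n) (Fin n) F}
    {x φ y ψ : Fin n → F₀} (hx : φ ⬝ᵥ x = 1) (hy : φ ⬝ᵥ y = 0) (hψ : ψ ⬝ᵥ x = 0)
    (hc : CommMap e ρ g (planeMat x φ y ψ)) :
    ∃ a b : F, g *ᵥ (fun i => ρ (e (x i))) =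
      a • (fun i => e (x i)) + b • (fun i => e (y i)) := by
  set w := g *ᵥ (fun i => ρ (e (x i))) with hw
  set h := planeMat x φ y ψ with hh
  have hxneg : h *ᵥ x = -x := by
    rw [hh, planeMat_mulVec hy, hx, hψ]
    module
  have h1 : h.map e *ᵥ w = -w := by
    rw [hw, mulVec_mulVec, ← hc, ← mulVec_mulVec]
    have : ((h.map e).map ρ) *ᵥ (fun i => ρ (e (x i))) = fun i => ρ (e ((h *ᵥ x) i)) := by
      funext i
      simp [Matrix.mulVec, dotProduct, map_sum]
    rw [this, hxneg, ← mulVec_neg]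
    congr 1
    funext i
    simp
  set a := (fun i => e (φ i)) ⬝ᵥ w
  set b := (fun i => e (ψ i)) ⬝ᵥ w
  have hP : ∀ z χ : Fin n → F₀, (vecMulVec z χ).map e *ᵥ w =
      ((fun i => e (χ i)) ⬝ᵥ w) • (fun i => e (z i)) := fun z χ => by
    rw [show (vecMulVec z χ).map e = vecMulVec (fun i => e (z i)) (fun i => e (χ i)) from
      Matrix.ext fun i j => map_mul e _ _, vecMulVec_mulVec]
    simp
  have hR : ∀ z χ : Fin n → F₀, (rMat z χ).map e = 1 - (2 : F) • (vecMulVec z χ).map e := fun z χ => by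
    ext i j
    simp [rMat, Matrix.one_apply, apply_ite e, map_ofNat]
  have h3 : h.map e = 1 - (2 : F) • (vecMulVec x φ).map e - (2 : F) • (vecMulVec y ψ).map e := by
    rw [hh, planeMat, Matrix.map_mul, hR, hR]
    have h0 : (vecMulVec x φ).map e * (vecMulVec y ψ).map e = 0 := by
      rw [← Matrix.map_mul, vecMulVec_mul_vecMulVec, hy, zero_smul,
        vecMulVec_zero, Matrix.map_zero _ (map_zero e)]
    simp only [mul_sub, sub_mul, one_mul, mul_one, Matrix.smul_mul, Matrix.mul_smul, h0, smul_zero,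
      sub_zero]
  rw [h3, sub_mulVec, sub_mulVec, one_mulVec, smul_mulVec, smul_mulVec, hP, hP] at h1
  refine ⟨a, b, smul_right_injective _ h2 ?_⟩
  show (2 : F) • w = (2 : F) • (a • (fun i => e (x i)) + b • (fun i => e (y i)))
  have h4 : w - (2 : F) • (a • fun i => e (x i)) - (2 : F) • (b • fun i => e (y i)) + w = 0 := by
    rw [h1, neg_add_cancel]
  rw [← sub_eq_zero, ← h4]
  module

/-- Two plane involutions through `x` determine the line of `x`. -/
theorem lineFixed_of_planes (h2 : (2 : F) ≠ 0) {g : Matrix (Fin n) (Fin n) F}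
    {x φ y ψ φ' z χ ω : Fin n → F₀} (hx : φ ⬝ᵥ x = 1) (hy : φ ⬝ᵥ y = 0) (hψ : ψ ⬝ᵥ x = 0)
    (hx' : φ' ⬝ᵥ x = 1) (hz : φ' ⬝ᵥ z = 0) (hχ : χ ⬝ᵥ x = 0)
    (hc : CommMap e ρ g (planeMat x φ y ψ)) (hc' : CommMap e ρ g (planeMat x φ' z χ))
    (hωx : ω ⬝ᵥ x = 0) (hωy : ω ⬝ᵥ y = 0) (hωz : ω ⬝ᵥ z ≠ 0) : LineFixed e ρ g x := by
  obtain ⟨a, b, hab⟩ := eq_combo_of_commMap e ρ h2 hx hy hψ hc
  obtain ⟨a', b', hab'⟩ := eq_combo_of_commMap e ρ h2 hx' hz hχ hc'
  have hb : b' = 0 := by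
    have h := congrArg (fun v => (fun i => e (ω i)) ⬝ᵥ v) (hab.symm.trans hab')
    have hd : ∀ v : Fin n → F₀, (fun i => e (ω i)) ⬝ᵥ (fun i => e (v i)) = e (ω ⬝ᵥ v) := fun v => by
      simp [dotProduct, map_sum]
    simp only [dotProduct_add, dotProduct_smul, hd, hωx, hωy, map_zero, smul_eq_mul, mul_zero, add_zero,
      zero_add] at h
    exact (mul_eq_zero.1 h.symm).resolve_right ((map_ne_zero e).2 hωz)
  exact ⟨a', by rw [hab', hb, zero_smul, add_zero]⟩

/-- Enough fixed lines force a scalar, and a field automorphism fixing the small field. -/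
theorem scalar_of_lines {g : Matrix (Fin n) (Fin n) F} (hg : g.det ≠ 0)
    (P : GL (Fin n) F₀) (hn : 2 ≤ n)
    (h₁ : ∀ i, LineFixed e ρ g ((P : Matrix (Fin n) (Fin n) F₀) *ᵥ Pi.single i 1))
    (h₂ : ∀ i j, i ≠ j → ∀ s : F₀,
      LineFixed e ρ g ((P : Matrix (Fin n) (Fin n) F₀) *ᵥ (Pi.single i 1 + Pi.single j s)) ∨
      ∃ k, k ≠ i ∧ k ≠ j ∧ LineFixed e ρ g
        ((P : Matrix (Fin n) (Fin n) F₀) *ᵥ (Pi.single i 1 + Pi.single j s + Pi.single k 1))) :
    (∀ a, ρ (e a) = e a) ∧ ∃ c : F, c ≠ 0 ∧ g = c • (1 : Matrix (Fin n) (Fin n) F) := by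
  set Pe : Matrix (Fin n) (Fin n) F := (P : Matrix (Fin n) (Fin n) F₀).map e with hPe
  set Qe : Matrix (Fin n) (Fin n) F := ((P⁻¹ : GL (Fin n) F₀) : Matrix (Fin n) (Fin n) F₀).map e with hQe
  have hQP : Qe * Pe = 1 := by
    rw [hQe, hPe, ← Matrix.map_mul, ← Units.val_mul, inv_mul_cancel, Units.val_one,
      Matrix.map_one _ (map_zero e) (map_one e)]
  have hPQ : Pe * Qe = 1 := mul_eq_one_comm.1 hQP
  set G : Matrix (Fin n) (Fin n) F := Qe * g * Pe.map ρ with hG
  have hline : ∀ v : Fin n → F₀, LineFixed e ρ g ((P : Matrix (Fin n) (Fin n) F₀) *ᵥ v) →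
      ∃ t : F, G *ᵥ (fun i => ρ (e (v i))) = t • (fun i => e (v i)) := by
    rintro v ⟨t, ht⟩
    refine ⟨t, ?_⟩
    have e1 : (Pe.map ρ) *ᵥ (fun i => ρ (e (v i))) =
        fun i => ρ (e (((P : Matrix (Fin n) (Fin n) F₀) *ᵥ v) i)) := by
      funext i
      simp [hPe, Matrix.mulVec, dotProduct, map_sum]
    have e2 : (fun i => e (((P : Matrix (Fin n) (Fin n) F₀) *ᵥ v) i)) = Pe *ᵥ (fun i => e (v i)) := by
      funext i
      simp [hPe, Matrix.mulVec, dotProduct, map_sum]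
    rw [hG, ← mulVec_mulVec, ← mulVec_mulVec, e1, ht, mulVec_smul, e2, mulVec_mulVec, hQP, one_mulVec]
  choose t ht using fun i => hline _ (h₁ i)
  have hE : ∀ i, G *ᵥ (Pi.single i 1 : Fin n → F) = t i • (Pi.single i 1 : Fin n → F) := by
    intro i
    have h := ht i
    rwa [show (fun k => ρ (e ((Pi.single i (1 : F₀) : Fin n → F₀) k))) = Pi.single i 1 by
        funext k; rcases eq_or_ne k i with rfl | hk <;> simp [*],
      show (fun k => e ((Pi.single i (1 : F₀) : Fin n → F₀) k)) = Pi.single i 1 by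
        funext k; rcases eq_or_ne k i with rfl | hk <;> simp [*]] at h
  have hGsingle : ∀ (i : Fin n) (c : F), G *ᵥ (Pi.single i c : Fin n → F) =
      (Pi.single i (t i * c) : Fin n → F) := by
    intro i c
    rw [show (Pi.single i c : Fin n → F) = c • Pi.single i 1 by simp [← Pi.single_smul'],
      mulVec_smul, hE]
    simp [← Pi.single_smul', mul_comm]
  have hgen : ∀ i j, i ≠ j → ∀ s, ρ (e s) * t j = e s * t i := by
    intro i j hij s
    rcases h₂ i j hij s with h | ⟨k, hki, hkj, h⟩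
    · obtain ⟨l, hl⟩ := hline _ h
      rw [show (fun x => ρ (e ((Pi.single i (1 : F₀) + Pi.single j s : Fin n → F₀) x))) =
          Pi.single i 1 + Pi.single j (ρ (e s)) by
          funext x; simp [Pi.single_apply, apply_ite e, apply_ite ρ],
        mulVec_add, hGsingle, hGsingle] at hl
      have h1 := congrFun hl i
      have h2 := congrFun hl j
      simp [hij, Ne.symm hij] at h1 h2
      linear_combination h2 - e s * h1
    · obtain ⟨l, hl⟩ := hline _ h
      rw [show (fun x => ρ (e ((Pi.single i (1 : F₀) + Pi.single j s + Pi.single k 1 : Fin n → F₀) x))) =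
          Pi.single i 1 + Pi.single j (ρ (e s)) + Pi.single k 1 by
          funext x; simp [Pi.single_apply, apply_ite e, apply_ite ρ],
        mulVec_add, mulVec_add, hGsingle, hGsingle, hGsingle] at hl
      have h1 := congrFun hl i
      have h2 := congrFun hl j
      simp [hij, Ne.symm hij, hki, hkj, Ne.symm hki, Ne.symm hkj] at h1 h2
      linear_combination h2 - e s * h1
  have hteq : ∀ i j, t i = t j := fun i j => by
    rcases eq_or_ne i j with rfl | hij
    · rfl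
    · have := hgen i j hij 1
      simpa using this.symm
  set i₀ : Fin n := ⟨0, by omega⟩ with hi₀
  have hG1 : G = t i₀ • (1 : Matrix (Fin n) (Fin n) F) := by
    refine Matrix.ext_of_mulVec_single fun i => ?_
    rw [hE, smul_mulVec, one_mulVec, hteq]
  have hdetP : (Pe.map ρ).det ≠ 0 := by
    have h := congrArg (fun M : Matrix (Fin n) (Fin n) F => (M.map ρ).det) hQP
    simp only [Matrix.map_mul, det_mul, Matrix.map_one _ (map_zero ρ) (map_one ρ), det_one] at h
    exact right_ne_zero_of_mul (h ▸ one_ne_zero)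
  have ht0 : t i₀ ≠ 0 := by
    intro h0
    have h := congrArg Matrix.det hG1
    haveI : Nonempty (Fin n) := ⟨i₀⟩
    rw [h0, zero_smul, det_zero, hG, det_mul, det_mul] at h
    have hQ : Qe.det ≠ 0 := left_ne_zero_of_mul (by rw [← det_mul, hQP, det_one]; exact one_ne_zero)
    exact mul_ne_zero (mul_ne_zero hQ hg) hdetP h
  have hρ : ∀ a, ρ (e a) = e a := fun a => by
    have h := hgen i₀ ⟨1, by omega⟩ (by simp [hi₀]) a
    rw [hteq ⟨1, _⟩ i₀] at h
    exact mul_right_cancel₀ ht0 h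
  refine ⟨hρ, t i₀, ht0, ?_⟩
  have hPρ : Pe.map ρ = Pe := by ext i j; simp [hPe, hρ]
  calc g = Pe * Qe * g * (Pe.map ρ * Qe) := by rw [hPρ, hPQ, one_mul, mul_one]
    _ = Pe * G * Qe := by rw [hG]; simp only [mul_assoc]
    _ = _ := by rw [hG1, Matrix.mul_smul, mul_one, Matrix.smul_mul, hPQ]

end Cfsg.Agent.LocalBal
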