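import Mathlib
import Cfsg.Agent.LocalBal.Lines
import Cfsg.Agent.GraphForms.Alt

/-!
Semilinear maps commuting with the plane involutions of an alternating form are scalar.
-/

set_option autoImplicit false

namespace Cfsg.Agent.LocalBal

open Matrix Cfsg.Agent.GraphForms

variable {F₀ : Type*} [Field F₀] {n : ℕ} {A : Matrix (Fin n) (Fin n) F₀}

/-- The involution `-1` on the hyperbolic plane `⟨x, y⟩`, `1` on its perp. -/
def altPlane (A : Matrix (Fin n) (Fin n) F₀) (x y : Fin n → F₀) : Matrix (Fin n) (Fin n) F₀ :=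
  planeMat x (A *ᵥ y) y (x ᵥ* A)

theorem alt_swap (hA : IsAltMat A) (u v : Fin n → F₀) : v ⬝ᵥ A *ᵥ u = -(u ⬝ᵥ A *ᵥ v) := by
  have h := hA (u + v)
  simp only [mulVec_add, dotProduct_add, add_dotProduct, hA u, hA v, zero_add, add_zero] at h
  linear_combination h

theorem altPlane_mulVec (hA : IsAltMat A) (x y v : Fin n → F₀) :
    altPlane A x y *ᵥ v = v - (2 * (v ⬝ᵥ A *ᵥ y)) • x - (2 * (x ⬝ᵥ A *ᵥ v)) • y := by
  rw [altPlane, planeMat_mulVec (by rw [dotProduct_comm]; exact hA y), dotProduct_comm (A *ᵥ y) v,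
    ← dotProduct_mulVec]

theorem altPlane_isometry (hA : IsAltMat A) {x y : Fin n → F₀} (hxy : x ⬝ᵥ A *ᵥ y = 1)
    (u v : Fin n → F₀) :
    (altPlane A x y *ᵥ u) ⬝ᵥ A *ᵥ (altPlane A x y *ᵥ v) = u ⬝ᵥ A *ᵥ v := by
  simp only [altPlane_mulVec hA, mulVec_sub, mulVec_smul, sub_dotProduct, dotProduct_sub,
    smul_dotProduct, dotProduct_smul, smul_eq_mul, hA x, hA y, hxy, alt_swap hA x y,
    alt_swap hA x u, alt_swap hA v y]
  ring

theorem det_altPlane (hA : IsAltMat A) {x y : Fin n → F₀} (hxy : x ⬝ᵥ A *ᵥ y = 1) :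
    (altPlane A x y).det = 1 := by
  rw [altPlane, planeMat, det_mul, det_rMat (by rw [dotProduct_comm]; exact hxy),
    det_rMat (by rw [← dotProduct_mulVec]; exact hxy)]
  ring

theorem altPlane_mem_Iso (hA : IsAltMat A) {x y : Fin n → F₀} (hxy : x ⬝ᵥ A *ᵥ y = 1) :
    GeneralLinearGroup.mkOfDetNeZero (altPlane A x y)
      (by rw [det_altPlane hA hxy]; exact one_ne_zero) ∈ Iso A :=
  mem_Iso_iff_dot.2 (altPlane_isometry hA hxy)

variable {F : Type*} [Field F] (e : F₀ →+* F) (ρ : F ≃+* F)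

/-- Rigidity for alternating forms. -/
theorem alt_scalar_of_planes (hA : IsAltMat A) (hd : A.det ≠ 0) (hn : 3 ≤ n) (h2 : (2 : F) ≠ 0)
    {g : Matrix (Fin n) (Fin n) F} (hg : g.det ≠ 0)
    (hc : ∀ x y, x ⬝ᵥ A *ᵥ y = 1 → CommMap e ρ g (altPlane A x y)) :
    (∀ a, ρ (e a) = e a) ∧ ∃ c : F, c ≠ 0 ∧ g = c • (1 : Matrix (Fin n) (Fin n) F) := by
  classical
  have hnd : ∀ u : Fin n → F₀, u ≠ 0 → ∃ v, u ⬝ᵥ A *ᵥ v ≠ 0 := fun u hu => by
    by_contra hcon
    push Not at hcon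
    refine hu (eq_zero_of_vecMul_eq_zero hd (dotProduct_eq_zero _ fun w => ?_))
    rw [← dotProduct_mulVec]
    exact hcon w
  have hline : ∀ x : Fin n → F₀, x ≠ 0 → LineFixed e ρ g x := by
    intro x hx
    obtain ⟨y₁, hy₁⟩ := hnd x hx
    set y := (x ⬝ᵥ A *ᵥ y₁)⁻¹ • y₁ with hy
    have hxy : x ⬝ᵥ A *ᵥ y = 1 := by
      rw [hy, mulVec_smul, dotProduct_smul, smul_eq_mul, inv_mul_cancel₀ hy₁]
    clear_value y
    obtain ⟨z, hz0, hzx, hzy⟩ : ∃ z, z ≠ 0 ∧ x ⬝ᵥ A *ᵥ z = 0 ∧ y ⬝ᵥ A *ᵥ z = 0 := by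
      let f : (Fin n → F₀) →ₗ[F₀] F₀ × F₀ :=
        { toFun := fun u => (x ⬝ᵥ A *ᵥ u, y ⬝ᵥ A *ᵥ u)
          map_add' := fun u u' => by simp [mulVec_add, dotProduct_add]
          map_smul' := fun s u => by simp [mulVec_smul, dotProduct_smul] }
      obtain ⟨z, hz, hz0⟩ := Submodule.exists_mem_ne_zero_of_ne_bot (p := LinearMap.ker f) fun h0 => by
        have := LinearMap.finrank_le_finrank_of_injective (LinearMap.ker_eq_bot.1 h0)
        rw [Module.finrank_fintype_fun_eq_card, Fintype.card_fin, Module.finrank_prod,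
          Module.finrank_self] at this
        omega
      rw [LinearMap.mem_ker, Prod.ext_iff] at hz
      exact ⟨z, hz0, hz.1, hz.2⟩
    obtain ⟨v, hv⟩ := hnd z hz0
    -- the component of `v` orthogonal to the plane
    set v' := v - (v ⬝ᵥ A *ᵥ y) • x + (v ⬝ᵥ A *ᵥ x) • y with hv'
    have hv'x : x ⬝ᵥ A *ᵥ v' = 0 := by
      simp only [hv', mulVec_add, mulVec_sub, mulVec_smul, dotProduct_add, dotProduct_sub,
        dotProduct_smul, smul_eq_mul, hA x, hxy, alt_swap hA x v]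
      ring
    have hv'y : y ⬝ᵥ A *ᵥ v' = 0 := by
      simp only [hv', mulVec_add, mulVec_sub, mulVec_smul, dotProduct_add, dotProduct_sub,
        dotProduct_smul, smul_eq_mul, hA y, alt_swap hA x y, hxy, alt_swap hA v y]
      ring
    have hzv' : z ⬝ᵥ A *ᵥ v' ≠ 0 := by
      simpa only [hv', mulVec_add, mulVec_sub, mulVec_smul, dotProduct_add, dotProduct_sub,
        dotProduct_smul, smul_eq_mul, alt_swap hA x z, alt_swap hA y z, hzx, hzy, neg_zero, mul_zero,
        sub_zero, add_zero] using hv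
    have hxy' : x ⬝ᵥ A *ᵥ (y + z) = 1 := by rw [mulVec_add, dotProduct_add, hxy, hzx, add_zero]
    have hψ : (x ᵥ* A) ⬝ᵥ x = 0 := by rw [← dotProduct_mulVec]; exact hA x
    exact lineFixed_of_planes e ρ h2 (by rw [dotProduct_comm]; exact hxy)
      (by rw [dotProduct_comm]; exact hA y) hψ (by rw [dotProduct_comm]; exact hxy')
      (by rw [dotProduct_comm]; exact hA (y + z)) hψ (hc x y hxy) (hc x (y + z) hxy') (ω := A *ᵥ v')
      (by rw [dotProduct_comm]; exact hv'x) (by rw [dotProduct_comm]; exact hv'y)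
      (by rw [dotProduct_comm, add_dotProduct, hv'y, zero_add]; exact hzv')
  refine scalar_of_lines e ρ hg 1 (by omega) (fun i => hline _ ?_) fun i j hij s => Or.inl (hline _ ?_)
  · rw [Units.val_one, one_mulVec]; simp
  · rw [Units.val_one, one_mulVec]
    intro h0
    simpa [hij] using congrFun h0 i

end Cfsg.Agent.LocalBal
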