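import Mathlib
import Cfsg.Agent.Cores.Basic
import Cfsg.Agent.AutPSL.ClassSplit

/-!
Criteria for the vanishing of `O_{p'}` of centralizers in automorphism groups.
-/

set_option autoImplicit false

namespace Cfsg.Agent.LocalBal

variable {G : Type*} [Group G]

/-- `L` has no non-trivial normal subgroup of order prime to `p`. -/
def NoPPrime (p : ℕ) (L : Subgroup G) : Prop :=
  ∀ M : Subgroup G, M ≤ L → (∀ l ∈ L, ∀ x ∈ M, l * x * l⁻¹ ∈ M) → ¬ p ∣ Nat.card ↥M → M = ⊥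

theorem noPPrime_of_simple {p : ℕ} (L : Subgroup G) [IsSimpleGroup ↥L] (hp : p ∣ Nat.card ↥L) :
    NoPPrime p L := by
  intro M hML hn hM
  haveI : (M.subgroupOf L).Normal := ⟨fun x hx l => hn l.1 l.2 x.1 hx⟩
  rcases Subgroup.Normal.eq_bot_or_eq_top (inferInstance : (M.subgroupOf L).Normal) with h | h
  · rwa [Subgroup.subgroupOf_eq_bot, disjoint_iff, inf_eq_left.2 hML] at h
  · exact absurd (le_antisymm hML (Subgroup.subgroupOf_eq_top.1 h) ▸ hp) hM

/-- The image of a simple group, if not trivial, is simple. -/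
theorem isSimpleGroup_range {Q : Type*} [Group Q] [IsSimpleGroup Q] (ψ : Q →* G)
    (h : ∃ x, ψ x ≠ 1) : IsSimpleGroup ↥ψ.range := by
  obtain ⟨x, hx⟩ := h
  haveI : Nontrivial ↥ψ.range :=
    ⟨⟨⟨ψ x, x, rfl⟩, 1, fun e => hx (congrArg Subtype.val e)⟩⟩
  exact IsSimpleGroup.isSimpleGroup_of_surjective ψ.rangeRestrict ψ.rangeRestrict_surjective

/-- The image of a simple central quotient is simple. -/
theorem isSimpleGroup_range_quot {S : Type*} [Group S] (ψ : S →* G) (Z : Subgroup S) [Z.Normal]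
    (hZ : Z ≤ ψ.ker) [IsSimpleGroup (S ⧸ Z)] (h : ∃ x, ψ x ≠ 1) : IsSimpleGroup ↥ψ.range := by
  obtain ⟨x, hx⟩ := h
  haveI := isSimpleGroup_range (QuotientGroup.lift Z ψ hZ) ⟨QuotientGroup.mk x, hx⟩
  have e : (QuotientGroup.lift Z ψ hZ).range = ψ.range := by
    ext y
    constructor
    · rintro ⟨s, rfl⟩
      obtain ⟨s, rfl⟩ := QuotientGroup.mk_surjective s
      exact ⟨s, rfl⟩
    · rintro ⟨s, rfl⟩
      exact ⟨QuotientGroup.mk s, rfl⟩
  rwa [e] at this

theorem dvd_card_of_orderOf {p : ℕ} (L : Subgroup G) {a : G} (ha : a ∈ L) (ho : orderOf a = p) :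
    p ∣ Nat.card ↥L := by
  rw [← ho, ← Nat.card_zpowers]
  exact Subgroup.card_dvd_of_le (by simpa using ha)

/-- If a subgroup `D` normalising `C` has no normal `p'`-subgroup, neither has `C`. -/
theorem noPPrime_of_normal [Finite G] {p : ℕ} [Fact p.Prime] {C D : Subgroup G} (hCD : C ≤ D)
    (hn : ∀ d ∈ D, ∀ c ∈ C, d * c * d⁻¹ ∈ C) (hD : NoPPrime p D) : NoPPrime p C := by
  intro M hMC hMn hM
  set N : Subgroup G := (Cfsg.pPrimeCore p ↥C).map C.subtype with hN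
  have hMN : M ≤ N := by
    intro x hx
    haveI : (M.subgroupOf C).Normal := ⟨fun y hy l => hMn l.1 l.2 y.1 hy⟩
    refine ⟨⟨x, hMC hx⟩, ?_, rfl⟩
    have hle : M.subgroupOf C ≤ Cfsg.pPrimeCore p ↥C := Cores.le_pPrimeCore inferInstance (by
      rw [Nat.card_congr (Subgroup.subgroupOfEquivOfLe hMC).toEquiv]
      exact Cores.coprime_iff_not_dvd_prime (Fact.out) |>.2 hM)
    exact hle (Subgroup.mem_subgroupOf.2 hx)
  have hbot : N = ⊥ := by
    refine hD N (fun x hx => ?_) ?_ ?_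
    · obtain ⟨y, -, rfl⟩ := hx
      exact hCD y.2
    · intro d hd x hx
      obtain ⟨y, hy, rfl⟩ := hx
      have hmap : C.map (MulAut.conj d).toMonoidHom = C := by
        refine le_antisymm ?_ fun c hc => ⟨d⁻¹ * c * d, ?_, by simp [mul_assoc]⟩
        · rintro _ ⟨c, hc, rfl⟩
          exact hn d hd c hc
        · simpa using hn d⁻¹ (inv_mem hd) c hc
      let e : ↥C ≃* ↥C :=
        (C.equivMapOfInjective (MulAut.conj d).toMonoidHom (MulAut.conj d).injective).trans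
          (MulEquiv.subgroupCongr hmap)
      refine ⟨e y, ?_, rfl⟩
      rw [← Cores.map_pPrimeCore_equiv e]
      exact ⟨y, hy, rfl⟩
    · rw [hN, Subgroup.card_subtype]
      exact Cores.not_dvd_card_pPrimeCore
  exact le_bot_iff.1 (hbot ▸ hMN)

/-- Vanishing of `O_{p'}(H)`. -/
theorem core_eq_bot [Finite G] {p : ℕ} [Fact p.Prime] {H C L : Subgroup G} (hLC : L ≤ C) (hCH : C ≤ H)
    (hCn : ∀ h ∈ H, ∀ c ∈ C, h * c * h⁻¹ ∈ C) (hLn : ∀ c ∈ C, ∀ l ∈ L, c * l * c⁻¹ ∈ L)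
    (hL : NoPPrime p L)
    (hcent : ∀ a ∈ H, (∀ l ∈ L, Commute a l) → ¬ p ∣ orderOf a → a = 1) :
    Cfsg.pPrimeCore p ↥H = ⊥ := by
  set N : Subgroup G := (Cfsg.pPrimeCore p ↥H).map H.subtype with hN
  have hNH : N ≤ H := by rintro x ⟨y, -, rfl⟩; exact y.2
  have hNn : ∀ h ∈ H, ∀ x ∈ N, h * x * h⁻¹ ∈ N := by
    rintro h hh _ ⟨y, hy, rfl⟩
    exact ⟨⟨h, hh⟩ * y * ⟨h, hh⟩⁻¹, (Cores.pPrimeCore_normal_inst p ↥H).conj_mem y hy _, rfl⟩
  have hNp : ¬ p ∣ Nat.card ↥N := by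
    rw [hN, Subgroup.card_subtype]
    exact Cores.not_dvd_card_pPrimeCore
  have hord : ∀ x ∈ N, ¬ p ∣ orderOf x := fun x hx h =>
    hNp (h.trans (by rw [← Nat.card_zpowers]; exact Subgroup.card_dvd_of_le (by simpa using hx)))
  have hNL : N ⊓ L = ⊥ := hL _ inf_le_right
    (fun l hl x hx => ⟨hNn l (hCH (hLC hl)) x hx.1, L.mul_mem (L.mul_mem hl hx.2) (L.inv_mem hl)⟩)
    (fun h => hNp (h.trans (Subgroup.card_dvd_of_le inf_le_left)))
  have hcommutator : ∀ {M : Subgroup G}, N ⊓ M = ⊥ → M ≤ H →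
      ∀ x ∈ N, ∀ l ∈ M, (x * l * x⁻¹ ∈ M) → Commute x l := by
    intro M hM hMH x hx l hl hxl
    have h1 : x * l * x⁻¹ * l⁻¹ ∈ N := by
      rw [mul_assoc x, mul_assoc x]
      exact N.mul_mem hx (hNn l (hMH hl) _ (N.inv_mem hx))
    have h2 : x * l * x⁻¹ * l⁻¹ ∈ N ⊓ M := ⟨h1, M.mul_mem hxl (M.inv_mem hl)⟩
    rw [hM, Subgroup.mem_bot] at h2
    exact mul_inv_eq_iff_eq_mul.1 (mul_inv_eq_one.1 h2)
  have hNC : N ⊓ C = ⊥ := (Subgroup.eq_bot_iff_forall _).2 fun x hx =>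
    hcent x (hNH hx.1) (fun l hl => hcommutator hNL (hLC.trans hCH) x hx.1 l hl (hLn x hx.2 l hl))
      (hord x hx.1)
  refine (Subgroup.map_eq_bot_iff_of_injective _ H.subtype_injective).1
    ((Subgroup.eq_bot_iff_forall _).2 fun x hx => hcent x (hNH hx) (fun l hl => ?_) (hord x hx))
  exact hcommutator hNC hCH x hx l (hLC hl) (hCn x (hNH hx) l (hLC hl))

section Aut

variable {K : Type*} [Group K]

theorem conj_mem_inn (k : K) : MulAut.conj k ∈ Cfsg.Inn K := ⟨k, rfl⟩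

theorem inn_le {A : Subgroup (MulAut K)} (h : ∀ k : K, MulAut.conj k ∈ A) : Cfsg.Inn K ≤ A := by
  rintro _ ⟨k, rfl⟩
  exact h k

/-- `Inn ∩ C(x)` is normalised by `C(x)`. -/
theorem inn_cent_normalized (x : MulAut K) (A : Subgroup (MulAut K)) {h c : MulAut K}
    (hh : h ∈ A ⊓ Subgroup.centralizer {x}) (hc : c ∈ Cfsg.Inn K ⊓ Subgroup.centralizer {x}) :
    h * c * h⁻¹ ∈ Cfsg.Inn K ⊓ Subgroup.centralizer {x} :=
  ⟨(AutPSL.inn_normal K).conj_mem c hc.1 h, mul_mem (mul_mem hh.2 hc.2) (Subgroup.inv_mem _ hh.2)⟩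

theorem card_eqLocus (hcen : ∀ k : K, MulAut.conj k = 1 → k = 1) (x : MulAut K) :
    Nat.card ↥(MonoidHom.eqLocus x.toMonoidHom (MonoidHom.id K)) =
      Nat.card ↥(Cfsg.Inn K ⊓ Subgroup.centralizer {x}) := by
  have key : ∀ k : K, MulAut.conj k * x = x * MulAut.conj k ↔ x k = k := by
    intro k
    have e : x * MulAut.conj k = MulAut.conj (x k) * x := MulEquiv.ext fun y => by simp
    rw [e, mul_left_inj]
    refine ⟨fun h => (eq_of_mul_inv_eq_one (hcen _ ?_)).symm, fun h => by rw [h]⟩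
    rw [map_mul, map_inv, h, mul_inv_cancel]
  let Φ : ↥(MonoidHom.eqLocus x.toMonoidHom (MonoidHom.id K)) →
      ↥(Cfsg.Inn K ⊓ Subgroup.centralizer {x}) := fun k =>
    ⟨MulAut.conj k.1, Subgroup.mem_inf.2 ⟨⟨k.1, rfl⟩,
      Subgroup.mem_centralizer_singleton_iff.2 ((key k.1).2 k.2)⟩⟩
  refine Nat.card_congr (Equiv.ofBijective Φ ⟨fun k k' h => ?_, ?_⟩)
  · refine Subtype.ext (eq_of_mul_inv_eq_one (hcen _ ?_))
    rw [map_mul, map_inv, show MulAut.conj k.1 = MulAut.conj k'.1 from congrArg Subtype.val h,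
      mul_inv_cancel]
  · rintro ⟨_, ⟨k, rfl⟩, hk⟩
    exact ⟨⟨k, (key k).1 (Subgroup.mem_centralizer_singleton_iff.1 hk)⟩, rfl⟩

theorem center_of_simple [Finite K] [IsSimpleGroup K] (hnc : ∃ a b : K, a * b ≠ b * a) :
    ∀ k : K, MulAut.conj k = 1 → k = 1 := by
  intro k hk
  have hkc : k ∈ Subgroup.center K := Subgroup.mem_center_iff.2 fun y => by
    have := DFunLike.congr_fun hk y
    simp only [MulAut.conj_apply, MulAut.one_apply] at this
    exact (mul_inv_eq_iff_eq_mul.1 this).symm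
  rcases Subgroup.Normal.eq_bot_or_eq_top (inferInstance : (Subgroup.center K).Normal) with h | h
  · rwa [h, Subgroup.mem_bot] at hkc
  · obtain ⟨a, b, hab⟩ := hnc
    have ha : b ∈ Subgroup.center K := h ▸ Subgroup.mem_top b
    exact absurd (Subgroup.mem_center_iff.1 ha a) hab

/-- The criterion for a fixed representative. -/
theorem criterion [Finite K] {p : ℕ} [Fact p.Prime] (hcen : ∀ k : K, MulAut.conj k = 1 → k = 1)
    (x : MulAut K) (A : Subgroup (MulAut K)) (hinn : Cfsg.Inn K ≤ A)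
    (hne : ∃ k : K, k ≠ 1 ∧ x k = k)
    (hbot : p ∣ Nat.card ↥(Cfsg.Inn K ⊓ Subgroup.centralizer {x}) →
      Cfsg.pPrimeCore p ↥(A ⊓ Subgroup.centralizer {x}) = ⊥) :
    Cfsg.pPrimeCore p ↥(A ⊓ Subgroup.centralizer {x}) ≠ ⊥ ↔
      Nat.Coprime p (Nat.card ↥(MonoidHom.eqLocus x.toMonoidHom (MonoidHom.id K))) := by
  rw [card_eqLocus hcen]
  set C := Cfsg.Inn K ⊓ Subgroup.centralizer {x}
  set H := A ⊓ Subgroup.centralizer {x}
  refine ⟨fun h => (Nat.Prime.coprime_iff_not_dvd Fact.out).2 fun hd => h (hbot hd), fun hcop h => ?_⟩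
  have hCH : C ≤ H := inf_le_inf hinn le_rfl
  haveI : (C.subgroupOf H).Normal := ⟨fun c hc a => inn_cent_normalized x A a.2 hc⟩
  have hle : C.subgroupOf H ≤ Cfsg.pPrimeCore p ↥H := Cores.le_pPrimeCore inferInstance (by
    rw [Nat.card_congr (Subgroup.subgroupOfEquivOfLe hCH).toEquiv]
    exact Nat.Coprime.symm hcop)
  rw [h, le_bot_iff, Subgroup.subgroupOf_eq_bot, disjoint_iff, inf_eq_left.2 hCH] at hle
  obtain ⟨k, hk1, hk⟩ := hne
  have hmem : MulAut.conj k ∈ C := by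
    refine Subgroup.mem_inf.2 ⟨⟨k, rfl⟩, Subgroup.mem_centralizer_singleton_iff.2 ?_⟩
    have e : x * MulAut.conj k = MulAut.conj (x k) * x := MulEquiv.ext fun y => by simp
    rw [e, hk]
  rw [hle, Subgroup.mem_bot] at hmem
  exact hk1 (hcen k hmem)

/-- Transfer of the criterion along conjugation. -/
theorem criterion_conj [Finite K] {p : ℕ} [Fact p.Prime] (x y α : MulAut K) (hα : α * x * α⁻¹ = y)
    (A : Subgroup (MulAut K)) (hinn : Cfsg.Inn K ≤ A)
    (h : ∀ B : Subgroup (MulAut K), Cfsg.Inn K ≤ B →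
      (Cfsg.pPrimeCore p ↥(B ⊓ Subgroup.centralizer {y}) ≠ ⊥ ↔
        Nat.Coprime p (Nat.card ↥(MonoidHom.eqLocus y.toMonoidHom (MonoidHom.id K))))) :
    Cfsg.pPrimeCore p ↥(A ⊓ Subgroup.centralizer {x}) ≠ ⊥ ↔
      Nat.Coprime p (Nat.card ↥(MonoidHom.eqLocus x.toMonoidHom (MonoidHom.id K))) := by
  let c : MulAut K ≃* MulAut K := MulAut.conj α
  have hmap : (A ⊓ Subgroup.centralizer {x}).map c.toMonoidHom =
      A.map c.toMonoidHom ⊓ Subgroup.centralizer {y} := by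
    rw [Subgroup.map_inf _ _ _ c.injective]
    congr 1
    ext z
    rw [Subgroup.mem_map_equiv, Subgroup.mem_centralizer_singleton_iff,
      Subgroup.mem_centralizer_singleton_iff, ← c.injective.eq_iff]
    simp only [map_mul, MulEquiv.apply_symm_apply]
    rw [show c x = y from hα]
  let e : ↥(A ⊓ Subgroup.centralizer {x}) ≃* ↥(A.map c.toMonoidHom ⊓ Subgroup.centralizer {y}) :=
    ((A ⊓ Subgroup.centralizer {x}).equivMapOfInjective _ c.injective).trans (MulEquiv.subgroupCongr hmap)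
  have hiff : Cfsg.pPrimeCore p ↥(A ⊓ Subgroup.centralizer {x}) = ⊥ ↔
      Cfsg.pPrimeCore p ↥(A.map c.toMonoidHom ⊓ Subgroup.centralizer {y}) = ⊥ := by
    rw [← Cores.map_pPrimeCore_equiv e]
    exact (Subgroup.map_eq_bot_iff_of_injective _ e.injective).symm
  have hinn' : Cfsg.Inn K ≤ A.map c.toMonoidHom := by
    intro z hz
    refine ⟨c.symm z, hinn ?_, c.apply_symm_apply z⟩
    show α⁻¹ * z * α ∈ _
    simpa using (AutPSL.inn_normal K).conj_mem z hz α⁻¹
  have hcard : Nat.card ↥(MonoidHom.eqLocus x.toMonoidHom (MonoidHom.id K)) =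
      Nat.card ↥(MonoidHom.eqLocus y.toMonoidHom (MonoidHom.id K)) := by
    refine Nat.card_congr (Equiv.subtypeEquiv α.toEquiv fun k => ?_)
    show x k = k ↔ y (α k) = α k
    rw [← hα]
    simp
  rw [hcard, ne_eq, hiff]
  exact h _ hinn'

/-- Triviality of the core only depends on the class of the automorphism. -/
theorem core_bot_conj [Finite K] {p : ℕ} [Fact p.Prime] (x y α : MulAut K) (hα : α * x * α⁻¹ = y)
    (A : Subgroup (MulAut K)) (hinn : Cfsg.Inn K ≤ A)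
    (h : ∀ B : Subgroup (MulAut K), Cfsg.Inn K ≤ B →
      Cfsg.pPrimeCore p ↥(B ⊓ Subgroup.centralizer {y}) = ⊥) :
    Cfsg.pPrimeCore p ↥(A ⊓ Subgroup.centralizer {x}) = ⊥ := by
  let c : MulAut K ≃* MulAut K := MulAut.conj α
  have hmap : (A ⊓ Subgroup.centralizer {x}).map c.toMonoidHom =
      A.map c.toMonoidHom ⊓ Subgroup.centralizer {y} := by
    rw [Subgroup.map_inf _ _ _ c.injective]
    congr 1
    ext z
    rw [Subgroup.mem_map_equiv, Subgroup.mem_centralizer_singleton_iff,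
      Subgroup.mem_centralizer_singleton_iff, ← c.injective.eq_iff]
    simp only [map_mul, MulEquiv.apply_symm_apply]
    rw [show c x = y from hα]
  let e : ↥(A ⊓ Subgroup.centralizer {x}) ≃* ↥(A.map c.toMonoidHom ⊓ Subgroup.centralizer {y}) :=
    ((A ⊓ Subgroup.centralizer {x}).equivMapOfInjective _ c.injective).trans (MulEquiv.subgroupCongr hmap)
  have hinn' : Cfsg.Inn K ≤ A.map c.toMonoidHom := by
    intro z hz
    refine ⟨c.symm z, hinn ?_, c.apply_symm_apply z⟩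
    show α⁻¹ * z * α ∈ _
    simpa using (AutPSL.inn_normal K).conj_mem z hz α⁻¹
  have := h _ hinn'
  rw [← Cores.map_pPrimeCore_equiv e] at this
  exact (Subgroup.map_eq_bot_iff_of_injective _ e.injective).1 this

end Aut

/-- An element of odd order which squares into a subgroup lies in it. -/
theorem mem_of_sq_mem_of_odd {a : G} {S : Subgroup G} (ho : Odd (orderOf a)) (h : a ^ 2 ∈ S) :
    a ∈ S := by
  obtain ⟨k, hk⟩ := ho
  have h1 : (a ^ 2) ^ (k + 1) = a := by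
    rw [← pow_mul, show 2 * (k + 1) = orderOf a + 1 by omega, pow_succ, pow_orderOf_eq_one, one_mul]
  rw [← h1]
  exact pow_mem h _

end Cfsg.Agent.LocalBal
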