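import Mathlib
import Cfsg.Agent.LocalBal.Lines

/-!
Sesquilinear Hermitian forms given by Gram matrices: perpendicular vectors, orthogonal bases,
reflections, and the rigidity of the semilinear maps commuting with all plane involutions.
-/

set_option autoImplicit false

namespace Cfsg.Agent.LocalBal

open Matrix

variable {F₀ : Type*} [Field F₀] {n : ℕ}

/-- The form `(u, v) ↦ uᵀ A θ(v)`. -/
def hB (θ : F₀ ≃+* F₀) (A : Matrix (Fin n) (Fin n) F₀) (u v : Fin n → F₀) : F₀ :=
  u ⬝ᵥ A *ᵥ (fun i => θ (v i))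

/-- The Hermitian condition. -/
structure IsHerm (θ : F₀ ≃+* F₀) (A : Matrix (Fin n) (Fin n) F₀) : Prop where
  inv : ∀ a, θ (θ a) = a
  herm : ∀ i j, θ (A i j) = A j i
  det : A.det ≠ 0
  two : (2 : F₀) ≠ 0

/-- The functional `u ↦ B(u, x) / B(x, x)`. -/
noncomputable def hφ (θ : F₀ ≃+* F₀) (A : Matrix (Fin n) (Fin n) F₀) (x : Fin n → F₀) : Fin n → F₀ :=
  (hB θ A x x)⁻¹ • A *ᵥ (fun i => θ (x i))

variable {θ : F₀ ≃+* F₀} {A : Matrix (Fin n) (Fin n) F₀}

theorem hB_add_left (u u' v : Fin n → F₀) : hB θ A (u + u') v = hB θ A u v + hB θ A u' v :=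
  add_dotProduct _ _ _

theorem hB_sub_left (u u' v : Fin n → F₀) : hB θ A (u - u') v = hB θ A u v - hB θ A u' v :=
  sub_dotProduct _ _ _

theorem hB_smul_left (c : F₀) (u v : Fin n → F₀) : hB θ A (c • u) v = c * hB θ A u v := by
  rw [hB, smul_dotProduct, smul_eq_mul]; rfl

theorem hB_zero_left (v : Fin n → F₀) : hB θ A 0 v = 0 := zero_dotProduct _

theorem hB_sum_left {ι : Type*} (s : Finset ι) (f : ι → Fin n → F₀) (v : Fin n → F₀) :
    hB θ A (∑ i ∈ s, f i) v = ∑ i ∈ s, hB θ A (f i) v := sum_dotProduct _ _ _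

theorem hB_add_right (u v v' : Fin n → F₀) : hB θ A u (v + v') = hB θ A u v + hB θ A u v' := by
  rw [hB, show (fun i => θ ((v + v') i)) = (fun i => θ (v i)) + fun i => θ (v' i) from
    funext fun i => map_add θ _ _, mulVec_add, dotProduct_add]
  rfl

theorem hB_smul_right (c : F₀) (u v : Fin n → F₀) : hB θ A u (c • v) = θ c * hB θ A u v := by
  rw [hB, show (fun i => θ ((c • v) i)) = θ c • fun i => θ (v i) from
    funext fun i => map_mul θ _ _, mulVec_smul, dotProduct_smul, smul_eq_mul]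
  rfl

theorem hB_sub_right (u v v' : Fin n → F₀) : hB θ A u (v - v') = hB θ A u v - hB θ A u v' := by
  rw [eq_sub_iff_add_eq, ← hB_add_right, sub_add_cancel]

theorem IsHerm.swap (h : IsHerm θ A) (u v : Fin n → F₀) : θ (hB θ A u v) = hB θ A v u := by
  simp only [hB, dotProduct, Matrix.mulVec, map_sum, map_mul, h.inv, h.herm, Finset.mul_sum]
  rw [Finset.sum_comm]
  exact Finset.sum_congr rfl fun i _ => Finset.sum_congr rfl fun j _ => by ring

theorem IsHerm.swap_zero (h : IsHerm θ A) {u v : Fin n → F₀} (e : hB θ A u v = 0) :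
    hB θ A v u = 0 := by rw [← h.swap, e, map_zero]

theorem IsHerm.nondeg (h : IsHerm θ A) {u : Fin n → F₀} (hu : ∀ v, hB θ A u v = 0) : u = 0 := by
  have h1 : ∀ w, (u ᵥ* A) ⬝ᵥ w = 0 := fun w => by
    have := hu (fun i => θ.symm (w i))
    rwa [hB, dotProduct_mulVec, show (fun i => θ (θ.symm (w i))) = w from
      funext fun i => θ.apply_symm_apply _] at this
  exact eq_zero_of_vecMul_eq_zero h.det (dotProduct_eq_zero _ h1)

theorem hφ_dot (x v : Fin n → F₀) : hφ θ A x ⬝ᵥ v = (hB θ A x x)⁻¹ * hB θ A v x := by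
  rw [hφ, smul_dotProduct, smul_eq_mul, dotProduct_comm]; rfl

theorem hφ_self {x : Fin n → F₀} (hx : hB θ A x x ≠ 0) : hφ θ A x ⬝ᵥ x = 1 := by
  rw [hφ_dot, inv_mul_cancel₀ hx]

theorem hφ_perp {x v : Fin n → F₀} (hv : hB θ A v x = 0) : hφ θ A x ⬝ᵥ v = 0 := by
  rw [hφ_dot, hv, mul_zero]

/-- A subspace with isotropic vectors only is totally isotropic. -/
theorem IsHerm.polar (h : IsHerm θ A) {u v : Fin n → F₀}
    (hiso : ∀ s : F₀, hB θ A (u + s • v) (u + s • v) = 0) (hv : hB θ A v v = 0) :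
    hB θ A u v = 0 := by
  have hu : hB θ A u u = 0 := by simpa using hiso 0
  have key : ∀ s : F₀, θ s * hB θ A u v + s * hB θ A v u = 0 := fun s => by
    have := hiso s
    simp only [hB_add_left, hB_add_right, hB_smul_left, hB_smul_right, hu, hv] at this
    linear_combination this
  by_cases hex : ∃ s, θ s ≠ s
  · obtain ⟨s, hs⟩ := hex
    have h1 := key 1
    rw [map_one, one_mul, one_mul] at h1
    have h2 : (θ s - s) * hB θ A u v = 0 := by linear_combination key s - s * h1
    exact (mul_eq_zero.1 h2).resolve_left (sub_ne_zero.2 hs)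
  · push Not at hex
    have h1 := key 1
    rw [map_one, one_mul, one_mul, ← h.swap u v, hex, ← two_mul] at h1
    exact (mul_eq_zero.1 h1).resolve_left h.two

/-- Fewer than `n` orthogonal anisotropic vectors extend by a further one. -/
theorem IsHerm.exists_perp (h : IsHerm θ A) {k : ℕ} (hk : k < n) (b : Fin k → Fin n → F₀)
    (hb : ∀ i, hB θ A (b i) (b i) ≠ 0) (ho : ∀ i j, i ≠ j → hB θ A (b i) (b j) = 0) :
    ∃ y, hB θ A y y ≠ 0 ∧ ∀ i, hB θ A y (b i) = 0 ∧ hB θ A (b i) y = 0 := by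
  let π : (Fin n → F₀) → Fin n → F₀ := fun v =>
    v - ∑ i, (hB θ A v (b i) / hB θ A (b i) (b i)) • b i
  have hπ : ∀ v i, hB θ A (π v) (b i) = 0 := fun v i => by
    simp only [π, hB_sub_left, hB_sum_left, hB_smul_left]
    rw [Finset.sum_eq_single i (fun j _ hj => by rw [ho j i hj, mul_zero])
      (fun hi => absurd (Finset.mem_univ i) hi), div_mul_cancel₀ _ (hb i), sub_self]
  by_contra hcon
  push Not at hcon
  have hiso : ∀ v, (∀ i, hB θ A v (b i) = 0) → hB θ A v v = 0 := fun v hv => by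
    by_contra hvv
    obtain ⟨i, hi⟩ := hcon v hvv
    exact hi (hv i) (h.swap_zero (hv i))
  have htot : ∀ v, π v = 0 := fun v => by
    refine h.nondeg fun w => ?_
    have h1 : hB θ A (π v) (π w) = 0 := by
      refine h.polar (fun s => hiso _ fun i => ?_) (hiso _ (hπ w))
      rw [hB_add_left, hB_smul_left, hπ, hπ, mul_zero, add_zero]
    have h2 : hB θ A (π v) (∑ i, (hB θ A w (b i) / hB θ A (b i) (b i)) • b i) = 0 := by
      apply h.swap_zero
      rw [hB_sum_left]
      exact Finset.sum_eq_zero fun i _ => by rw [hB_smul_left, h.swap_zero (hπ v i), mul_zero]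
    have h3 := hB_add_right (θ := θ) (A := A) (π v) (π w)
      (∑ i, (hB θ A w (b i) / hB θ A (b i) (b i)) • b i)
    rwa [show π w + ∑ i, (hB θ A w (b i) / hB θ A (b i) (b i)) • b i = w from sub_add_cancel _ _,
      h1, h2, add_zero] at h3
  have htop : (⊤ : Submodule F₀ (Fin n → F₀)) ≤ Submodule.span F₀ (Set.range b) := by
    intro v _
    rw [sub_eq_zero.1 (htot v)]
    exact Submodule.sum_mem _ fun i _ => Submodule.smul_mem _ _ (Submodule.subset_span ⟨i, rfl⟩)
  have := Submodule.finrank_mono htop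
  rw [finrank_top, Module.finrank_fintype_fun_eq_card, Fintype.card_fin] at this
  have h2 : (Set.range b).finrank F₀ ≤ Fintype.card (Fin k) := finrank_range_le_card b
  rw [Fintype.card_fin] at h2
  unfold Set.finrank at h2
  omega

/-- An orthogonal basis. -/
theorem IsHerm.exists_orth_basis (h : IsHerm θ A) :
    ∃ P : GL (Fin n) F₀, ∀ i j, i ≠ j →
      hB θ A ((P : Matrix (Fin n) (Fin n) F₀) *ᵥ Pi.single i 1)
        ((P : Matrix (Fin n) (Fin n) F₀) *ᵥ Pi.single j 1) = 0 := by
  have hfam : ∀ k, k ≤ n → ∃ b : Fin k → Fin n → F₀,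
      (∀ i, hB θ A (b i) (b i) ≠ 0) ∧ ∀ i j, i ≠ j → hB θ A (b i) (b j) = 0 := by
    intro k
    induction k with
    | zero => exact fun _ => ⟨Fin.elim0, fun i => i.elim0, fun i => i.elim0⟩
    | succ k ih =>
      intro hk
      obtain ⟨b, hb, ho⟩ := ih (by omega)
      obtain ⟨y, hy, hyb⟩ := h.exists_perp (by omega) b hb ho
      refine ⟨Fin.cons y b, fun i => ?_, fun i j hij => ?_⟩
      · induction i using Fin.cases with
        | zero => simpa using hy
        | succ i => simpa using hb i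
      · induction i using Fin.cases with
        | zero =>
          induction j using Fin.cases with
          | zero => exact absurd rfl hij
          | succ j => simpa using (hyb j).1
        | succ i =>
          induction j using Fin.cases with
          | zero => simpa using (hyb i).2
          | succ j => simpa using ho i j (fun e => hij (by rw [e]))
  obtain ⟨b, hb, ho⟩ := hfam n le_rfl
  let M : Matrix (Fin n) (Fin n) F₀ := (Matrix.of b)ᵀ
  have hcol : ∀ i, M *ᵥ Pi.single i 1 = b i := fun i => by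
    funext j
    simp [M]
  have hM : M.det ≠ 0 := by
    intro h0
    obtain ⟨v, hv, hMv⟩ := Matrix.exists_mulVec_eq_zero_iff.2 h0
    refine hv (funext fun j => ?_)
    have h1 : M *ᵥ v = ∑ i, v i • b i := by
      funext x
      simp [M, Matrix.mulVec, dotProduct, mul_comm]
    have h2 := congrArg (fun w => hB θ A w (b j)) (h1.symm.trans hMv)
    simp only [hB_sum_left, hB_smul_left, hB_zero_left] at h2
    rw [Finset.sum_eq_single j (fun i _ hi => by rw [ho i j hi, mul_zero])
      (fun hj => absurd (Finset.mem_univ j) hj)] at h2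
    exact (mul_eq_zero.1 h2).resolve_right (hb j)
  refine ⟨GeneralLinearGroup.mkOfDetNeZero M hM, fun i j hij => ?_⟩
  show hB θ A (M *ᵥ _) (M *ᵥ _) = 0
  rw [hcol, hcol]
  exact ho i j hij

/-! ### Reflections -/

theorem IsHerm.rMat_isometry (h : IsHerm θ A) {x : Fin n → F₀} (hx : hB θ A x x ≠ 0)
    (u v : Fin n → F₀) :
    hB θ A (rMat x (hφ θ A x) *ᵥ u) (rMat x (hφ θ A x) *ᵥ v) = hB θ A u v := by
  simp only [rMat_mulVec, hφ_dot, hB_sub_left, hB_sub_right, hB_smul_left, hB_smul_right, map_mul,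
    map_inv₀, h.swap x x, h.swap v x, map_ofNat]
  field_simp
  ring

variable {F : Type*} [Field F] (e : F₀ →+* F) (ρ : F ≃+* F)

/-- A semilinear map fixing the anisotropic lines is scalar. -/
theorem IsHerm.scalar_of_aniso (h : IsHerm θ A) (hn : 3 ≤ n) {g : Matrix (Fin n) (Fin n) F}
    (hg : g.det ≠ 0) (hl : ∀ x, hB θ A x x ≠ 0 → LineFixed e ρ g x) :
    (∀ a, ρ (e a) = e a) ∧ ∃ c : F, c ≠ 0 ∧ g = c • (1 : Matrix (Fin n) (Fin n) F) := by
  classical
  obtain ⟨P, hP⟩ := h.exists_orth_basis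
  set b : Fin n → Fin n → F₀ := fun i => (P : Matrix (Fin n) (Fin n) F₀) *ᵥ Pi.single i 1 with hb
  have hbb : ∀ i, hB θ A (b i) (b i) ≠ 0 := by
    intro i h0
    have : b i = 0 := h.nondeg fun v => by
      obtain ⟨c, rfl⟩ : ∃ c, v = (P : Matrix (Fin n) (Fin n) F₀) *ᵥ c :=
        ⟨((P⁻¹ : GL (Fin n) F₀) : Matrix (Fin n) (Fin n) F₀) *ᵥ v, by
          rw [mulVec_mulVec, ← Units.val_mul, mul_inv_cancel, Units.val_one, one_mulVec]⟩
      rw [pi_eq_sum_univ' c, Matrix.mulVec_sum]
      apply h.swap_zero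
      rw [hB_sum_left]
      refine Finset.sum_eq_zero fun j _ => ?_
      rw [mulVec_smul, hB_smul_left]
      rcases eq_or_ne j i with rfl | hji
      · simp only [hb] at h0 ⊢
        rw [h0, mul_zero]
      · rw [hP j i hji, mul_zero]
    have h1 := congrArg (((P⁻¹ : GL (Fin n) F₀) : Matrix (Fin n) (Fin n) F₀) *ᵥ ·) this
    simp only [hb, mulVec_mulVec, ← Units.val_mul, inv_mul_cancel, Units.val_one, one_mulVec,
      mulVec_zero] at h1
    simpa using congrFun h1 i
  refine scalar_of_lines e ρ hg P (by omega) (fun i => hl _ (hbb i)) fun i j hij s => ?_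
  have hq : ∀ s', hB θ A (b i + s' • b j) (b i + s' • b j) =
      hB θ A (b i) (b i) + s' * θ s' * hB θ A (b j) (b j) := fun s' => by
    simp only [hB_add_left, hB_add_right, hB_smul_left, hB_smul_right, hb, hP i j hij,
      hP j i hij.symm]
    ring
  have e1 : (P : Matrix (Fin n) (Fin n) F₀) *ᵥ (Pi.single i 1 + Pi.single j s) = b i + s • b j := by
    rw [mulVec_add, hb, ← mulVec_smul]
    simp [← Pi.single_smul']
  by_cases hs : hB θ A (b i) (b i) + s * θ s * hB θ A (b j) (b j) = 0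
  · obtain ⟨k, hk⟩ := Finset.card_pos.1 (show 0 < ({i, j}ᶜ : Finset (Fin n)).card by
      rw [Finset.card_compl, Finset.card_pair hij, Fintype.card_fin]; omega)
    simp at hk
    refine Or.inr ⟨k, hk.1, hk.2, hl _ ?_⟩
    rw [mulVec_add, e1, show (P : Matrix (Fin n) (Fin n) F₀) *ᵥ Pi.single k 1 = b k from rfl]
    have z1 : hB θ A (b i + s • b j) (b k) = 0 := by
      rw [hB_add_left, hB_smul_left]; simp only [hb, hP i k (Ne.symm hk.1), hP j k (Ne.symm hk.2)]; ring
    rw [hB_add_left (b i + s • b j) (b k), hB_add_right _ (b i + s • b j) (b k),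
      hB_add_right (b k) (b i + s • b j) (b k), z1, h.swap_zero z1, hq, hs]
    simpa using hbb k
  · exact Or.inl (hl _ (by rw [e1, hq]; exact hs))

/-- Rigidity: a semilinear map commuting with all plane involutions is scalar. -/
theorem IsHerm.scalar_of_planes (h : IsHerm θ A) (hn : 3 ≤ n) (h2 : (2 : F) ≠ 0)
    {g : Matrix (Fin n) (Fin n) F} (hg : g.det ≠ 0)
    (hc : ∀ x y, hB θ A x x ≠ 0 → hB θ A y y ≠ 0 → hB θ A x y = 0 →
      CommMap e ρ g (planeMat x (hφ θ A x) y (hφ θ A y))) :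
    (∀ a, ρ (e a) = e a) ∧ ∃ c : F, c ≠ 0 ∧ g = c • (1 : Matrix (Fin n) (Fin n) F) := by
  refine h.scalar_of_aniso e ρ hn hg fun x hx => ?_
  obtain ⟨y, hy, hyx⟩ := h.exists_perp (k := 1) (by omega) ![x] (fun i => by simpa using hx)
    (fun i j hij => absurd (Subsingleton.elim i j) hij)
  obtain ⟨hyx, hxy⟩ : hB θ A y x = 0 ∧ hB θ A x y = 0 := by simpa using hyx 0
  obtain ⟨z, hz, hzb⟩ := h.exists_perp (k := 2) (by omega) ![x, y]
    (fun i => by fin_cases i <;> simpa) (fun i j hij => by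
      fin_cases i <;> fin_cases j <;> first | exact absurd rfl hij | simpa)
  have hzx : hB θ A z x = 0 ∧ hB θ A x z = 0 := by simpa using hzb 0
  have hzy : hB θ A z y = 0 ∧ hB θ A y z = 0 := by simpa using hzb 1
  exact lineFixed_of_planes e ρ h2 (hφ_self hx) (hφ_perp hyx) (hφ_perp hxy) (hφ_self hx)
    (hφ_perp hzx.1) (hφ_perp hzx.2) (hc x y hx hy hxy) (hc x z hx hz hzx.2)
    (ω := hφ θ A z) (hφ_perp hzx.2) (hφ_perp hzy.2) (by rw [hφ_self hz]; exact one_ne_zero)

end Cfsg.Agent.LocalBal
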