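import Mathlib
import Cfsg.Agent.AutPSL.Outer
import Cfsg.Agent.LocalBal.Core
import Cfsg.Agent.Linear.Transvection

/-!
`O_{p'}` of centralizers of field automorphisms of `PSL_n(F)`.
-/

set_option autoImplicit false
set_option linter.unusedSectionVars false

namespace Cfsg.Agent.LocalBal.Lin

open Matrix Cfsg.Agent.AutPSL

variable {F : Type*} [Field F] {n : ℕ}

local notation "SLn" => Matrix.SpecialLinearGroup (Fin n) F
local notation "PSLn" => Matrix.ProjectiveSpecialLinearGroup (Fin n) F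
local notation "Mat" => Matrix (Fin n) (Fin n) F
local notation "GLn" => GL (Fin n) F
local notation "A⋆" => MulAut (Matrix.ProjectiveSpecialLinearGroup (Fin n) F)
local notation "sc" => (GeneralLinearGroup.scalar (Fin n) : Fˣ →* GL (Fin n) F)

theorem conj_injective (hn : 2 ≤ n) : ∀ k : PSLn, MulAut.conj k = 1 → k = 1 := by
  intro k hk
  obtain ⟨s, rfl⟩ := proj_surjective k
  rw [← conjAut_toGL, conjAut_eq_one_iff hn] at hk
  obtain ⟨c, hc⟩ := exists_sc_of_center hk
  rw [← map_one proj, eq_comm, proj_eq_proj_iff]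
  refine ⟨(c : F), ?_⟩
  have h1 := congrArg (fun x : GLn => (x : Mat)) hc
  rw [coe_sc] at h1
  exact h1

theorem fix_of_commute (hn : 2 ≤ n) {a : A⋆} {k : PSLn} (h : Commute a (MulAut.conj k)) : a k = k := by
  have e : a * MulAut.conj k * a⁻¹ = MulAut.conj (a k) := MulEquiv.ext fun y => by simp
  rw [h.eq, mul_inv_cancel_right] at e
  exact (eq_of_mul_inv_eq_one (conj_injective hn _ (by rw [map_mul, map_inv, e, mul_inv_cancel]))).symm

/-- An element fixing the transvections over a subfield is a field automorphism fixing the subfield. -/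
theorem eq_field_of_fix [Finite F] (hn : 2 ≤ n) (a : A⋆) (K : Subfield F)
    (h : ∀ (i j : Fin n) (hij : i ≠ j), ∀ c ∈ K,
      a (proj (SpecialLinearGroup.transvection hij c)) = proj (SpecialLinearGroup.transvection hij c)) :
    ∃ ρ : F ≃+* F, a = fieldAut ρ ∧ ∀ c ∈ K, ρ c = c := by
  have hdec : ∃ (g : GLn) (ρ : F ≃+* F),
      a = conjAut g * fieldAut ρ ∨ (3 ≤ n ∧ a = conjAut g * fieldAut ρ * invTAut) := by
    rcases eq_or_lt_of_le hn with rfl | h3
    · obtain ⟨g, ρ, e⟩ := exists_decomp_two a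
      exact ⟨g, ρ, Or.inl e⟩
    · obtain ⟨g, ρ, e | e⟩ := exists_decomp hn a
      · exact ⟨g, ρ, Or.inl e⟩
      · exact ⟨g, ρ, Or.inr ⟨h3, e⟩⟩
  obtain ⟨g, ρ, rfl | ⟨h3, rfl⟩⟩ := hdec
  · have key : ∀ (i j : Fin n), i ≠ j → ∀ c ∈ K,
        (g : Mat) * Matrix.single i j (ρ c) * ((g⁻¹ : GLn) : Mat) = Matrix.single i j c := by
      intro i j hij c hc
      have h1 := h i j hij c hc
      simp only [MulAut.mul_apply, fieldAut_proj, conjAut_proj, transvection_map] at h1
      refine conj_nil_eq g _ _ _ _ rfl rfl (single_sq_of_ne hij _) (Pi.single i 1) (by simp) ?_ h1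
      ext x
      simp [Matrix.mulVec_single, Matrix.single_apply, hij.symm]
    have hcomm : ∀ i j : Fin n, i ≠ j → Commute (Matrix.single i j (1 : F)) (g : Mat) := by
      intro i j hij
      have h1 := key i j hij 1 (one_mem K)
      rw [map_one] at h1
      show _ * _ = _ * _
      conv_lhs => rw [← h1]
      simp [mul_assoc]
    obtain ⟨r, hr⟩ := Matrix.mem_range_scalar_of_commute_single (M := (g : Mat)) fun i j hij => hcomm i j hij
    have hg : g ∈ Subgroup.center GLn :=
      Matrix.GeneralLinearGroup.mem_center_iff_val_mem_range_scalar.2 ⟨r, hr⟩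
    refine ⟨ρ, by rw [(conjAut_eq_one_iff hn).2 hg, one_mul], fun c hc => ?_⟩
    have hne : (⟨0, by omega⟩ : Fin n) ≠ ⟨1, by omega⟩ := by simp [Fin.ext_iff]
    have h1 := key _ _ hne c hc
    rw [← hr, (Matrix.scalar_commute r (fun _ => Commute.all _ _) _).eq, mul_assoc, hr,
      ← Units.val_mul, mul_inv_cancel, Units.val_one, mul_one] at h1
    simpa using congrFun (congrFun h1 ⟨0, by omega⟩) ⟨1, by omega⟩
  · exfalso
    have key : ∀ (i j : Fin n), i ≠ j →
        (g : Mat) * Matrix.single j i (-1) * ((g⁻¹ : GLn) : Mat) = Matrix.single i j (1 : F) := by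
      intro i j hij
      have h1 := h i j hij 1 (one_mem K)
      simp only [MulAut.mul_apply, invTAut_proj, slInvT_transvection, fieldAut_proj, conjAut_proj,
        transvection_map, map_neg, map_one] at h1
      refine conj_nil_eq g _ _ _ _ rfl rfl (single_sq_of_ne hij.symm _) (Pi.single i 1) (by simp) ?_ h1
      ext x
      simp [Matrix.mulVec_single, Matrix.single_apply, hij.symm]
    let i : Fin n := ⟨0, by omega⟩
    let j : Fin n := ⟨1, by omega⟩
    let k : Fin n := ⟨2, by omega⟩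
    have hij : i ≠ j := by simp [i, j, Fin.ext_iff]
    have hjk : j ≠ k := by simp [j, k, Fin.ext_iff]
    have hik : i ≠ k := by simp [i, k, Fin.ext_iff]
    have hprod : (g : Mat) * Matrix.single k i (1 : F) * ((g⁻¹ : GLn) : Mat) =
        ((g : Mat) * Matrix.single k j (-1) * ((g⁻¹ : GLn) : Mat)) *
        ((g : Mat) * Matrix.single j i (-1) * ((g⁻¹ : GLn) : Mat)) := by
      have hmul : (Matrix.single k j (-1) : Mat) * Matrix.single j i (-1) = Matrix.single k i (1 : F) := by
        rw [Matrix.single_mul_single_same, neg_one_mul, neg_neg]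
      simp [mul_assoc]
      rw [← mul_assoc (Matrix.single k j (-1 : F)), hmul]
    rw [key j k hjk, key i j hij, Matrix.single_mul_single_of_ne _ _ _ _ hik.symm] at hprod
    have h2 := congrArg (fun M : Mat => -M) (key i k hik)
    have e : (g : Mat) * Matrix.single k i (1 : F) * ((g⁻¹ : GLn) : Mat) =
        -((g : Mat) * Matrix.single k i (-1) * ((g⁻¹ : GLn) : Mat)) := by
      rw [← Matrix.neg_mul, ← Matrix.mul_neg]
      congr 2
      rw [← Matrix.single_neg, neg_neg]
    rw [e, key i k hik, neg_eq_zero] at hprod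
    simpa using congrFun (congrFun hprod i) k

theorem field_pow_eq_one [Finite F] (σ : F ≃+* F) {p : ℕ} (hσ : orderOf σ = p) (ρ : F ≃+* F)
    (hρ : ∀ c ∈ fixedField σ, ρ c = c) : ρ ^ p = 1 := by
  classical
  haveI : Algebra.IsAlgebraic ↥(fixedField σ) F := Algebra.IsAlgebraic.of_finite _ _
  have hcard : Nat.card (F ≃ₐ[↥(fixedField σ)] F) = p := by
    rw [IsGalois.card_aut_eq_finrank]
    have h : Nat.card F = Nat.card ↥(fixedField σ) ^ Module.finrank ↥(fixedField σ) F :=
      Module.natCard_eq_pow_finrank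
    rw [card_fixedField_pow σ, hσ] at h
    exact (Nat.pow_right_injective (Finite.one_lt_card (α := ↥(fixedField σ))) h).symm
  let ρ' : F ≃ₐ[↥(fixedField σ)] F := AlgEquiv.ofRingEquiv (f := ρ) fun x => hρ x.1 x.2
  have h := pow_card_eq_one' (x := ρ')
  rw [hcard] at h
  have hpow : ∀ k : ℕ, ∀ y, (ρ ^ k) y = (ρ' ^ k) y := by
    intro k
    induction k with
    | zero => intro y; rfl
    | succ k ih => intro y; rw [ringAut_pow_succ_apply, ih, pow_succ']; rfl
  exact RingEquiv.ext fun y => by rw [hpow, h]; rfl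

/-- `SL_n` over the fixed field inside the automorphism group. -/
def subSL (σ : F ≃+* F) : Matrix.SpecialLinearGroup (Fin n) ↥(fixedField σ) →* A⋆ :=
  conjAut.comp ((GeneralLinearGroup.map (fixedField σ).subtype).comp SpecialLinearGroup.toGL)

theorem subSL_eq_conj (σ : F ≃+* F) (s : Matrix.SpecialLinearGroup (Fin n) ↥(fixedField σ)) :
    subSL σ s = MulAut.conj (proj (SpecialLinearGroup.map (fixedField σ).subtype s)) := by
  rw [← conjAut_toGL]
  exact congrArg conjAut (Units.ext rfl)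

theorem subSL_mem (hn : 2 ≤ n) (σ : F ≃+* F) (s : Matrix.SpecialLinearGroup (Fin n) ↥(fixedField σ)) :
    subSL σ s ∈ Cfsg.Inn PSLn ⊓ Subgroup.centralizer {(fieldAut σ : A⋆)} := by
  refine Subgroup.mem_inf.2 ⟨?_, Subgroup.mem_comap.1 ((mem_cent_field hn σ _).2 ⟨1, ?_⟩)⟩
  · rw [subSL_eq_conj]; exact conj_mem_inn _
  · rw [map_one, one_mul]
    ext i j
    exact (s.1 i j).2

theorem exists_sub (hn : 2 ≤ n) (σ : F ≃+* F) {c : A⋆}
    (hc : c ∈ Cfsg.Inn PSLn ⊓ Subgroup.centralizer {(fieldAut σ : A⋆)}) :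
    ∃ g₀ : GL (Fin n) ↥(fixedField σ), c = conjAut (GeneralLinearGroup.map (fixedField σ).subtype g₀) := by
  obtain ⟨hi, hcen⟩ := Subgroup.mem_inf.1 hc
  rw [inn_eq_map] at hi
  obtain ⟨g, -, rfl⟩ := hi
  obtain ⟨μ, hμ⟩ := (mem_cent_field hn σ g).1 hcen
  let B : Matrix (Fin n) (Fin n) ↥(fixedField σ) := Matrix.of fun i j =>
    (⟨(sc μ * g : GLn) i j, congrArg (fun x : GLn => (x : Mat) i j) hμ⟩ : ↥(fixedField σ))
  have hdet : B.det ≠ 0 := fun h0 => by
    have h1 : (fixedField σ).subtype B.det = ((sc μ * g : GLn) : Mat).det := by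
      rw [RingHom.map_det]; rfl
    rw [h0, map_zero] at h1
    exact Units.ne_zero (GeneralLinearGroup.det (sc μ * g)) h1.symm
  refine ⟨GeneralLinearGroup.mkOfDetNeZero B hdet, ?_⟩
  rw [show GeneralLinearGroup.map (fixedField σ).subtype (GeneralLinearGroup.mkOfDetNeZero B hdet) =
    sc μ * g from Units.ext (Matrix.ext fun i j => rfl), map_mul, conjAut_sc hn, one_mul]

theorem subSL_normalized (hn : 2 ≤ n) (σ : F ≃+* F) {c : A⋆}
    (hc : c ∈ Cfsg.Inn PSLn ⊓ Subgroup.centralizer {(fieldAut σ : A⋆)}) {l : A⋆}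
    (hl : l ∈ (subSL (n := n) σ).range) : c * l * c⁻¹ ∈ (subSL (n := n) σ).range := by
  obtain ⟨g₀, rfl⟩ := exists_sub hn σ hc
  obtain ⟨s, rfl⟩ := hl
  refine ⟨slConj g₀ s, ?_⟩
  show conjAut _ = conjAut _ * conjAut _ * (conjAut _)⁻¹
  rw [← map_inv, ← map_mul, ← map_mul]
  congr 1
  show GeneralLinearGroup.map (fixedField σ).subtype _ = _
  rw [show (SpecialLinearGroup.toGL (slConj g₀ s)) = g₀ * SpecialLinearGroup.toGL s * g₀⁻¹ from
    Units.ext rfl, map_mul, map_mul, map_inv]
  rfl

theorem map_scalar_eq (σ : F ≃+* F) (d : (↥(fixedField σ))ˣ) :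
    GeneralLinearGroup.map (fixedField σ).subtype (GeneralLinearGroup.scalar (Fin n) d) =
      sc (Units.map (fixedField σ).subtype.toMonoidHom d) := by
  ext i j
  rcases eq_or_ne i j with rfl | h <;> simp [*]

theorem subSL_eq_one_iff (hn : 2 ≤ n) (σ : F ≃+* F) (s : Matrix.SpecialLinearGroup (Fin n) ↥(fixedField σ)) :
    subSL σ s = 1 ↔ ∃ d : ↥(fixedField σ), (s : Matrix (Fin n) (Fin n) ↥(fixedField σ)) = d • 1 := by
  show conjAut (GeneralLinearGroup.map (fixedField σ).subtype (SpecialLinearGroup.toGL s)) = 1 ↔ _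
  rw [conjAut_eq_one_iff hn]
  constructor
  · intro h
    obtain ⟨c, hc⟩ := exists_sc_of_center h
    have hent : ∀ i j, ((s : Matrix (Fin n) (Fin n) ↥(fixedField σ)) i j : F) =
        if i = j then (c : F) else 0 := fun i j => by
      have := congrArg (fun x : GLn => (x : Mat) i j) hc
      simp [coe_sc, Matrix.one_apply] at this
      exact this
    refine ⟨(s : Matrix (Fin n) (Fin n) ↥(fixedField σ)) ⟨0, by omega⟩ ⟨0, by omega⟩, ?_⟩
    ext i j
    simp only [Matrix.smul_apply, smul_eq_mul, MulMemClass.coe_mul, hent, Matrix.one_apply]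
    split_ifs <;> simp
  · rintro ⟨d, hd⟩
    have hd0 : d ≠ 0 := fun e => by
      haveI : Nonempty (Fin n) := ⟨⟨0, by omega⟩⟩
      have := s.2
      rw [hd, e, zero_smul, det_zero] at this
      exact zero_ne_one this
    rw [show SpecialLinearGroup.toGL s = GeneralLinearGroup.scalar (Fin n) (Units.mk0 d hd0) from
      Units.ext (by rw [GeneralLinearGroup.coe_scalar, scalar_apply, ← smul_one_eq_diagonal]; exact hd),
      map_scalar_eq]
    exact sc_mem_center _

end Cfsg.Agent.LocalBal.Lin
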