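import Mathlib
import Cfsg.Agent.LocalBal.LinField
import Cfsg.Agent.Linear.Orders

/-!
The criterion for standard field automorphisms of `PSL_n(F)`.
-/

set_option autoImplicit false
set_option linter.unusedSectionVars false

namespace Cfsg.Agent.LocalBal.Lin

open Matrix Cfsg.Agent.AutPSL

variable {F : Type*} [Field F] {n : ℕ}

local notation "SLn" => Matrix.SpecialLinearGroup (Fin n) F
local notation "PSLn" => Matrix.ProjectiveSpecialLinearGroup (Fin n) F
local notation "A⋆" => MulAut (Matrix.ProjectiveSpecialLinearGroup (Fin n) F)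

theorem subSL_center_le (hn : 2 ≤ n) (σ : F ≃+* F) :
    Subgroup.center (Matrix.SpecialLinearGroup (Fin n) ↥(fixedField σ)) ≤
      (subSL (n := n) σ).ker := by
  intro s hs
  rw [Matrix.SpecialLinearGroup.mem_center_iff] at hs
  obtain ⟨d, -, hd⟩ := hs
  rw [MonoidHom.mem_ker, subSL_eq_one_iff hn]
  exact ⟨d, by rw [← hd, scalar_apply, ← smul_one_eq_diagonal]⟩

theorem tv_not_scalar (hn : 2 ≤ n) {K : Type*} [Field K] {i j : Fin n} (hij : i ≠ j) :
    ¬∃ d : K, ((SpecialLinearGroup.transvection hij (1 : K) : Matrix.SpecialLinearGroup (Fin n) K) :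
      Matrix (Fin n) (Fin n) K) = d • 1 := by
  rintro ⟨d, hd⟩
  have h := congrFun (congrFun hd i) j
  change ((1 + Matrix.single i j (1 : K) : Matrix (Fin n) (Fin n) K)) i j = _ at h
  simp [hij] at h

/-- A prime dividing the fixed group divides the image of `SL_n` over the fixed field. -/
theorem dvd_card_subSL [Finite F] (hn : 2 ≤ n) (σ : F ≃+* F) {p : ℕ} [Fact p.Prime]
    (hp : p ∣ Nat.card ↥(Cfsg.Inn PSLn ⊓ Subgroup.centralizer {(fieldAut σ : A⋆)})) :
    p ∣ Nat.card ↥(subSL (n := n) σ).range := by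
  classical
  obtain ⟨y, hy⟩ := exists_prime_orderOf_dvd_card' p hp
  have hy' : orderOf (y : A⋆) = p := by rw [Subgroup.orderOf_coe, hy]
  obtain ⟨g₀, hg₀⟩ := exists_sub hn σ y.2
  haveI := Fintype.ofFinite ↥(fixedField σ)
  set k := Nat.card (↥(fixedField σ))ˣ with hk
  set e := Nat.gcd n k with he
  set u : (↥(fixedField σ))ˣ := GeneralLinearGroup.det g₀ with hu
  have hue : (u ^ Nat.gcdA n k) ^ n = u ^ e := by
    have h1 : u ^ ((e : ℕ) : ℤ) = u ^ (((n : ℤ) * Nat.gcdA n k) + (k : ℤ) * Nat.gcdB n k) := by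
      rw [he, Nat.gcd_eq_gcd_ab]
    rw [zpow_natCast, _root_.zpow_add, _root_.zpow_mul u (k : ℤ), zpow_natCast, hk, pow_card_eq_one', _root_.one_zpow,
      mul_one, mul_comm, _root_.zpow_mul, zpow_natCast] at h1
    exact h1.symm
  have hye : (y : A⋆) ^ e ∈ (subSL (n := n) σ).range := by
    set z : (↥(fixedField σ))ˣ := u ^ Nat.gcdA n k
    set g₁ : GL (Fin n) ↥(fixedField σ) := GeneralLinearGroup.scalar (Fin n) z⁻¹ * g₀ ^ e with hg₁
    have hd : GeneralLinearGroup.det g₁ = 1 := by
      rw [hg₁, map_mul, map_pow, det_sc, inv_pow, hue, hu, inv_mul_cancel]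
    refine ⟨⟨g₁.1, by rw [← GeneralLinearGroup.val_det_apply, hd, Units.val_one]⟩, ?_⟩
    show conjAut (GeneralLinearGroup.map (fixedField σ).subtype _) = _
    rw [show (SpecialLinearGroup.toGL (⟨g₁.1, by
      rw [← GeneralLinearGroup.val_det_apply, hd, Units.val_one]⟩ :
        Matrix.SpecialLinearGroup (Fin n) ↥(fixedField σ))) = g₁ from Units.ext rfl, hg₁, map_mul,
      map_mul, map_pow, map_pow, ← hg₀, map_scalar_eq, conjAut_sc hn, one_mul]
  by_cases hpe : p ∣ e
  · have hpn : p ∣ n := hpe.trans (Nat.gcd_dvd_left n k)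
    have hpk : p ∣ k := hpe.trans (Nat.gcd_dvd_right n k)
    obtain ⟨ω, hω⟩ := exists_prime_orderOf_dvd_card' (G := (↥(fixedField σ))ˣ) p hpk
    rcases eq_or_lt_of_le hn with rfl | h3
    · obtain rfl : p = 2 := (Nat.prime_dvd_prime_iff_eq Fact.out Nat.prime_two).1 hpn
      let s : Matrix.SpecialLinearGroup (Fin 2) ↥(fixedField σ) :=
        ⟨!![0, 1; -1, 0], by simp [Matrix.det_fin_two]⟩
      refine dvd_card_of_orderOf _ ⟨s, rfl⟩ (orderOf_eq_prime ?_ ?_)
      · rw [← map_pow, subSL_eq_one_iff le_rfl]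
        refine ⟨-1, ?_⟩
        rw [sq, Matrix.SpecialLinearGroup.coe_mul]
        ext i j
        fin_cases i <;> fin_cases j <;> simp [s]
      · rw [Ne, subSL_eq_one_iff le_rfl]
        rintro ⟨d, hd⟩
        have := congrFun (congrFun hd 0) 1
        simp [s] at this
    · haveI : NeZero n := ⟨by omega⟩
      let i : Fin n := ⟨0, by omega⟩
      let j : Fin n := ⟨1, by omega⟩
      let l : Fin n := ⟨2, by omega⟩
      have hij : i ≠ j := by simp [i, j, Fin.ext_iff]
      have hli : l ≠ i := by simp [i, l, Fin.ext_iff]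
      have hlj : l ≠ j := by simp [j, l, Fin.ext_iff]
      set d₁ : GL (Fin n) ↥(fixedField σ) := diagAt i ω * diagAt j ω⁻¹ with hd₁
      have hdet : (d₁ : Matrix (Fin n) (Fin n) ↥(fixedField σ)).det = 1 := by
        rw [hd₁, Units.val_mul, det_mul, det_diagAt, det_diagAt, ← Units.val_mul, mul_inv_cancel,
          Units.val_one]
      let s : Matrix.SpecialLinearGroup (Fin n) ↥(fixedField σ) := ⟨d₁.1, hdet⟩
      have hdiag : (d₁ : Matrix (Fin n) (Fin n) ↥(fixedField σ)) = Matrix.diagonal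
          (Function.update (1 : Fin n → ↥(fixedField σ)) i (ω : ↥(fixedField σ)) *
            Function.update (1 : Fin n → ↥(fixedField σ)) j ((ω⁻¹ : (↥(fixedField σ))ˣ) : ↥(fixedField σ))) := by
        rw [hd₁, Units.val_mul]
        show Matrix.diagonal _ * Matrix.diagonal _ = _
        rw [Matrix.diagonal_mul_diagonal]
        rfl
      have hωp : (ω : ↥(fixedField σ)) ^ p = 1 := by
        rw [← Units.val_pow_eq_pow_val, ← hω, pow_orderOf_eq_one, Units.val_one]
      refine dvd_card_of_orderOf _ ⟨s, rfl⟩ (orderOf_eq_prime ?_ ?_)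
      · rw [← map_pow, subSL_eq_one_iff hn]
        refine ⟨1, ?_⟩
        rw [one_smul, Matrix.SpecialLinearGroup.coe_pow]
        show (d₁ : Matrix (Fin n) (Fin n) ↥(fixedField σ)) ^ p = 1
        rw [hdiag, Matrix.diagonal_pow, ← Matrix.diagonal_one]
        congr 1
        funext a
        simp only [Pi.pow_apply, Pi.mul_apply, mul_pow]
        rcases eq_or_ne a i with rfl | hai
        · simp [hij, hωp]
        rcases eq_or_ne a j with rfl | haj
        · simp [hai, Units.val_inv_eq_inv_val, inv_pow, hωp]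
        simp [hai, haj]
      · rw [Ne, subSL_eq_one_iff hn]
        rintro ⟨d, hd⟩
        have h1 : (d₁ : Matrix (Fin n) (Fin n) ↥(fixedField σ)) = d • 1 := hd
        rw [hdiag, smul_one_eq_diagonal, Matrix.diagonal_eq_diagonal_iff] at h1
        have ei := h1 i
        have el := h1 l
        simp [hij, hli, hlj] at ei el
        have : (ω : ↥(fixedField σ)) = 1 := by rw [ei, ← el]
        have h2 : ω = 1 := Units.ext this
        rw [h2, orderOf_one] at hω
        exact (Fact.out : p.Prime).one_lt.ne hω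
  · obtain ⟨m, hm⟩ := exists_pow_eq_self_of_coprime (x := (y : A⋆)) (n := e)
      (by rw [hy']; exact Nat.Coprime.symm ((Nat.Prime.coprime_iff_not_dvd Fact.out).2 hpe))
    exact dvd_card_of_orderOf _ (hm ▸ pow_mem hye m) hy'

/-- The exceptional cases `PSL_2(2)`, `PSL_2(3)`. -/
theorem noPPrime_small [Finite F] (σ : F ≃+* F) {p : ℕ} [Fact p.Prime]
    (hsmall : ¬ 4 ≤ Nat.card ↥(fixedField σ))
    (hpq : ¬ p ∣ Nat.card ↥(fixedField σ))
    (hpL : p ∣ Nat.card ↥(subSL (n := 2) σ).range) : NoPPrime p (subSL (n := 2) σ).range := by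
  classical
  haveI := Fintype.ofFinite ↥(fixedField σ)
  set q := Nat.card ↥(fixedField σ) with hq
  have hq1 : 1 < q := Finite.one_lt_card
  have hqp : q.Prime := by
    rcases (show q = 2 ∨ q = 3 by omega) with e | e <;> rw [e] <;> norm_num
  haveI : Fact q.Prime := ⟨hqp⟩
  set L := (subSL (n := 2) σ).range with hL
  have hcardL : Nat.card ↥L ∣ q * ((q - 1) * (q + 1)) := by
    rw [hq, Nat.card_eq_fintype_card (α := ↥(fixedField σ)), ← mul_assoc, ← Linear.card_SL_two]
    exact Subgroup.card_range_dvd _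
  have hsq : ¬ q ^ 2 ∣ q * ((q - 1) * (q + 1)) := by
    rw [sq, Nat.mul_dvd_mul_iff_left (by omega)]
    rcases (show q = 2 ∨ q = 3 by omega) with e | e <;> rw [e] <;> norm_num
  intro M hML hMn hMp
  by_contra hMne
  have hMq : ∃ k, Nat.card ↥M = q ^ k := by
    refine ⟨_, Nat.eq_prime_pow_of_unique_prime_dvd Nat.card_pos.ne' fun {d} hd hdM => ?_⟩
    by_contra hdq
    have h1 : d ∣ q * ((q - 1) * (q + 1)) :=
      (hdM.trans (Subgroup.card_dvd_of_le hML)).trans hcardL
    have h2 : p ∣ q * ((q - 1) * (q + 1)) := hpL.trans hcardL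
    rcases (show q = 2 ∨ q = 3 by omega) with e | e
    · rw [e] at h1 h2 hdq hpq
      have hd6 : d = 2 ∨ d = 3 := by
        have := (hd.dvd_mul).1 (show d ∣ 2 * 3 by simpa using h1)
        rcases this with h | h
        · exact Or.inl ((Nat.prime_dvd_prime_iff_eq hd Nat.prime_two).1 h)
        · exact Or.inr ((Nat.prime_dvd_prime_iff_eq hd Nat.prime_three).1 h)
      have hp6 : p = 2 ∨ p = 3 := by
        have := ((Fact.out : p.Prime).dvd_mul).1 (show p ∣ 2 * 3 by simpa using h2)
        rcases this with h | h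
        · exact Or.inl ((Nat.prime_dvd_prime_iff_eq Fact.out Nat.prime_two).1 h)
        · exact Or.inr ((Nat.prime_dvd_prime_iff_eq Fact.out Nat.prime_three).1 h)
      obtain rfl : d = 3 := hd6.resolve_left hdq
      obtain rfl : p = 3 := hp6.resolve_left fun h => hpq (h ▸ dvd_rfl)
      exact hMp hdM
    · rw [e] at h1 h2 hdq hpq
      have hd24 : d = 2 ∨ d = 3 := by
        rcases (hd.dvd_mul).1 (show d ∣ 3 * 2 ^ 3 by simpa using h1) with h | h
        · exact Or.inr ((Nat.prime_dvd_prime_iff_eq hd Nat.prime_three).1 h)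
        · exact Or.inl ((Nat.prime_dvd_prime_iff_eq hd Nat.prime_two).1 (hd.dvd_of_dvd_pow h))
      have hp24 : p = 2 ∨ p = 3 := by
        rcases ((Fact.out : p.Prime).dvd_mul).1 (show p ∣ 3 * 2 ^ 3 by simpa using h2) with h | h
        · exact Or.inr ((Nat.prime_dvd_prime_iff_eq Fact.out Nat.prime_three).1 h)
        · exact Or.inl ((Nat.prime_dvd_prime_iff_eq Fact.out Nat.prime_two).1
            ((Fact.out : p.Prime).dvd_of_dvd_pow h))
      obtain rfl : d = 2 := hd24.resolve_right hdq
      obtain rfl : p = 2 := hp24.resolve_right fun h => hpq (h ▸ dvd_rfl)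
      exact hMp hdM
  obtain ⟨k, hk⟩ := hMq
  have hk1 : k = 1 := by
    rcases k with _ | _ | k
    · exact absurd (Subgroup.eq_bot_of_card_eq M (by rw [hk, pow_zero])) hMne
    · rfl
    · exact absurd ((pow_dvd_pow q (by omega : 2 ≤ k + 2)).trans
        ((hk ▸ Subgroup.card_dvd_of_le hML).trans hcardL)) hsq
  rw [hk1, pow_one] at hk
  let tv : ∀ (i j : Fin 2), i ≠ j → MulAut (Matrix.ProjectiveSpecialLinearGroup (Fin 2) F) :=
    fun i j hij => subSL σ (SpecialLinearGroup.transvection hij 1)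
  have hmem : ∀ (i j : Fin 2) (hij : i ≠ j), tv i j hij ∈ M := by
    intro i j hij
    set u := tv i j hij with hu
    have huL : u ∈ L := ⟨_, rfl⟩
    have hchar : ((q : ℕ) : ↥(fixedField σ)) = 0 := by
      rw [hq, Nat.card_eq_fintype_card]; exact Nat.cast_card_eq_zero _
    have huq : u ^ q = 1 := by
      rw [hu]
      show (subSL σ _) ^ q = 1
      rw [← map_pow]
      have h1 : ∀ m : ℕ, (SpecialLinearGroup.transvection hij (1 : ↥(fixedField σ))) ^ m =
          SpecialLinearGroup.transvection hij (m : ↥(fixedField σ)) := by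
        intro m
        induction m with
        | zero => apply Subtype.ext; simp [SpecialLinearGroup.transvection, Matrix.single]; rfl
        | succ m ih =>
          rw [pow_succ, ih, Nat.cast_succ]
          apply Subtype.ext
          exact (Matrix.transvection_mul_transvection_same (i := i) (j := j) hij (m : ↥(fixedField σ)) 1)
      rw [h1, hchar, subSL_eq_one_iff le_rfl]
      refine ⟨1, ?_⟩
      show 1 + Matrix.single i j (0 : ↥(fixedField σ)) = (1 : ↥(fixedField σ)) • 1
      simp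
    let M' : Subgroup ↥L := M.subgroupOf L
    haveI : M'.Normal := ⟨fun x hx l => hMn l.1 l.2 x.1 hx⟩
    have hM'c : Nat.card ↥M' = q := by
      rw [← hk]; exact Nat.card_congr (Subgroup.subgroupOfEquivOfLe hML).toEquiv
    set U : Subgroup ↥L := Subgroup.zpowers (⟨u, huL⟩ : ↥L)
    have hUc : Nat.card ↥U ∣ q := by
      rw [Nat.card_zpowers]
      exact orderOf_dvd_of_pow_eq_one (Subtype.ext (by simpa using huq))
    have h1 : Nat.card ↥(U ⊔ M') ∣ q := by
      have h2 : Nat.card ↥(U ⊔ M') ∣ q ^ 2 := by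
        refine (Cores.card_sup_dvd_mul U M').trans ?_
        rw [hM'c, sq]
        exact Nat.mul_dvd_mul_right hUc q
      obtain ⟨a, ha, e⟩ := (Nat.dvd_prime_pow hqp).1 h2
      rw [e]
      rcases a with _ | _ | a
      · simp
      · simp
      · obtain rfl : a = 0 := by omega
        exact absurd ((e ▸ (Subgroup.card_subgroup_dvd_card (U ⊔ M'))).trans hcardL) hsq
    have h2 : M' = U ⊔ M' := Subgroup.eq_of_le_of_card_ge le_sup_right
      (hM'c ▸ Nat.le_of_dvd hqp.pos h1)
    have h3 : (⟨u, huL⟩ : ↥L) ∈ M' := by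
      rw [h2]; exact Subgroup.mem_sup_left (Subgroup.mem_zpowers _)
    exact h3
  haveI : IsCyclic ↥M := isCyclic_of_prime_card (p := q) hk
  have h01 : (0 : Fin 2) ≠ 1 := by decide
  letI := IsCyclic.commGroup (α := ↥M)
  have hcomm := mul_comm (⟨_, hmem 0 1 h01⟩ : ↥M) ⟨_, hmem 1 0 h01.symm⟩
  have hc2 : subSL σ (SpecialLinearGroup.transvection h01 (1 : ↥(fixedField σ))) *
      subSL σ (SpecialLinearGroup.transvection h01.symm 1) =
      subSL σ (SpecialLinearGroup.transvection h01.symm (1 : ↥(fixedField σ))) *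
      subSL σ (SpecialLinearGroup.transvection h01 1) := congrArg Subtype.val hcomm
  rw [← map_mul, ← map_mul, ← mul_inv_eq_one, ← map_inv, ← map_mul, subSL_eq_one_iff le_rfl] at hc2
  obtain ⟨d, hd⟩ := hc2
  have h3 := congrArg (fun X : Matrix (Fin 2) (Fin 2) ↥(fixedField σ) => X *
    ((SpecialLinearGroup.transvection h01.symm (1 : ↥(fixedField σ)) *
      SpecialLinearGroup.transvection h01 1 : Matrix.SpecialLinearGroup (Fin 2) ↥(fixedField σ)) :
        Matrix (Fin 2) (Fin 2) ↥(fixedField σ))) hd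
  simp only [← Matrix.SpecialLinearGroup.coe_mul, inv_mul_cancel_right, Matrix.smul_mul, one_mul] at h3
  simp only [Matrix.SpecialLinearGroup.coe_mul] at h3
  have e00 := congrFun (congrFun h3 0) 0
  have e01' := congrFun (congrFun h3 0) 1
  simp [SpecialLinearGroup.transvection, Matrix.transvection, Matrix.mul_apply, Fin.sum_univ_two, Matrix.single_apply] at e00 e01'
  rw [← e01'] at e00
  exact one_ne_zero (show (1 : ↥(fixedField σ)) = 0 by linear_combination e00)

/-- The criterion for a standard field automorphism. -/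
theorem local_std [Finite F] (hn : 2 ≤ n) {p : ℕ} [Fact p.Prime] (σ : F ≃+* F) (hσ : orderOf σ = p)
    (hpq : ¬ p ∣ Nat.card ↥(fixedField σ)) (A : Subgroup A⋆) (hinn : Cfsg.Inn PSLn ≤ A) :
    Cfsg.pPrimeCore p ↥(A ⊓ Subgroup.centralizer {(fieldAut σ : A⋆)}) ≠ ⊥ ↔
      Nat.Coprime p (Nat.card ↥(MonoidHom.eqLocus (fieldAut σ : A⋆).toMonoidHom
        (MonoidHom.id PSLn))) := by
  classical
  haveI : Nontrivial (Fin n) := Fin.nontrivial_iff_two_le.2 hn
  obtain ⟨i₀, j₀, hij⟩ := exists_pair_ne (Fin n)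
  refine criterion (conj_injective hn) _ A hinn
    ⟨proj (SpecialLinearGroup.transvection hij 1), ?_, ?_⟩ fun hp => ?_
  · rw [← map_one proj, Ne, eq_comm, proj_eq_proj_iff]
    rintro ⟨c, hc⟩
    rw [Matrix.SpecialLinearGroup.coe_one] at hc
    exact tv_not_scalar hn hij ⟨c, hc⟩
  · rw [fieldAut_proj, transvection_map, map_one]
  have hpL := dvd_card_subSL hn σ hp
  have hL : NoPPrime p (subSL (n := n) σ).range := by
    by_cases hs : n = 2 ∧ ¬ 4 ≤ Nat.card ↥(fixedField σ)
    · obtain ⟨rfl, h4⟩ := hs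
      exact noPPrime_small σ h4 hpq hpL
    · haveI : IsSimpleGroup (Matrix.SpecialLinearGroup (Fin n) ↥(fixedField σ) ⧸
          Subgroup.center (Matrix.SpecialLinearGroup (Fin n) ↥(fixedField σ))) :=
        Linear.isSimpleGroup_PSL_fin n hn fun h => by_contra fun h4 => hs ⟨h, h4⟩
      haveI := isSimpleGroup_range_quot (subSL (n := n) σ) _ (subSL_center_le hn σ)
        ⟨SpecialLinearGroup.transvection hij 1, fun h =>
          tv_not_scalar hn hij ((subSL_eq_one_iff hn σ _).1 h)⟩
      exact noPPrime_of_simple _ hpL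
  refine core_eq_bot (L := (subSL (n := n) σ).range)
    (by rintro _ ⟨s, rfl⟩; exact subSL_mem hn σ s) (inf_le_inf hinn le_rfl)
    (fun h hh c hc => inn_cent_normalized _ A hh hc)
    (fun c hc l hl => subSL_normalized hn σ hc hl) hL fun a _ hcomm hpo => ?_
  obtain ⟨ρ, rfl, hρ⟩ := eq_field_of_fix hn a (fixedField σ) fun i j hij c hc => by
    refine fix_of_commute hn ?_
    have h := hcomm _ ⟨SpecialLinearGroup.transvection hij ⟨c, hc⟩, rfl⟩
    rw [subSL_eq_conj] at h
    have e : SpecialLinearGroup.map (fixedField σ).subtype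
        (SpecialLinearGroup.transvection hij (⟨c, hc⟩ : ↥(fixedField σ))) =
        SpecialLinearGroup.transvection hij c := by
      apply Subtype.ext
      show (1 + Matrix.single i j (⟨c, hc⟩ : ↥(fixedField σ))).map _ = 1 + Matrix.single i j c
      ext x y
      simp [Matrix.one_apply, Matrix.single_apply, apply_ite Subtype.val]
    rwa [e] at h
  have hpow : (fieldAut ρ : A⋆) ^ p = 1 := by
    rw [← map_pow, field_pow_eq_one σ hσ ρ hρ, map_one]
  rcases (Nat.dvd_prime Fact.out).1 (orderOf_dvd_of_pow_eq_one hpow) with h | h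
  · exact orderOf_eq_one_iff.1 h
  · exact absurd (h ▸ dvd_rfl) hpo

end Cfsg.Agent.LocalBal.Lin
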