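import Mathlib
import Cfsg.Agent.LocalBal.Herm
import Cfsg.Agent.GraphForms.Sim

/-!
The projective similitude group of a symmetric form in dimension at least three has no non-trivial
normal subgroup of odd order (odd characteristic).
-/

set_option autoImplicit false

namespace Cfsg.Agent.LocalBal

open Matrix Cfsg.Agent.GraphForms

variable {F : Type*} [Field F] {n : ℕ} {A : Matrix (Fin n) (Fin n) F}

local notation "θ₁" => RingEquiv.refl F
local notation "⟪" u ", " v "⟫" => hB (RingEquiv.refl F) A u v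

theorem hB_one (u v : Fin n → F) : ⟪u, v⟫ = u ⬝ᵥ A *ᵥ v := rfl

theorem rMat_mem_Iso (h : IsHerm θ₁ A) {x : Fin n → F} (hx : ⟪x, x⟫ ≠ 0) :
    rGL x (hφ θ₁ A x) (hφ_self hx) ∈ Iso A :=
  mem_Iso_iff_dot.2 fun u v => h.rMat_isometry hx u v

theorem hB_comm (h : IsHerm θ₁ A) (u v : Fin n → F) : ⟪u, v⟫ = ⟪v, u⟫ := h.swap v u |>.symm.trans rfl |>.trans rfl

/-- A binary anisotropic-or-not form takes every value. -/
theorem exists_binary [Finite F] (h2 : (2 : F) ≠ 0) {a d t : F} (ha : a ≠ 0) (hd : d ≠ 0) :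
    ∃ x y : F, a * x ^ 2 + d * y ^ 2 = t := by
  classical
  haveI := Fintype.ofFinite F
  have hodd : Fintype.card F % 2 = 1 := FiniteField.odd_card_of_char_ne_two fun h => h2 (by
    haveI : CharP F 2 := by rw [← h]; exact ringChar.charP F
    exact CharTwo.two_eq_zero)
  obtain ⟨x, y, hxy⟩ := FiniteField.exists_root_sum_quadratic
    (f := Polynomial.C a * Polynomial.X ^ 2) (g := Polynomial.C d * Polynomial.X ^ 2 - Polynomial.C t)
    (Polynomial.degree_C_mul_X_pow 2 ha)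
    (by rw [Polynomial.degree_sub_C (by rw [Polynomial.degree_C_mul_X_pow 2 hd]; decide),
      Polynomial.degree_C_mul_X_pow 2 hd]; rfl) hodd
  refine ⟨x, y, ?_⟩
  simp only [Polynomial.eval_sub, Polynomial.eval_mul, Polynomial.eval_C, Polynomial.eval_pow,
    Polynomial.eval_X] at hxy
  linear_combination hxy

/-- For a product `r` of two reflections with distinct centres some anisotropic vector is
orthogonal to its image under `r`. -/
theorem exists_perp_image [Finite F] (h : IsHerm θ₁ A) (hn : 3 ≤ n) {v w : Fin n → F}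
    (hv : ⟪v, v⟫ ≠ 0) (hw : ⟪w, w⟫ ≠ 0) (hvw : ∀ t : F, w ≠ t • v) :
    ∃ x, ⟪x, x⟫ ≠ 0 ∧
      ⟪x, rMat w (hφ θ₁ A w) *ᵥ (rMat v (hφ θ₁ A v) *ᵥ x)⟫ = 0 := by
  have h2 := h.two
  set a := ⟪v, v⟫ with ha
  set a' := ⟪w, w⟫ with ha'
  set b := ⟪v, w⟫ with hb
  have hbw : ⟪w, v⟫ = b := hB_comm h w v
  -- the value to be killed
  have key : ∀ x, ⟪x, rMat w (hφ θ₁ A w) *ᵥ (rMat v (hφ θ₁ A v) *ᵥ x)⟫ =
      ⟪x, x⟫ - 2 * (a' * ⟪x, v⟫ ^ 2 + a * ⟪x, w⟫ ^ 2 - 2 * b * ⟪x, v⟫ * ⟪x, w⟫) / (a * a') := by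
    intro x
    simp only [rMat_mulVec, hφ_dot, hB_sub_left, hB_sub_right, hB_smul_left, hB_smul_right,
      RingEquiv.refl_apply, ← ha, ← ha', ← hb]
    field_simp
    ring
  set D := a * a' - b ^ 2 with hD
  set u := w - (b / a) • v with hu
  have huv : ⟪u, v⟫ = 0 := by
    rw [hu, hB_sub_left, hB_smul_left, hbw, ← ha, div_mul_cancel₀ _ hv, sub_self]
  have huu : ⟪u, u⟫ = D / a := by
    rw [hu, hB_sub_left, hB_sub_right, hB_sub_right, hB_smul_left, hB_smul_left, hB_smul_right,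
      hB_smul_right, hbw, ← ha, ← ha', ← hb, hD]
    simp only [RingEquiv.refl_apply]
    field_simp
    ring
  by_cases hD0 : D = 0
  · -- the plane of `v`, `w` is degenerate
    obtain ⟨x₁, hx₁⟩ : ∃ x₁, ⟪u, x₁⟫ ≠ 0 := by
      by_contra hc
      push Not at hc
      exact hvw (b / a) (sub_eq_zero.1 (h.nondeg hc))
    have hu0 : ⟪u, u⟫ = 0 := by rw [huu, hD0, zero_div]
    set x₂ := x₁ - (⟪x₁, v⟫ / a) • v with hx₂
    have hx₂v : ⟪x₂, v⟫ = 0 := by
      rw [hx₂, hB_sub_left, hB_smul_left, ← ha, div_mul_cancel₀ _ hv, sub_self]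
    have hx₂u : ⟪x₂, u⟫ ≠ 0 := by
      rwa [hx₂, hB_sub_left, hB_smul_left, hB_comm h v u, huv, mul_zero, sub_zero, hB_comm h x₁ u]
    set x₀ := (⟪x₂, u⟫)⁻¹ • x₂ with hx₀
    have h0v : ⟪x₀, v⟫ = 0 := by rw [hx₀, hB_smul_left, hx₂v, mul_zero]
    have h0u : ⟪x₀, u⟫ = 1 := by rw [hx₀, hB_smul_left, inv_mul_cancel₀ hx₂u]
    clear_value x₀ x₂
    set s := (2 / a' - ⟪x₀, x₀⟫) / 2 with hs
    set x := x₀ + s • u with hx
    have hxv : ⟪x, v⟫ = 0 := by rw [hx, hB_add_left, hB_smul_left, h0v, huv, mul_zero, add_zero]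
    have hxu : ⟪x, u⟫ = 1 := by rw [hx, hB_add_left, hB_smul_left, h0u, hu0, mul_zero, add_zero]
    have hxw : ⟪x, w⟫ = 1 := by
      rw [show w = u + (b / a) • v from (sub_add_cancel _ _).symm, hB_add_right, hB_smul_right, hxu,
        hxv, mul_zero, add_zero]
    have hxx : ⟪x, x⟫ = 2 / a' := by
      rw [hx, hB_add_left, hB_add_right, hB_add_right, hB_smul_left, hB_smul_left, hB_smul_right,
        hB_smul_right, hu0, h0u, hB_comm h u x₀, h0u, hs]
      simp only [RingEquiv.refl_apply]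
      field_simp
      ring
    refine ⟨x, by rw [hxx]; exact div_ne_zero h2 hw, ?_⟩
    rw [key, hxx, hxv, hxw]
    field_simp
    ring
  · obtain ⟨z, hz, hzb⟩ := h.exists_perp (k := 2) (by omega) ![v, u]
      (fun i => by fin_cases i <;> simp [huu, hD0, hv, ← ha])
      (fun i j hij => by
        fin_cases i <;> fin_cases j <;>
          first | exact absurd rfl hij | simpa using huv | simpa using (hB_comm h v u).trans huv)
    have hzv : ⟪z, v⟫ = 0 := by simpa using (hzb 0).1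
    have hzu : ⟪z, u⟫ = 0 := by simpa using (hzb 1).1
    have hzw : ⟪z, w⟫ = 0 := by
      rw [show w = u + (b / a) • v from (sub_add_cancel _ _).symm, hB_add_right, hB_smul_right, hzu,
        hzv, mul_zero, add_zero]
    set κ := 2 * D / (a * a') - 1 with hκ
    by_cases hκ0 : κ = 0
    · refine ⟨v, hv, ?_⟩
      rw [key, ← hb, ← ha]
      have e : 2 * D = a * a' := by
        rw [hκ, sub_eq_zero, div_eq_one_iff_eq (mul_ne_zero hv hw)] at hκ0
        exact hκ0
      field_simp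
      linear_combination -e
    · -- a vector of the plane of value `⟪z, z⟫ / κ`
      obtain ⟨l, m, hlm⟩ := exists_binary h2 (t := ⟪z, z⟫ / κ) hv (div_ne_zero hD0 hv)
      set lam := l - m * b / a with hlam
      set pv := lam • v + m • w with hpv
      have hpp : ⟪pv, pv⟫ = ⟪z, z⟫ / κ := by
        rw [← hlm, hpv, hB_add_left, hB_add_right, hB_add_right, hB_smul_left, hB_smul_left,
          hB_smul_left, hB_smul_left, hB_smul_right, hB_smul_right, hB_smul_right, hB_smul_right,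
          hbw, ← ha, ← ha', ← hb, hlam, hD]
        simp only [RingEquiv.refl_apply]
        field_simp
        ring
      have hpz : ⟪pv, z⟫ = 0 := by
        rw [hpv, hB_add_left, hB_smul_left, hB_smul_left, hB_comm h v z, hB_comm h w z, hzv, hzw]
        ring
      set i := ⟪pv, v⟫ with hi
      set j := ⟪pv, w⟫ with hj
      have hG : a' * i ^ 2 + a * j ^ 2 - 2 * b * i * j = D * ⟪pv, pv⟫ := by
        rw [hi, hj, hpv, hD]
        simp only [hB_add_left, hB_add_right, hB_smul_left, hB_smul_right, RingEquiv.refl_apply,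
          hbw, ← ha, ← ha', ← hb]
        ring
      clear_value pv
      set x := pv + z with hx
      have hxx : ⟪x, x⟫ = ⟪pv, pv⟫ + ⟪z, z⟫ := by
        rw [hx, hB_add_left, hB_add_right, hB_add_right, hB_comm h z pv, hpz]
        ring
      refine ⟨x, ?_, ?_⟩
      · rw [hxx, hpp]
        intro h0
        have h1 : ⟪z, z⟫ * (1 + κ) = 0 := by
          field_simp at h0
          linear_combination h0
        rcases mul_eq_zero.1 h1 with h1 | h1
        · exact hz h1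
        · have : 2 * D / (a * a') = 0 := by rw [hκ] at h1; linear_combination h1
          exact div_ne_zero (mul_ne_zero h2 hD0) (mul_ne_zero hv hw) this
      · rw [key, hxx, hx, hB_add_left, hB_add_left, hzv, hzw, add_zero, add_zero, ← hi, ← hj]
        have e : (⟪pv, pv⟫) * κ = ⟪z, z⟫ := by rw [hpp, div_mul_cancel₀ _ hκ0]
        rw [hG, ← e, hκ]
        field_simp
        ring

/-- A subgroup of similitudes, normalised by the reflections and of odd order modulo scalars,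
consists of scalars. -/
theorem symm_core [Finite F] (h : IsHerm θ₁ A) (hn : 3 ≤ n) (K : Subgroup (GL (Fin n) F))
    (hK : K ≤ Sim A)
    (hnorm : ∀ x (hx : ⟪x, x⟫ ≠ 0), ∀ k ∈ K,
      rGL x (hφ θ₁ A x) (hφ_self hx) * k * rGL x (hφ θ₁ A x) (hφ_self hx) ∈ K)
    (hodd : ∀ k ∈ K, ∃ j : ℕ, Odd j ∧ ∃ c : F,
      (((k ^ j : GL (Fin n) F)) : Matrix (Fin n) (Fin n) F) = c • (1 : Matrix (Fin n) (Fin n) F)) :
    ∀ k ∈ K, ∃ c : F, c ≠ 0 ∧ (k : Matrix (Fin n) (Fin n) F) = c • (1 : Matrix (Fin n) (Fin n) F) := by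
  classical
  intro k hk
  obtain ⟨c, hc⟩ := mem_Sim_iff.1 (hK hk)
  have hsim : ∀ u v, ⟪(k : Matrix (Fin n) (Fin n) F) *ᵥ u, (k : Matrix (Fin n) (Fin n) F) *ᵥ v⟫ =
      (c : F) * ⟪u, v⟫ := fun u v => by
    rw [hB_one, hB_one, dot_mulVec_mulVec, hc, smul_mulVec, dotProduct_smul, smul_eq_mul]
  refine (h.scalar_of_aniso (RingHom.id F) (RingEquiv.refl F) hn
    (Units.ne_zero (GeneralLinearGroup.det k)) fun v hv => ?_).2
  by_contra hline
  set w := (k : Matrix (Fin n) (Fin n) F) *ᵥ v with hwdef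
  have hvw : ∀ t : F, w ≠ t • v := fun t ht => hline ⟨t, ht⟩
  have hw : ⟪w, w⟫ ≠ 0 := by rw [hwdef, hsim]; exact mul_ne_zero (Units.ne_zero c) hv
  set rv := rGL v (hφ θ₁ A v) (hφ_self hv) with hrv
  set rw' := rGL w (hφ θ₁ A w) (hφ_self hw) with hrw
  have hconj : k * rv = rw' * k := by
    refine Units.ext (Matrix.ext_of_mulVec_single fun i => ?_)
    rw [Units.val_mul, Units.val_mul, ← mulVec_mulVec, ← mulVec_mulVec, hrv, hrw, rGL_coe, rGL_coe,
      rMat_mulVec, rMat_mulVec, hφ_dot, hφ_dot, hwdef, hsim, hsim, mulVec_sub, mulVec_smul,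
      mul_inv, mul_assoc (c : F)⁻¹, mul_comm (c : F), ← mul_assoc (⟪v, v⟫)⁻¹,
      mul_comm (c : F)⁻¹, mul_assoc ((⟪v, v⟫)⁻¹ * ⟪Pi.single i 1, v⟫), mul_inv_cancel₀ (Units.ne_zero c),
      mul_one]
  have hrv2 : rv * rv = 1 := Units.ext (rMat_mul_self (hφ_self hv))
  have hrw2 : rw' * rw' = 1 := Units.ext (rMat_mul_self (hφ_self hw))
  set r := rw' * rv with hr
  have hrK : r ∈ K := by
    have e : r = k * (rv * k⁻¹ * rv) := by
      rw [hr, ← mul_assoc, ← mul_assoc, hconj, mul_inv_cancel_right]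
    rw [e]
    exact mul_mem hk (hnorm v hv _ (inv_mem hk))
  obtain ⟨x, hx, hxr⟩ := exists_perp_image h hn hv hw hvw
  have hxr' : ⟪x, (r : Matrix (Fin n) (Fin n) F) *ᵥ x⟫ = 0 := by
    rw [hr, Units.val_mul, ← mulVec_mulVec]; exact hxr
  set y := (r : Matrix (Fin n) (Fin n) F) *ᵥ x with hy
  have hrIso : r ∈ Iso A := mul_mem (rMat_mem_Iso h hw) (rMat_mem_Iso h hv)
  set rx := rGL x (hφ θ₁ A x) (hφ_self hx) with hrx
  set el := r * (rx * r⁻¹ * rx) with hel
  have helK : el ∈ K := mul_mem hrK (hnorm x hx _ (inv_mem hrK))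
  have hiso : ∀ u v, ⟪((r⁻¹ : GL (Fin n) F) : Matrix (Fin n) (Fin n) F) *ᵥ u,
      ((r⁻¹ : GL (Fin n) F) : Matrix (Fin n) (Fin n) F) *ᵥ v⟫ = ⟪u, v⟫ :=
    mem_Iso_iff_dot.1 (inv_mem hrIso)
  have hinv : ∀ u : Fin n → F, ((r⁻¹ : GL (Fin n) F) : Matrix (Fin n) (Fin n) F) *ᵥ
      ((r : Matrix (Fin n) (Fin n) F) *ᵥ u) = u := fun u => by
    rw [mulVec_mulVec, ← Units.val_mul, inv_mul_cancel, Units.val_one, one_mulVec]
  have hinv' : ∀ u : Fin n → F, (r : Matrix (Fin n) (Fin n) F) *ᵥ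
      (((r⁻¹ : GL (Fin n) F) : Matrix (Fin n) (Fin n) F) *ᵥ u) = u := fun u => by
    rw [mulVec_mulVec, ← Units.val_mul, mul_inv_cancel, Units.val_one, one_mulVec]
  have hfix : ∀ u, ⟪u, x⟫ = 0 → (rx : Matrix (Fin n) (Fin n) F) *ᵥ u = u := fun u hu => by
    rw [hrx, rGL_coe, rMat_mulVec, hφ_perp hu, mul_zero, zero_smul, sub_zero]
  have hex : (el : Matrix (Fin n) (Fin n) F) *ᵥ x = -x := by
    have e1 : (rx : Matrix (Fin n) (Fin n) F) *ᵥ x = -x := by
      rw [hrx, rGL_coe, rMat_mulVec, hφ_self hx]; module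
    have e2 : (rx : Matrix (Fin n) (Fin n) F) *ᵥ
        (((r⁻¹ : GL (Fin n) F) : Matrix (Fin n) (Fin n) F) *ᵥ x) =
        ((r⁻¹ : GL (Fin n) F) : Matrix (Fin n) (Fin n) F) *ᵥ x := by
      refine hfix _ ?_
      rw [← hinv x, hiso, hinv, ← hy]
      exact hxr'
    simp only [hel, Units.val_mul, ← mulVec_mulVec]
    rw [e1, mulVec_neg, mulVec_neg, e2, mulVec_neg, hinv']
  obtain ⟨z, hz0, hzx, hzy⟩ : ∃ z, z ≠ 0 ∧ ⟪z, x⟫ = 0 ∧ ⟪z, y⟫ = 0 := by
    let f : (Fin n → F) →ₗ[F] F × F :=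
      { toFun := fun u => (⟪u, x⟫, ⟪u, y⟫)
        map_add' := fun u u' => by simp [hB_add_left]
        map_smul' := fun s u => by simp [hB_smul_left] }
    obtain ⟨z, hz, hz0⟩ := Submodule.exists_mem_ne_zero_of_ne_bot (p := LinearMap.ker f) fun h0 => by
      have := LinearMap.finrank_le_finrank_of_injective (LinearMap.ker_eq_bot.1 h0)
      rw [Module.finrank_fintype_fun_eq_card, Fintype.card_fin, Module.finrank_prod,
        Module.finrank_self] at this
      omega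
    rw [LinearMap.mem_ker, Prod.ext_iff] at hz
    exact ⟨z, hz0, hz.1, hz.2⟩
  have hez : (el : Matrix (Fin n) (Fin n) F) *ᵥ z = z := by
    simp only [hel, Units.val_mul, ← mulVec_mulVec]
    have e : ⟪((r⁻¹ : GL (Fin n) F) : Matrix (Fin n) (Fin n) F) *ᵥ z, x⟫ = 0 := by
      rw [← hinv x, hiso]; exact hzy
    rw [hfix z hzx, hfix _ e, hinv']
  obtain ⟨j, hj, μ, hμ⟩ := hodd el helK
  have hpow : ∀ (u : Fin n → F) (s : F), (el : Matrix (Fin n) (Fin n) F) *ᵥ u = s • u →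
      ∀ m : ℕ, ((el ^ m : GL (Fin n) F) : Matrix (Fin n) (Fin n) F) *ᵥ u = s ^ m • u := by
    intro u s hu m
    induction m with
    | zero => simp
    | succ m ih => rw [pow_succ, Units.val_mul, ← mulVec_mulVec, hu, mulVec_smul, ih, smul_smul, pow_succ']
  have hμx : μ = (-1 : F) ^ j := by
    have h1 := hpow x (-1) (by rw [hex, neg_one_smul]) j
    rw [hμ, smul_mulVec, one_mulVec] at h1
    have hx0 : x ≠ 0 := fun e0 => hx (by rw [e0, hB_zero_left])
    exact smul_left_injective F hx0 h1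
  have hμz : μ = (1 : F) ^ j := by
    have h1 := hpow z 1 (by rw [hez, one_smul]) j
    rw [hμ, smul_mulVec, one_mulVec] at h1
    exact smul_left_injective F hz0 h1
  rw [hμx, hj.neg_one_pow, one_pow] at hμz
  exact h.two (by linear_combination -hμz)

end Cfsg.Agent.LocalBal
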