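import Mathlib
import Cfsg.Agent.GraphForms.LinearStatements
import Cfsg.Agent.LocalBal.Core
import Cfsg.Agent.LocalBal.OrthCore
import Cfsg.Agent.LocalBal.AltLines
import Cfsg.Agent.LocalBal.LinField
import Cfsg.Agent.Linear.Symplectic
import Cfsg.Agent.Classical.USimple
import Cfsg.Agent.AutPSU.Basic

/-!
`O_{2'}` of centralizers of graph and graph-field involutions of `PSL_n(F)`, `|F|` odd, is trivial.
-/

set_option autoImplicit false
set_option linter.unusedSectionVars false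

namespace Cfsg.Agent.LocalBal.Lin

open Matrix Cfsg.Agent.AutPSL Cfsg.Agent.GraphForms Cfsg.Agent.GraphForms.Lin

variable {F : Type*} [Field F] {n : ℕ}

local notation "SLn" => Matrix.SpecialLinearGroup (Fin n) F
local notation "PSLn" => Matrix.ProjectiveSpecialLinearGroup (Fin n) F
local notation "Mat" => Matrix (Fin n) (Fin n) F
local notation "GLn" => GL (Fin n) F
local notation "A⋆" => MulAut (Matrix.ProjectiveSpecialLinearGroup (Fin n) F)
local notation "sc" => (GeneralLinearGroup.scalar (Fin n) : Fˣ →* GL (Fin n) F)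

/-- An element of odd order commuting with enough inner involutions is trivial. -/
theorem eq_one_of_commute_invols [Finite F] (hn : 3 ≤ n) (S : Set GLn) (hS : ∀ h ∈ S, h * h = 1)
    (hrig : ∀ (g : GLn) (ρ : F ≃+* F), (∀ h ∈ S, CommMap (RingHom.id F) ρ (g : Mat) (h : Mat)) →
      ρ = 1 ∧ ∃ c : F, c ≠ 0 ∧ (g : Mat) = c • (1 : Mat))
    {a : A⋆} (ho : ¬ 2 ∣ orderOf a) (hc : ∀ h ∈ S, Commute a (conjAut h)) : a = 1 := by
  haveI : Nonempty (Fin n) := ⟨⟨0, by omega⟩⟩
  obtain ⟨g, ρ, hga⟩ : ∃ (g : GLn) (ρ : F ≃+* F), a * a = conjAut g * fieldAut ρ := by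
    obtain ⟨g, ρ, rfl | rfl⟩ := exists_decomp (show 2 ≤ n by omega) a
    · exact ⟨g * GeneralLinearGroup.map ρ.toRingHom g, ρ * ρ, by
        rw [mul_assoc, ← mul_assoc (fieldAut ρ), fieldAut_mul_conjAut, map_mul, map_mul]
        simp only [mul_assoc]⟩
    · refine ⟨g * GeneralLinearGroup.map ρ.toRingHom (glInvT g), ρ * ρ, ?_⟩
      calc conjAut g * fieldAut ρ * invTAut * (conjAut g * fieldAut ρ * invTAut)
          = conjAut g * (fieldAut ρ * (invTAut * conjAut g) * fieldAut ρ * invTAut) := by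
            simp only [mul_assoc]
        _ = conjAut g * (conjAut (GeneralLinearGroup.map ρ.toRingHom (glInvT g)) * fieldAut ρ *
              (invTAut * fieldAut ρ) * invTAut) := by
            rw [invTAut_mul_conjAut, ← mul_assoc (fieldAut ρ), fieldAut_mul_conjAut]
            simp only [mul_assoc]
        _ = _ := by
            rw [invTAut_mul_fieldAut, map_mul, map_mul]
            simp only [mul_assoc, invTAut_mul_self, mul_one]
  have hev : ∀ h ∈ S, ∃ c : F, c * c = 1 ∧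
      (g : Mat) * ((h : Mat).map ρ) = c • ((h : Mat) * (g : Mat)) := by
    intro h hh
    have h1 : (conjAut g * fieldAut ρ : A⋆) * conjAut h = conjAut h * (conjAut g * fieldAut ρ) := by
      rw [← hga]
      exact ((hc h hh).mul_left (hc h hh)).eq
    rw [mul_assoc, fieldAut_mul_conjAut, ← mul_assoc, ← mul_assoc, mul_left_inj, ← map_mul,
      ← map_mul, conjAut_eq_iff (by omega)] at h1
    obtain ⟨c, hc'⟩ := h1
    have e : (g : Mat) * (h : Mat).map ρ = (c : F) • ((h : Mat) * (g : Mat)) := hc'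
    refine ⟨(c : F), ?_, e⟩
    have hh2 : (h : Mat) * (h : Mat) = 1 := by rw [← Units.val_mul, hS h hh, Units.val_one]
    have hρ : (h : Mat).map ρ * (h : Mat).map ρ = 1 := by
      rw [← Matrix.map_mul, hh2, Matrix.map_one _ (map_zero ρ) (map_one ρ)]
    have h2 : (g : Mat) = ((c : F) * c) • (g : Mat) := by
      calc (g : Mat) = (g : Mat) * (h : Mat).map ρ * (h : Mat).map ρ := by
            rw [mul_assoc, hρ, mul_one]
        _ = _ := by
            rw [e, Matrix.smul_mul, mul_assoc, e, Matrix.mul_smul, ← mul_assoc, hh2, one_mul, smul_smul]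
    obtain ⟨i, j, hij⟩ : ∃ i j, (g : Mat) i j ≠ 0 := by
      by_contra h0
      push Not at h0
      exact Units.ne_zero (GeneralLinearGroup.det g) (by
        rw [GeneralLinearGroup.val_det_apply, show (g : Mat) = 0 from Matrix.ext h0, det_zero])
    have h3 := congrFun (congrFun h2 i) j
    rw [Matrix.smul_apply, smul_eq_mul] at h3
    exact (mul_eq_right₀ hij).1 h3.symm
  -- the square commutes exactly
  have hex : ∀ h ∈ S, CommMap (RingHom.id F) (ρ * ρ)
      ((g * GeneralLinearGroup.map ρ.toRingHom g : GLn) : Mat) (h : Mat) := by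
    intro h hh
    obtain ⟨c, hcc, e⟩ := hev h hh
    have e2 : (g : Mat).map ρ * ((h : Mat).map ρ).map ρ = ρ c • ((h : Mat).map ρ * (g : Mat).map ρ) := by
      rw [← Matrix.map_mul, e]
      ext i j
      simp [Matrix.mul_apply, map_sum, Finset.mul_sum]
    have hρc : ρ c * c = 1 := by
      rcases mul_self_eq_one_iff.1 hcc with rfl | rfl <;> simp
    show ((g : Mat) * (g : Mat).map ρ) * (((h : Mat).map (RingHom.id F)).map (ρ * ρ : F ≃+* F)) =
      (h : Mat).map (RingHom.id F) * ((g : Mat) * (g : Mat).map ρ)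
    rw [show ((h : Mat).map (RingHom.id F)).map (ρ * ρ : F ≃+* F) = ((h : Mat).map ρ).map ρ from
        Matrix.ext fun _ _ => rfl, show (h : Mat).map (RingHom.id F) = (h : Mat) from
        Matrix.ext fun _ _ => rfl, mul_assoc, e2, Matrix.mul_smul, ← mul_assoc, e, Matrix.smul_mul,
      smul_smul, hρc, one_smul, mul_assoc]
  obtain ⟨hρ, c, hc0, hg⟩ := hrig _ (ρ * ρ) hex
  have h4 : (a * a) ^ 2 = 1 := by
    rw [sq, hga, mul_assoc, ← mul_assoc (fieldAut ρ), fieldAut_mul_conjAut, mul_assoc, ← map_mul,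
      hρ, map_one, mul_one, ← map_mul, conjAut_eq_one_iff (by omega)]
    rw [show (g * GeneralLinearGroup.map ρ.toRingHom g : GLn) = sc (Units.mk0 c hc0) from
      Units.ext (by rw [hg, coe_sc, Units.val_mk0])]
    exact sc_mem_center _
  have hodd : ∀ b : A⋆, ¬ 2 ∣ orderOf b → b ^ 2 = 1 → b = 1 := fun b hb h2 => by
    rcases (Nat.dvd_prime Nat.prime_two).1 (orderOf_dvd_of_pow_eq_one h2) with h | h
    · exact orderOf_eq_one_iff.1 h
    · exact absurd (h ▸ dvd_rfl) hb
  have h5 := hodd _ (fun h => ho (h.trans (by rw [← sq]; exact orderOf_pow_dvd 2))) h4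
  exact hodd _ ho (by rw [sq]; exact h5)

theorem mul_self_of_rGL {x φ : Fin n → F} (h : φ ⬝ᵥ x = 1) : rGL x φ h * rGL x φ h = 1 :=
  Units.ext (rMat_mul_self h)

theorem planeMat_sq {x φ y ψ : Fin n → F} (hx : φ ⬝ᵥ x = 1) (hyy : ψ ⬝ᵥ y = 1) (hy : φ ⬝ᵥ y = 0)
    (hψ : ψ ⬝ᵥ x = 0) : planeMat x φ y ψ * planeMat x φ y ψ = 1 := by
  refine Matrix.ext_of_mulVec_single fun i => ?_
  rw [← mulVec_mulVec, planeMat_mulVec hy, planeMat_mulVec hy, one_mulVec]
  simp only [dotProduct_sub, dotProduct_smul, hx, hyy, hy, hψ]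
  module

theorem planeMat_det {x φ y ψ : Fin n → F} (hx : φ ⬝ᵥ x = 1) (hyy : ψ ⬝ᵥ y = 1) :
    (planeMat x φ y ψ).det = 1 := by
  rw [planeMat, det_mul, det_rMat hx, det_rMat hyy]
  ring

theorem mem_inn_of_det {g : GLn} (h : (g : Mat).det = 1) : conjAut g ∈ Cfsg.Inn PSLn := by
  let s : SLn := ⟨(g : Mat), h⟩
  have e : g = SpecialLinearGroup.toGL s := Units.ext rfl
  rw [e, conjAut_toGL]
  exact conj_mem_inn _

/-! ### Symmetric forms -/

theorem core_symm [Finite F] (hn : 3 ≤ n) (h2 : (2 : F) ≠ 0) (g : GLn)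
    (hg : (form g)ᵀ = form g) (B : Subgroup A⋆) (hinn : Cfsg.Inn PSLn ≤ B) :
    Cfsg.pPrimeCore 2 ↥(B ⊓ Subgroup.centralizer {(graphAut g : A⋆)}) = ⊥ := by
  classical
  have hH : IsHerm (RingEquiv.refl F) (form g) :=
    ⟨fun _ => rfl, fun i j => congrFun (congrFun hg j) i, form_det_ne_zero g, h2⟩
  set y : A⋆ := graphAut g with hy
  have hcent : ∀ h : GLn, h ∈ Sim (form g) → conjAut h ∈ Subgroup.centralizer {y} := fun h hh =>
    Subgroup.mem_comap.1 ((mem_cent_iff (by omega) g h).2 hh)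
  set C := Cfsg.Inn PSLn ⊓ Subgroup.centralizer {y} with hC
  set D := (Sim (form g)).map (conjAut : GLn →* A⋆) with hD
  have hCD : C ≤ D := by
    rintro c ⟨hi, hc⟩
    rw [SetLike.mem_coe, inn_eq_map] at hi
    obtain ⟨h, -, rfl⟩ := hi
    exact ⟨h, (mem_cent_iff (by omega) g h).1 (Subgroup.mem_comap.2 hc), rfl⟩
  have hDC : ∀ d ∈ D, ∀ c ∈ C, d * c * d⁻¹ ∈ C := by
    rintro _ ⟨h, hh, rfl⟩ c hc
    exact inn_cent_normalized y ⊤ ⟨Subgroup.mem_top _, hcent h hh⟩ hc
  have hDn : NoPPrime 2 D := by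
    intro M hMD hMn hM
    let K : Subgroup GLn := M.comap conjAut ⊓ Sim (form g)
    have hKs := symm_core hH hn K inf_le_right (fun x hx k hk => ?_) (fun k hk => ?_)
    · refine (Subgroup.eq_bot_iff_forall _).2 fun m hm => ?_
      obtain ⟨k, hk, rfl⟩ := hMD hm
      obtain ⟨c, hc0, hc⟩ := hKs k ⟨hm, hk⟩
      rw [conjAut_eq_one_iff (by omega), show k = sc (Units.mk0 c hc0) from
        Units.ext (by rw [hc, coe_sc, Units.val_mk0])]
      exact sc_mem_center _
    · have hr : rGL x (hφ (RingEquiv.refl F) (form g) x) (hφ_self hx) ∈ Sim (form g) :=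
        Iso_le_Sim _ (rMat_mem_Iso hH hx)
      refine ⟨?_, (Sim (form g)).mul_mem ((Sim (form g)).mul_mem hr hk.2) hr⟩
      show conjAut _ ∈ M
      have hinv : (rGL x (hφ (RingEquiv.refl F) (form g) x) (hφ_self hx))⁻¹ =
          rGL x (hφ (RingEquiv.refl F) (form g) x) (hφ_self hx) :=
        inv_eq_of_mul_eq_one_right (mul_self_of_rGL _)
      rw [map_mul, map_mul]
      nth_rewrite 2 [← hinv]
      rw [map_inv]
      exact hMn _ ⟨_, hr, rfl⟩ _ hk.1
    · refine ⟨orderOf (conjAut k : A⋆), ?_, ?_⟩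
      · rw [Nat.odd_iff]
        by_contra hne
        refine hM ((show 2 ∣ orderOf (conjAut k : A⋆) by omega).trans ?_)
        rw [← Nat.card_zpowers]
        exact Subgroup.card_dvd_of_le (Subgroup.zpowers_le.2 hk.1)
      · have h1 : conjAut (k ^ orderOf (conjAut k : A⋆)) = (1 : A⋆) := by
          rw [map_pow, pow_orderOf_eq_one]
        obtain ⟨c, hc⟩ := exists_sc_of_center ((conjAut_eq_one_iff (by omega)).1 h1)
        exact ⟨c, by rw [hc, coe_sc]⟩
  refine core_eq_bot (C := C) (L := C) le_rfl (inf_le_inf hinn le_rfl)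
    (fun h hh c hc => inn_cent_normalized _ B hh hc)
    (fun c hc l hl => C.mul_mem (C.mul_mem hc hl) (C.inv_mem hc)) (noPPrime_of_normal hCD hDC hDn)
    fun a _ hcomm ho => ?_
  let S : Set GLn := {h | ∃ x z : Fin n → F, hB (RingEquiv.refl F) (form g) x x ≠ 0 ∧
    hB (RingEquiv.refl F) (form g) z z ≠ 0 ∧ hB (RingEquiv.refl F) (form g) x z = 0 ∧
    (h : Mat) = planeMat x (hφ (RingEquiv.refl F) (form g) x) z (hφ (RingEquiv.refl F) (form g) z)}
  refine eq_one_of_commute_invols hn S ?_ ?_ ho ?_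
  · rintro h ⟨x, z, hx, hz, hxz, e⟩
    exact Units.ext (by
      rw [Units.val_mul, e, Units.val_one]
      exact planeMat_sq (hφ_self hx) (hφ_self hz) (hφ_perp (hH.swap_zero hxz)) (hφ_perp hxz))
  · intro g' ρ hcm
    obtain ⟨hρ, hsc⟩ := hH.scalar_of_planes (RingHom.id F) ρ hn h2
      (Units.ne_zero (GeneralLinearGroup.det g')) fun x z hx hz hxz => by
        have hd : (planeMat x (hφ (RingEquiv.refl F) (form g) x) z
            (hφ (RingEquiv.refl F) (form g) z)).det ≠ 0 := by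
          rw [planeMat_det (hφ_self hx) (hφ_self hz)]; exact one_ne_zero
        exact hcm (GeneralLinearGroup.mkOfDetNeZero _ hd) ⟨x, z, hx, hz, hxz, rfl⟩
    exact ⟨RingEquiv.ext hρ, hsc⟩
  · rintro h ⟨x, z, hx, hz, hxz, e⟩
    refine hcomm _ (Subgroup.mem_inf.2 ⟨mem_inn_of_det ?_, hcent h (Iso_le_Sim _ ?_)⟩)
    · rw [e, planeMat_det (hφ_self hx) (hφ_self hz)]
    · rw [show h = rGL x _ (hφ_self hx) * rGL z _ (hφ_self hz) from Units.ext e]
      exact mul_mem (rMat_mem_Iso hH hx) (rMat_mem_Iso hH hz)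

/-! ### Alternating forms -/

theorem core_alt [Finite F] (hn : 3 ≤ n) (h2 : (2 : F) ≠ 0) (g : GLn)
    (hA : IsAltMat (form g)) (B : Subgroup A⋆) (hinn : Cfsg.Inn PSLn ≤ B) :
    Cfsg.pPrimeCore 2 ↥(B ⊓ Subgroup.centralizer {(graphAut g : A⋆)}) = ⊥ := by
  classical
  haveI := Fintype.ofFinite F
  have hd := form_det_ne_zero g
  obtain ⟨m, e, hm, he⟩ := exists_alt_model hA hd
  rw [Fintype.card_fin] at hm
  haveI : NeZero m := ⟨by omega⟩
  set y : A⋆ := graphAut g with hy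
  set L := (Iso (form g)).map (conjAut : GLn →* A⋆) with hL
  have hdetIso : ∀ h ∈ Iso (form g), (h : Mat).det = 1 := fun h hh => by
    rw [(alt_det hA hd (m := m) (by rw [Fintype.card_fin, hm])).1 h 1 one_ne_zero
      (show _ = _ by rw [one_smul]; exact hh), one_pow]
  have hLC : L ≤ Cfsg.Inn PSLn ⊓ Subgroup.centralizer {y} := by
    rintro _ ⟨h, hh, rfl⟩
    exact ⟨mem_inn_of_det (hdetIso h hh),
      Subgroup.mem_comap.1 ((mem_cent_iff (by omega) g h).2 (Iso_le_Sim _ hh))⟩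
  have hplane : ∀ x z, x ⬝ᵥ form g *ᵥ z = 1 → ∃ h : GLn, h ∈ Iso (form g) ∧
      (h : Mat) = altPlane (form g) x z := fun x z hxz =>
    ⟨_, altPlane_mem_Iso hA hxz, rfl⟩
  -- simplicity of the image of `Sp`
  let Φ : Matrix.symplecticGroup (Fin m) F →* GLn :=
    (glConj e).symm.toMonoidHom.comp
      ((Iso (Matrix.J (Fin m) F)).subtype.comp (isoJEquiv m).symm.toMonoidHom)
  have hΦ : Φ.range = Iso (form g) := by
    have key : ∀ h : GLn, h ∈ Iso (form g) ↔ glConj e h ∈ Iso (Matrix.J (Fin m) F) := fun h => by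
      rw [mem_Iso_iff_dot, mem_Iso_iff_dot]
      refine ⟨fun hh u v => ?_, fun hh u v => ?_⟩
      · obtain ⟨u, rfl⟩ := e.surjective u
        obtain ⟨v, rfl⟩ := e.surjective v
        rw [glConj_mulVec, glConj_mulVec, he, he, hh]
      · rw [← he, ← glConj_mulVec, ← glConj_mulVec, hh, he]
    ext h
    constructor
    · rintro ⟨s, rfl⟩
      rw [key]
      show glConj e ((glConj e).symm ((isoJEquiv m).symm s).1) ∈ _
      rw [MulEquiv.apply_symm_apply]
      exact ((isoJEquiv m).symm s).2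
    · intro hh
      refine ⟨isoJEquiv m ⟨glConj e h, (key h).1 hh⟩, ?_⟩
      show (glConj e).symm ((isoJEquiv m).symm (isoJEquiv m _)).1 = h
      rw [MulEquiv.symm_apply_apply]
      exact (glConj e).symm_apply_apply h
  have hLr : ((conjAut : GLn →* A⋆).comp Φ).range = L := by
    rw [MonoidHom.range_comp, hΦ]
  have hker : Subgroup.center (Matrix.symplecticGroup (Fin m) F) ≤
      ((conjAut : GLn →* A⋆).comp Φ).ker := by
    intro s hs
    show conjAut (Φ s) = 1
    rw [conjAut_eq_one_iff (by omega), Subgroup.mem_center_iff]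
    intro h
    obtain ⟨c, hc⟩ := Cfsg.Agent.Linear.Symp.exists_eq_scalar _
      (Cfsg.Agent.Linear.Symp.mem_center_iff.1 hs)
    have hsc : ((isoJEquiv m).symm s).1 ∈ Cfsg.Geo.scalars (Fin m ⊕ Fin m) F := by
      have hcoe : (((isoJEquiv m).symm s).1 : Matrix (Fin m ⊕ Fin m) (Fin m ⊕ Fin m) F) = s.1 := by
        conv_rhs => rw [← (isoJEquiv m).apply_symm_apply s]
        rfl
      have hc0 : c ≠ 0 := by
        rintro rfl
        have h1 : s.1 = 0 := Matrix.ext_of_mulVec_single fun i => by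
          rw [zero_mulVec]
          exact (hc _).trans (zero_smul F _)
        have h3 := SymplecticGroup.symplectic_det s.2
        rw [h1, det_zero] at h3
        exact not_isUnit_zero h3
      refine (Cfsg.Geo.mem_scalars_iff _).2 ⟨Units.mk0 c hc0, ?_⟩
      rw [hcoe, Units.val_mk0]
      refine Matrix.ext_of_mulVec_single fun i => ?_
      rw [smul_mulVec, one_mulVec]
      exact hc _
    have h1 : Φ s ∈ Cfsg.Geo.scalars (Fin n) F := by
      rw [← glConj_mem_scalars_iff e]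
      show glConj e ((glConj e).symm _) ∈ _
      rw [MulEquiv.apply_symm_apply]
      exact hsc
    obtain ⟨d, hd'⟩ := (Cfsg.Geo.mem_scalars_iff _).1 h1
    apply Units.ext
    rw [Units.val_mul, Units.val_mul, hd', Matrix.mul_smul, mul_one, Matrix.smul_mul, one_mul]
  have hq3 : 3 ≤ Fintype.card F := by
    by_contra hlt
    have h1 := Fintype.one_lt_card (α := F)
    exact h2 (by have := Nat.cast_card_eq_zero F; rw [show Fintype.card F = 2 by omega] at this; exact_mod_cast this)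
  obtain ⟨x₀, z₀, hxz₀⟩ : ∃ x z : Fin n → F, x ⬝ᵥ form g *ᵥ z = 1 := by
    refine ⟨Pi.single ⟨0, by omega⟩ 1, (g : Mat) *ᵥ Pi.single ⟨0, by omega⟩ 1, ?_⟩
    rw [mulVec_mulVec, ← Units.val_mul, inv_mul_cancel, Units.val_one, one_mulVec]
    simp
  have hP0 : ∀ d : F, altPlane (form g) x₀ z₀ ≠ d • (1 : Mat) := by
    intro d hd'
    obtain ⟨w, hw0, hwx, hwz⟩ : ∃ w, w ≠ 0 ∧ x₀ ⬝ᵥ form g *ᵥ w = 0 ∧ w ⬝ᵥ form g *ᵥ z₀ = 0 := by
      let f : (Fin n → F) →ₗ[F] F × F :=
        { toFun := fun u => (x₀ ⬝ᵥ form g *ᵥ u, u ⬝ᵥ form g *ᵥ z₀)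
          map_add' := fun u u' => by simp [mulVec_add, dotProduct_add, add_dotProduct]
          map_smul' := fun s u => by simp [mulVec_smul, dotProduct_smul, smul_dotProduct] }
      obtain ⟨w, hw, hw0⟩ := Submodule.exists_mem_ne_zero_of_ne_bot (p := LinearMap.ker f) fun h0 => by
        have := LinearMap.finrank_le_finrank_of_injective (LinearMap.ker_eq_bot.1 h0)
        rw [Module.finrank_fintype_fun_eq_card, Fintype.card_fin, Module.finrank_prod,
          Module.finrank_self] at this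
        omega
      rw [LinearMap.mem_ker, Prod.ext_iff] at hw
      exact ⟨w, hw0, hw.1, hw.2⟩
    have hx : altPlane (form g) x₀ z₀ *ᵥ x₀ = -x₀ := by
      rw [altPlane_mulVec hA, hA x₀, hxz₀]; module
    have hw : altPlane (form g) x₀ z₀ *ᵥ w = w := by
      rw [altPlane_mulVec hA, hwx, hwz]; module
    rw [hd', smul_mulVec, one_mulVec] at hx hw
    have hd1 : d = 1 := smul_left_injective F hw0 (show d • w = (1 : F) • w by rw [hw, one_smul])
    rw [hd1, one_smul] at hx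
    have hx0 : x₀ ≠ 0 := fun e0 => by rw [e0, zero_dotProduct] at hxz₀; exact zero_ne_one hxz₀
    refine hx0 (funext fun i => (mul_eq_zero.1 (show (2 : F) * x₀ i = 0 from ?_)).resolve_left h2)
    have := congrFun hx i
    simp at this
    linear_combination this
  obtain ⟨p₀, hp₀I, hp₀⟩ := hplane x₀ z₀ hxz₀
  have hp₀1 : (conjAut p₀ : A⋆) ≠ 1 := fun h => by
    obtain ⟨c, hc⟩ := exists_sc_of_center ((conjAut_eq_one_iff (by omega)).1 h)
    exact hP0 c (by rw [← hp₀, hc, coe_sc])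
  haveI : IsSimpleGroup (Matrix.symplecticGroup (Fin m) F ⧸
      Subgroup.center (Matrix.symplecticGroup (Fin m) F)) :=
    Cfsg.Agent.Linear.Symp.isSimpleGroup_PSp_of_perfect (Cfsg.Agent.Linear.Symp.commutator_eq_top
      (by rcases (show 3 ≤ m ∨ m = 2 by omega) with h | h
          · exact Or.inl h
          · exact Or.inr (Or.inl ⟨h, hq3⟩)))
  haveI : IsSimpleGroup ↥L := by
    have hx : ∃ s, ((conjAut : GLn →* A⋆).comp Φ) s ≠ 1 := by
      obtain ⟨s, hs⟩ := hΦ.symm ▸ hp₀I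
      exact ⟨s, by rw [MonoidHom.comp_apply, hs]; exact hp₀1⟩
    have := isSimpleGroup_range_quot ((conjAut : GLn →* A⋆).comp Φ) _ hker hx
    rwa [hLr] at this
  refine core_eq_bot (L := L) hLC (inf_le_inf hinn le_rfl)
    (fun h hh c hc => inn_cent_normalized _ B hh hc) ?_
    (noPPrime_of_simple L (dvd_card_of_orderOf L ⟨p₀, hp₀I, rfl⟩ (orderOf_eq_prime ?_ hp₀1)))
    fun a _ hcomm ho => ?_
  · rintro c hc _ ⟨h, hh, rfl⟩
    obtain ⟨hi, hcy⟩ := Subgroup.mem_inf.1 hc
    rw [inn_eq_map] at hi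
    obtain ⟨k, -, rfl⟩ := hi
    obtain ⟨l, hl⟩ := mem_Sim_iff.1 ((mem_cent_iff (by omega) g k).1 (Subgroup.mem_comap.2 hcy))
    refine ⟨k * h * k⁻¹, mem_Iso_iff_dot.2 fun u v => ?_, by rw [map_mul, map_mul, map_inv]⟩
    have hk : ∀ u v : Fin n → F, ((k : Mat) *ᵥ u) ⬝ᵥ form g *ᵥ ((k : Mat) *ᵥ v) =
        (l : F) * (u ⬝ᵥ form g *ᵥ v) := fun u v => by
      rw [dot_mulVec_mulVec, hl, smul_mulVec, dotProduct_smul, smul_eq_mul]
    have hki : ∀ u : Fin n → F, (k : Mat) *ᵥ (((k⁻¹ : GLn) : Mat) *ᵥ u) = u := fun u => by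
      rw [mulVec_mulVec, ← Units.val_mul, mul_inv_cancel, Units.val_one, one_mulVec]
    simp only [Units.val_mul, ← mulVec_mulVec]
    rw [hk, mem_Iso_iff_dot.1 hh, ← hk, hki, hki]
  · rw [← map_pow]
    have : p₀ ^ 2 = 1 := Units.ext (by
      rw [sq, Units.val_mul, hp₀, altPlane, planeMat_sq (by rw [dotProduct_comm]; exact hxz₀)
        (by rw [← dotProduct_mulVec]; exact hxz₀) (by rw [dotProduct_comm]; exact hA z₀)
        (by rw [← dotProduct_mulVec]; exact hA x₀), Units.val_one])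
    rw [this, map_one]
  let S : Set GLn := {h | ∃ x z : Fin n → F, x ⬝ᵥ form g *ᵥ z = 1 ∧ (h : Mat) = altPlane (form g) x z}
  refine eq_one_of_commute_invols hn S ?_ ?_ ho ?_
  · rintro h ⟨x, z, hxz, e'⟩
    exact Units.ext (by
      rw [Units.val_mul, e', Units.val_one, altPlane]
      exact planeMat_sq (by rw [dotProduct_comm]; exact hxz) (by rw [← dotProduct_mulVec]; exact hxz)
        (by rw [dotProduct_comm]; exact hA z) (by rw [← dotProduct_mulVec]; exact hA x))
  · intro g' ρ hcm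
    obtain ⟨hρ, hsc⟩ := alt_scalar_of_planes (RingHom.id F) ρ hA hd hn h2
      (Units.ne_zero (GeneralLinearGroup.det g')) fun x z hxz => by
        obtain ⟨h, -, e'⟩ := hplane x z hxz
        rw [← e']
        exact hcm h ⟨x, z, hxz, e'⟩
    exact ⟨RingEquiv.ext hρ, hsc⟩
  · rintro h ⟨x, z, hxz, e'⟩
    obtain ⟨h', hh', e''⟩ := hplane x z hxz
    exact hcomm _ ⟨h, by rw [show h = h' from Units.ext (e'.trans e''.symm)]; exact hh', rfl⟩

/-! ### Graph-field automorphisms -/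

theorem gfHom_eq_self_iff (σ : F ≃+* F) (hσ2 : σ * σ = 1) (g : GLn) :
    gfHom σ g = g ↔ ∀ u v : Fin n → F,
      hB σ (1 : Mat) ((g : Mat) *ᵥ u) ((g : Mat) *ᵥ v) = hB σ (1 : Mat) u v := by
  have hinv : ∀ a : F, σ (σ a) = a := fun a => DFunLike.congr_fun hσ2 a
  have hB1 : ∀ u v : Fin n → F, hB σ (1 : Mat) u v = u ⬝ᵥ (fun i => σ (v i)) := fun u v => by
    rw [hB, one_mulVec]
  have hmv : ∀ v : Fin n → F, (fun i => σ (((g : Mat) *ᵥ v) i)) = (g : Mat).map σ *ᵥ (fun i => σ (v i)) :=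
    fun v => funext fun i => by simp [Matrix.mulVec, dotProduct, map_sum]
  constructor
  · intro h u v
    have h1 : ((g : Mat)ᵀ).map σ * (g : Mat) = 1 := by
      rw [← gfHom_inv_coe, h, ← Units.val_mul, inv_mul_cancel, Units.val_one]
    have h2 : (g : Mat)ᵀ * (g : Mat).map σ = 1 := by
      have := congrArg (fun M : Mat => M.map σ) h1
      simp only [Matrix.map_mul, Matrix.map_one _ (map_zero σ) (map_one σ)] at this
      rwa [show (((g : Mat)ᵀ).map σ).map σ = (g : Mat)ᵀ from Matrix.ext fun i j => hinv _] at this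
    rw [hB1, hB1, hmv, ← vecMul_transpose, ← dotProduct_mulVec, mulVec_mulVec, h2, one_mulVec]
  · intro h
    have h2 : (g : Mat)ᵀ * (g : Mat).map σ = 1 := by
      refine eq_of_forall_dot fun u v => ?_
      have := h u (fun i => σ (v i))
      rw [hB1, hB1, hmv, ← vecMul_transpose, ← dotProduct_mulVec, mulVec_mulVec,
        show (fun i => σ (σ (v i))) = v from funext fun i => hinv _] at this
      rw [this, one_mulVec]
    rw [← _root_.inv_inj]
    apply Units.ext
    rw [gfHom_inv_coe]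
    have h1 : ((g : Mat)ᵀ).map σ * (g : Mat) = 1 := by
      have := congrArg (fun M : Mat => M.map σ) h2
      simp only [Matrix.map_mul, Matrix.map_one _ (map_zero σ) (map_one σ)] at this
      rwa [show ((g : Mat).map σ).map σ = (g : Mat) from Matrix.ext fun i j => hinv _] at this
    calc ((g : Mat)ᵀ).map σ = ((g : Mat)ᵀ).map σ * ((g : Mat) * ((g⁻¹ : GLn) : Mat)) := by
          rw [← Units.val_mul, mul_inv_cancel, Units.val_one, mul_one]
      _ = _ := by rw [← mul_assoc, h1, one_mul]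

theorem core_gf [Finite F] (hn : 3 ≤ n) (h2 : (2 : F) ≠ 0) (σ : F ≃+* F) (hσ : orderOf σ = 2)
    (B : Subgroup A⋆) (hinn : Cfsg.Inn PSLn ≤ B) :
    Cfsg.pPrimeCore 2 ↥(B ⊓ Subgroup.centralizer {(fieldAut σ * invTAut : A⋆)}) = ⊥ := by
  classical
  haveI := Fintype.ofFinite F
  set q := Nat.card ↥(fixedField σ) with hq
  have hσ2 : σ * σ = 1 := by rw [← sq, ← hσ, pow_orderOf_eq_one]
  have hσ1 : σ ≠ 1 := fun h => by rw [h, orderOf_one] at hσ; exact absurd hσ (by norm_num)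
  have hinv : ∀ a : F, σ (σ a) = a := fun a => DFunLike.congr_fun hσ2 a
  have happ : ∀ a : F, σ a = a ^ q := involution_apply σ hσ rfl
  have hSq : Classical.U.SqField F q := ⟨inferInstance, by rw [hq, ← hσ, card_fixedField_pow]⟩
  have hH : IsHerm σ (1 : Mat) :=
    ⟨hinv, fun i j => by rcases eq_or_ne i j with rfl | h <;> simp [*, Ne.symm],
      by rw [det_one]; exact one_ne_zero, h2⟩
  set y : A⋆ := fieldAut σ * invTAut with hy
  have hherm : ∀ u v : Fin n → F, Cfsg.hermForm n F q u v = hB σ (1 : Mat) u v := fun u v => by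
    rw [hB, one_mulVec]
    simp [Cfsg.hermForm, dotProduct, happ]
  let ψ : ↥(Cfsg.SU n F q) →* A⋆ :=
    conjAut.comp (SpecialLinearGroup.toGL.comp (Cfsg.SU n F q).subtype)
  have hmemL : ∀ g : GLn, (g : Mat).det = 1 → gfHom σ g = g → conjAut g ∈ ψ.range := by
    intro g hd hg
    refine ⟨⟨⟨(g : Mat), hd⟩, fun u v => ?_⟩, congrArg conjAut (Units.ext rfl)⟩
    rw [hherm, hherm]
    exact (gfHom_eq_self_iff σ hσ2 g).1 hg u v
  have hfix : ∀ s : ↥(Cfsg.SU n F q), gfHom σ (SpecialLinearGroup.toGL s.1) =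
      SpecialLinearGroup.toGL s.1 := fun s => (gfHom_eq_self_iff σ hσ2 _).2 fun u v => by
    rw [← hherm, ← hherm]
    exact s.2 u v
  have hcenty : ∀ g : GLn, gfHom σ g = g → conjAut g ∈ Subgroup.centralizer {y} := fun g hg => by
    rw [Subgroup.mem_centralizer_singleton_iff, hy, gf_mul_conjAut, hg]
  have hLC : ψ.range ≤ Cfsg.Inn PSLn ⊓ Subgroup.centralizer {y} := by
    rintro _ ⟨s, rfl⟩
    exact ⟨mem_inn_of_det s.1.2, hcenty _ (hfix s)⟩
  have hker : Subgroup.center ↥(Cfsg.SU n F q) ≤ ψ.ker := by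
    intro s hs
    obtain ⟨c, hc⟩ := AutPSU.center_scalar hSq (by omega) hs
    show conjAut (SpecialLinearGroup.toGL s.1) = 1
    rw [conjAut_eq_one_iff (by omega), Subgroup.mem_center_iff]
    intro g
    apply Units.ext
    have hs1 : (SpecialLinearGroup.toGL s.1 : GLn).1 = c • (1 : Mat) :=
      Matrix.ext_of_mulVec_single fun i => by
        rw [smul_mulVec, one_mulVec]
        exact hc _
    rw [Units.val_mul, Units.val_mul, hs1, Matrix.mul_smul, mul_one, Matrix.smul_mul, one_mul]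
  -- an involution in the image
  let e₀ : Fin n → F := Pi.single ⟨0, by omega⟩ 1
  let e₁ : Fin n → F := Pi.single ⟨1, by omega⟩ 1
  have he : ∀ i j : Fin n, hB σ (1 : Mat) (Pi.single i 1) (Pi.single j 1) = if i = j then 1 else 0 := by
    intro i j
    rw [hB, one_mulVec]
    simp [Pi.single_apply, apply_ite σ]
  have he00 : hB σ (1 : Mat) e₀ e₀ ≠ 0 := by rw [he, if_pos rfl]; exact one_ne_zero
  have he11 : hB σ (1 : Mat) e₁ e₁ ≠ 0 := by rw [he, if_pos rfl]; exact one_ne_zero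
  have he01 : hB σ (1 : Mat) e₀ e₁ = 0 := by rw [he, if_neg (by simp [Fin.ext_iff])]
  have hplane : ∀ x z, hB σ (1 : Mat) x x ≠ 0 → hB σ (1 : Mat) z z ≠ 0 → hB σ (1 : Mat) x z = 0 →
      ∃ h : GLn, (h : Mat) = planeMat x (hφ σ (1 : Mat) x) z (hφ σ (1 : Mat) z) ∧
        (h : Mat).det = 1 ∧ gfHom σ h = h ∧ h * h = 1 := by
    intro x z hx hz hxz
    refine ⟨rGL x _ (hφ_self hx) * rGL z _ (hφ_self hz), rfl, planeMat_det (hφ_self hx) (hφ_self hz),
      (gfHom_eq_self_iff σ hσ2 _).2 fun u v => ?_, Units.ext ?_⟩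
    · rw [Units.val_mul, ← mulVec_mulVec, ← mulVec_mulVec, rGL_coe, rGL_coe, hH.rMat_isometry hx,
        hH.rMat_isometry hz]
    · rw [Units.val_mul, Units.val_mul, Units.val_one]
      exact planeMat_sq (hφ_self hx) (hφ_self hz) (hφ_perp (hH.swap_zero hxz)) (hφ_perp hxz)
  obtain ⟨p₀, hp₀, hp₀d, hp₀f, hp₀2⟩ := hplane e₀ e₁ he00 he11 he01
  have hp₀1 : (conjAut p₀ : A⋆) ≠ 1 := fun h => by
    obtain ⟨c, hc⟩ := exists_sc_of_center ((conjAut_eq_one_iff (by omega)).1 h)
    have h02 : hB σ (1 : Mat) e₁ e₀ = 0 := hH.swap_zero he01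
    have hx : (p₀ : Mat) *ᵥ e₀ = -e₀ := by
      rw [hp₀, planeMat_mulVec (hφ_perp h02), hφ_self he00, hφ_perp he01]; module
    let e₂ : Fin n → F := Pi.single ⟨2, by omega⟩ 1
    have hw : (p₀ : Mat) *ᵥ e₂ = e₂ := by
      rw [hp₀, planeMat_mulVec (hφ_perp h02),
        hφ_perp (show hB σ (1 : Mat) e₂ e₀ = 0 by rw [he, if_neg (by simp [Fin.ext_iff])]),
        hφ_perp (show hB σ (1 : Mat) e₂ e₁ = 0 by rw [he, if_neg (by simp [Fin.ext_iff])])]
      module
    rw [hc, coe_sc, smul_mulVec, one_mulVec] at hx hw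
    have h1 := congrFun hx ⟨0, by omega⟩
    have h3 := congrFun hw ⟨2, by omega⟩
    simp [e₀, e₂] at h1 h3
    rw [h3] at h1
    have h4 : (1 : F) = -1 := by simpa using congrArg Units.val h1
    exact h2 (by linear_combination h4)
  have hqodd : ¬ (n = 3 ∧ q = 2) := fun ⟨_, h⟩ => h2 (by
    have := Nat.cast_card_eq_zero F
    rw [← Nat.card_eq_fintype_card, hSq.2, h] at this
    have h4 : (2 : F) * 2 = 0 := by push_cast at this; linear_combination this
    exact mul_self_eq_zero.1 h4)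
  haveI : IsSimpleGroup (↥(Cfsg.SU n F q) ⧸ Subgroup.center ↥(Cfsg.SU n F q)) :=
    Classical.U.isSimpleGroup_PSU hSq hn hqodd
  haveI : IsSimpleGroup ↥ψ.range := by
    obtain ⟨s, hs⟩ := hmemL p₀ hp₀d hp₀f
    exact isSimpleGroup_range_quot ψ _ hker ⟨s, by rw [hs]; exact hp₀1⟩
  refine core_eq_bot (L := ψ.range) hLC (inf_le_inf hinn le_rfl)
    (fun h hh c hc => inn_cent_normalized _ B hh hc) ?_
    (noPPrime_of_simple _ (dvd_card_of_orderOf _ (hmemL p₀ hp₀d hp₀f)
      (orderOf_eq_prime (by rw [← map_pow, sq, hp₀2, map_one]) hp₀1)))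
    fun a _ hcomm ho => ?_
  · rintro c hc _ ⟨s, rfl⟩
    obtain ⟨hi, hcy⟩ := Subgroup.mem_inf.1 hc
    rw [inn_eq_map] at hi
    obtain ⟨k, -, rfl⟩ := hi
    rw [Subgroup.mem_centralizer_singleton_iff, hy, gf_mul_conjAut, mul_left_inj] at hcy
    obtain ⟨l, hl⟩ := (conjAut_eq_iff (by omega)).1 hcy.symm
    have hl' : gfHom σ k = sc l * k := Units.ext (by
      rw [hl, Units.val_mul, coe_sc, Matrix.smul_mul, one_mul])
    show conjAut k * conjAut _ * (conjAut k)⁻¹ ∈ _
    rw [← map_inv, ← map_mul, ← map_mul]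
    refine hmemL _ ?_ ?_
    · rw [Units.val_mul, Units.val_mul, Matrix.det_units_conj]
      exact s.1.2
    · rw [map_mul, map_mul, map_inv, show gfHom σ ((SpecialLinearGroup.toGL.comp
        (Cfsg.SU n F q).subtype) s) = _ from hfix s, hl', _root_.mul_inv_rev, ← map_inv]
      have := (sc_comm l⁻¹ (k * SpecialLinearGroup.toGL s.1 * k⁻¹))
      calc sc l * k * SpecialLinearGroup.toGL s.1 * (k⁻¹ * sc l⁻¹)
          = sc l * (k * SpecialLinearGroup.toGL s.1 * k⁻¹ * sc l⁻¹) := by simp only [mul_assoc]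
        _ = sc l * (sc l⁻¹ * (k * SpecialLinearGroup.toGL s.1 * k⁻¹)) := by rw [← this]
        _ = _ := by rw [← mul_assoc, ← map_mul, mul_inv_cancel, map_one, one_mul]; rfl
  let S : Set GLn := {h | ∃ x z : Fin n → F, hB σ (1 : Mat) x x ≠ 0 ∧ hB σ (1 : Mat) z z ≠ 0 ∧
    hB σ (1 : Mat) x z = 0 ∧ (h : Mat) = planeMat x (hφ σ (1 : Mat) x) z (hφ σ (1 : Mat) z) ∧
    (h : Mat).det = 1 ∧ gfHom σ h = h ∧ h * h = 1}
  refine eq_one_of_commute_invols hn S ?_ ?_ ho ?_
  · rintro h ⟨x, z, -, -, -, -, -, -, e⟩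
    exact e
  · intro g' ρ hcm
    obtain ⟨hρ, hsc⟩ := hH.scalar_of_planes (RingHom.id F) ρ hn h2
      (Units.ne_zero (GeneralLinearGroup.det g')) fun x z hx hz hxz => by
        obtain ⟨h, e', e''⟩ := hplane x z hx hz hxz
        rw [← e']
        exact hcm h ⟨x, z, hx, hz, hxz, e', e''⟩
    exact ⟨RingEquiv.ext hρ, hsc⟩
  · rintro h ⟨x, z, -, -, -, -, hd, hf, -⟩
    exact hcomm _ (hmemL h hd hf)

end Cfsg.Agent.LocalBal.Lin
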