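import Mathlib
import Cfsg.Agent.LocalBal.LinFieldStd
import Cfsg.Agent.LocalBal.LinGraph
import Cfsg.Agent.AutPSL.Main

/-!
`O_{p'}` of centralizers of non-inner-diagonal automorphisms of prime order of `PSL_n(F)`.
-/

set_option autoImplicit false
set_option linter.unusedSectionVars false

namespace Cfsg.Agent.LocalBal.Lin

open Matrix Cfsg.Agent.AutPSL Cfsg.Agent.GraphForms Cfsg.Agent.GraphForms.Lin

variable {F : Type*} [Field F] {n : ℕ}

local notation "PSLn" => Matrix.ProjectiveSpecialLinearGroup (Fin n) F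
local notation "A⋆" => MulAut (Matrix.ProjectiveSpecialLinearGroup (Fin n) F)
local notation "GLn" => GL (Fin n) F

theorem sq_decomp (g : GLn) (σ : F ≃+* F) :
    ∃ g' : GLn, (conjAut g * fieldAut σ * invTAut : A⋆) * (conjAut g * fieldAut σ * invTAut) =
      conjAut g' * fieldAut (σ * σ) := by
  refine ⟨g * GeneralLinearGroup.map σ.toRingHom (glInvT g), ?_⟩
  calc conjAut g * fieldAut σ * invTAut * (conjAut g * fieldAut σ * invTAut)
      = conjAut g * (fieldAut σ * (invTAut * conjAut g) * fieldAut σ * invTAut) := by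
        simp only [mul_assoc]
    _ = conjAut g * (conjAut (GeneralLinearGroup.map σ.toRingHom (glInvT g)) * fieldAut σ *
          (invTAut * fieldAut σ) * invTAut) := by
        rw [invTAut_mul_conjAut, ← mul_assoc (fieldAut σ), fieldAut_mul_conjAut]
        simp only [mul_assoc]
    _ = _ := by
        rw [invTAut_mul_fieldAut, map_mul, map_mul]
        simp only [mul_assoc, invTAut_mul_self, mul_one]

theorem outer_order [Finite F] (hn : 3 ≤ n) {p : ℕ} [Fact p.Prime] (g : GLn) (σ : F ≃+* F)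
    (h : (conjAut g * fieldAut σ * invTAut : A⋆) ^ p = 1) : p = 2 ∧ σ * σ = 1 := by
  obtain ⟨g', hg'⟩ := sq_decomp g σ
  rcases (Fact.out : p.Prime).eq_two_or_odd' with rfl | ⟨k, rfl⟩
  · rw [sq, hg'] at h
    exact ⟨rfl, (conj_field_eq_one (by omega) h).1⟩
  · exfalso
    have hk : ∀ j : ℕ, ∃ (d : GLn) (τ : F ≃+* F),
        (conjAut g * fieldAut σ * invTAut : A⋆) ^ (2 * j + 1) = conjAut d * fieldAut τ * invTAut := by
      intro j
      induction j with
      | zero => exact ⟨g, σ, by rw [Nat.mul_zero, Nat.zero_add, pow_one]⟩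
      | succ j ih =>
        obtain ⟨d, τ, e⟩ := ih
        refine ⟨g' * GeneralLinearGroup.map (σ * σ).toRingHom d, (σ * σ) * τ, ?_⟩
        rw [show 2 * (j + 1) + 1 = 2 + (2 * j + 1) by ring, pow_add, sq, hg', e, map_mul conjAut g',
          map_mul fieldAut (σ * σ)]
        simp only [← mul_assoc]
        rw [mul_assoc (conjAut g') (fieldAut (σ * σ)) (conjAut d), fieldAut_mul_conjAut]
        simp only [← mul_assoc]
    obtain ⟨d, τ, e⟩ := hk k
    exact conj_field_invT_ne_one hn d τ (e.symm.trans h)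

/-- The main criterion. -/
theorem local_balance [Finite F] {r : ℕ} [Fact r.Prime] [CharP F r] (hn : 2 ≤ n)
    (A : Subgroup A⋆) (hinn : Cfsg.Inn PSLn ≤ A) {p : ℕ} [Fact p.Prime] (hpr : p ≠ r) {β : A⋆}
    (hord : orderOf β = p) (hnot : ¬ Cfsg.IsInnerDiagonalAutPSL β) :
    Cfsg.pPrimeCore p ↥(A ⊓ Subgroup.centralizer {β}) ≠ ⊥ ↔
      ((∃ γ φ : A⋆, Cfsg.IsInnerDiagonalAutPSL γ ∧ Cfsg.IsFieldAutPSL φ ∧ β = φ.trans γ) ∧
        Nat.Coprime p (Nat.card ↥(MonoidHom.eqLocus β.toMonoidHom (MonoidHom.id PSLn)))) := by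
  classical
  haveI := Fintype.ofFinite F
  have hp : β ^ p = 1 := by rw [← hord]; exact pow_orderOf_eq_one β
  have htrans : ∀ γ φ : A⋆, φ.trans γ = γ * φ := fun γ φ => rfl
  have hdec : ∃ (g : GLn) (σ : F ≃+* F),
      β = conjAut g * fieldAut σ ∨ (3 ≤ n ∧ β = conjAut g * fieldAut σ * invTAut) := by
    rcases eq_or_lt_of_le hn with rfl | h3
    · obtain ⟨g, σ, e⟩ := exists_decomp_two β
      exact ⟨g, σ, Or.inl e⟩
    · obtain ⟨g, σ, e | e⟩ := exists_decomp hn β
      · exact ⟨g, σ, Or.inl e⟩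
      · exact ⟨g, σ, Or.inr ⟨h3, e⟩⟩
  obtain ⟨d, σ, rfl | ⟨h3, rfl⟩⟩ := hdec
  · have hσ1 : σ ≠ 1 := fun h => hnot (isInnerDiagonalAutPSL_iff.2 ⟨d, by rw [h, map_one, mul_one]⟩)
    have hσp : σ ^ p = 1 := by
      have h := twistNorm_apply conjAut (fieldAut σ : A⋆) (GeneralLinearGroup.map σ.toRingHom)
        (fun g => fieldAut_mul_conjAut σ g) d p
      rw [hp, ← map_pow] at h
      exact (conj_field_eq_one hn h.symm).1
    have hσ : orderOf σ = p := orderOf_eq_prime hσp hσ1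
    have hfield : ∃ γ φ : A⋆, Cfsg.IsInnerDiagonalAutPSL γ ∧ Cfsg.IsFieldAutPSL φ ∧
        conjAut d * fieldAut σ = φ.trans γ :=
      ⟨_, _, isInnerDiagonalAutPSL_iff.2 ⟨d, rfl⟩, isFieldAutPSL_iff.2 ⟨σ, rfl⟩, (htrans _ _).symm⟩
    rw [and_iff_right hfield]
    obtain ⟨g, hg⟩ := field_coset hn σ hσ d hp
    refine criterion_conj _ (fieldAut σ) (conjAut g)⁻¹ (by rw [hg]; group) A hinn fun B hB => ?_
    refine local_std hn σ hσ (fun h => hpr ?_) B hB
    obtain ⟨k, -, hk⟩ := FiniteField.card F r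
    have h1 : p ∣ Nat.card F := h.trans (by
      conv_rhs => rw [card_fixedField_pow σ]
      exact dvd_pow_self _ (by rw [hσ]; exact (Fact.out : p.Prime).pos.ne'))
    rw [Nat.card_eq_fintype_card, hk] at h1
    exact (Nat.prime_dvd_prime_iff_eq Fact.out Fact.out).1 ((Fact.out : p.Prime).dvd_of_dvd_pow h1)
  · obtain ⟨rfl, hσ2⟩ := outer_order h3 d σ hp
    have h2 : (2 : F) ≠ 0 := fun h0 => hpr (by
      have := (CharP.cast_eq_zero_iff F r 2).1 (by exact_mod_cast h0)
      exact ((Nat.prime_dvd_prime_iff_eq Fact.out Nat.prime_two).1 this).symm)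
    have hrhs : ¬ ∃ γ φ : A⋆, Cfsg.IsInnerDiagonalAutPSL γ ∧ Cfsg.IsFieldAutPSL φ ∧
        conjAut d * fieldAut σ * invTAut = φ.trans γ := by
      rintro ⟨γ, φ, hγ, hφ, e⟩
      obtain ⟨g', rfl⟩ := isInnerDiagonalAutPSL_iff.1 hγ
      obtain ⟨σ', rfl⟩ := isFieldAutPSL_iff.1 hφ
      rw [htrans] at e
      refine invTAut_ne h3 (GeneralLinearGroup.map (σ⁻¹ : F ≃+* F).toRingHom (d⁻¹ * g')) (σ⁻¹ * σ') ?_
      have e1 : (invTAut : A⋆) = (fieldAut σ)⁻¹ * ((conjAut d)⁻¹ * (conjAut g' * fieldAut σ')) := by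
        rw [← e]; group
      rw [e1, ← map_inv fieldAut, map_mul fieldAut, ← mul_assoc (conjAut _),
        ← fieldAut_mul_conjAut, map_mul conjAut, map_inv conjAut]
      simp only [mul_assoc]
    refine iff_of_false (not_not.2 ?_) fun h => hrhs h.1
    by_cases hσ1 : σ = 1
    · subst hσ1
      have e : (conjAut d * fieldAut 1 * invTAut : A⋆) = graphAut d := by rw [map_one, mul_one]; rfl
      rw [e] at hord ⊢
      obtain ⟨g, hg, hform⟩ := exists_graph h3 (isGraph_graphAut h3 d) hord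
      rw [hg]
      rcases hform with hs | ⟨-, ha⟩
      · exact core_symm h3 h2 g hs A hinn
      · exact core_alt h3 h2 g ha A hinn
    · have hσ : orderOf σ = 2 := orderOf_eq_prime (by rw [sq, hσ2]) hσ1
      obtain ⟨g, hg⟩ := gf_coset h3 σ hσ1 hσ2 d (by rw [← mul_assoc]; exact hp)
      refine core_bot_conj _ (fieldAut σ * invTAut) (conjAut g)⁻¹ ?_ A hinn
        fun B hB => core_gf h3 h2 σ hσ B hB
      rw [mul_assoc (conjAut d), hg]; group

end Cfsg.Agent.LocalBal.Lin
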