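import Mathlib
import Cfsg.Agent.AutPSU.Main
import Cfsg.Agent.AutPSU.Field
import Cfsg.Agent.LocalBal.Core
import Cfsg.Agent.Classical.USimple
import Cfsg.Agent.GraphForms.UnitaryStatements
import Cfsg.Agent.S0827

/-!
`O_{p'}` of centralizers of field automorphisms of odd order of `PSU_n(q)`.
-/

set_option autoImplicit false
set_option linter.unusedSectionVars false

namespace Cfsg.Agent.LocalBal.Uni

open Matrix Cfsg.Agent.AutPSU Cfsg.Agent.Classical.U

universe u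

variable {F : Type u} [Field F] {n q : ℕ} {F₀ : Type u} [Field F₀] {q₀ : ℕ}

local notation "Mat" => Matrix (Fin n) (Fin n) F
local notation "GLn" => GL (Fin n) F
local notation "V" => (Fin n → F)
set_option quotPrecheck false
local notation "SUn" => ↥(Cfsg.SU n F q)
local notation "GUn" => ↥(Cfsg.GU n F q)
local notation "PSUn" => Cfsg.PSU n F q
local notation "A⋆" => MulAut (Cfsg.PSU n F q)

theorem conj_injective (hF : SqField F q) (hn : 3 ≤ n) :
    ∀ k : PSUn, MulAut.conj k = 1 → k = 1 := by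
  intro k hk
  obtain ⟨s, rfl⟩ := proj_surjective k
  rw [← conjAut_suToGU, conjAut_eq_one_iff hF hn] at hk
  obtain ⟨c, hc⟩ := hk
  rw [← map_one proj, eq_comm, proj_eq_proj_iff hF (by omega)]
  refine ⟨((c : Fˣ) : F), fun v => ?_⟩
  rw [sapp_one]
  show ((suToGU s : GUn) : GLn).1 *ᵥ v = _
  rw [hc, scal_coe, smul_mulVec, one_mulVec]

theorem fix_of_commute (hF : SqField F q) (hn : 3 ≤ n) {a : A⋆} {k : PSUn}
    (h : Commute a (MulAut.conj k)) : a k = k := by
  have e : a * MulAut.conj k * a⁻¹ = MulAut.conj (a k) := MulEquiv.ext fun y => by simp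
  rw [h.eq, mul_inv_cancel_right] at e
  exact (eq_of_mul_inv_eq_one
    (conj_injective hF hn _ (by rw [map_mul, map_inv, e, mul_inv_cancel]))).symm

variable (hF : SqField F q) (hF₀ : SqField F₀ q₀) (e : F₀ →+* F)
  (hq : ∀ x, (e x) ^ q = e (x ^ q₀))
include hF hF₀ hq

theorem trvCond_emb {u : Fin n → F₀} {a : F₀} (h : TrvCond q₀ u a) :
    TrvCond q (fun i => e (u i)) (e a) :=
  ⟨by rw [herm_emb hF hF₀ e hq, h.1, map_zero], by rw [hq, h.2, map_neg]⟩

theorem inc_tvU {u : Fin n → F₀} {a : F₀} (h : TrvCond q₀ u a) :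
    inc hF hF₀ e hq (suToGU (tvU hF₀ h)) = suToGU (tvU hF (trvCond_emb hF hF₀ e hq h)) := by
  apply Subtype.ext
  apply Units.ext
  refine Matrix.ext_of_mulVec_single fun i => ?_
  show ((((suToGU (tvU hF₀ h) : ↥(Cfsg.GU n F₀ q₀)) : GL (Fin n) F₀)).1.map e) *ᵥ _ =
    sapp (tvU hF (trvCond_emb hF hF₀ e hq h)) (Pi.single i 1)
  have hs : (Pi.single i (1 : F) : Fin n → F) = fun k => e ((Pi.single i (1 : F₀) : Fin n → F₀) k) := by
    funext k; rcases eq_or_ne k i with rfl | hk <;> simp [*]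
  rw [hs, sapp_tvU, herm_emb hF hF₀ e hq]
  funext k
  refine (RingHom.map_mulVec e _ _ k).symm.trans ?_
  show e (sapp (tvU hF₀ h) (Pi.single i 1) k) = _
  rw [sapp_tvU]
  simp [map_add, map_mul]

/-- `SU_n(q₀)` inside the automorphism group. -/
def subSU : ↥(Cfsg.SU n F₀ q₀) →* MulAut (Cfsg.PSU n F q) :=
  conjAut.comp ((inc hF hF₀ e hq).comp suToGU)

/-- An automorphism commuting with the image of `SU_n(q₀)` is a field automorphism fixing the subfield. -/
theorem eq_field_of_commute (hn : 3 ≤ n) (hn2 : ¬(n = 3 ∧ q = 2)) (a : A⋆)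
    (hcomm : ∀ s, Commute a (subSU hF hF₀ e hq (n := n) s)) :
    ∃ ρ : F ≃+* F, a = fieldAut ρ ∧ ∀ x, ρ (e x) = e x := by
  classical
  haveI := hF.1
  haveI := hF₀.1
  obtain ⟨g, ρ, rfl⟩ := exists_decomp hF hn hn2 a
  have hdir : ∀ u : Fin n → F₀, u ≠ 0 → herm q₀ u u = 0 → ∃ t : F,
      ((g : GLn) : Mat) *ᵥ vmap ρ (fun i => e (u i)) = t • fun i => e (u i) := by
    intro u hu huu
    obtain ⟨c, hc, hcu⟩ := exists_trvCond hF₀ huu
    have h0 := hcomm (tvU hF₀ hcu)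
    rw [show subSU hF hF₀ e hq (tvU hF₀ hcu) = MulAut.conj (proj (tvU hF (trvCond_emb hF hF₀ e hq hcu))) by
      rw [← conjAut_suToGU, ← inc_tvU hF hF₀ e hq hcu]; rfl] at h0
    have h1 := conj_field_tvU hF g ρ (trvCond_emb hF hF₀ e hq hcu)
    rw [fix_of_commute hF hn h0] at h1
    have hu' : (fun i => e (u i)) ≠ 0 := fun h => hu (funext fun i => e.injective (by
      rw [Pi.zero_apply, map_zero]; exact congrFun h i))
    obtain ⟨t, ht⟩ := tvU_dir hF hn (trvCond_emb hF hF₀ e hq hcu) _ hu'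
      (mulVec_ne_zero _ (vmap_ne_zero ρ hu')) ((map_ne_zero e).2 hc) (by simpa using hc) h1
    exact ⟨t, ht.symm⟩
  let b : Fin n → V := fun i => Pi.single i 1
  let b₀ : Fin n → Fin n → F₀ := fun i => Pi.single i 1
  have hee : ∀ i j, herm q₀ (b₀ i) (b₀ j) = if i = j then 1 else 0 := fun i j => by
    simp [b₀, herm_single_one _ hF₀.q_ne_zero, Pi.single_apply, eq_comm]
  have hpair : ∀ i j, i ≠ j → ∀ x : F₀, x * x ^ q₀ = -1 → ∃ t : F,
      ((g : GLn) : Mat) *ᵥ b i + ρ (e x) • ((g : GLn) : Mat) *ᵥ b j = t • (b i + e x • b j) := by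
    intro i j hij x hx
    obtain ⟨t, ht⟩ := hdir (b₀ i + x • b₀ j) (fun h0 => by
        have := congrFun h0 i; simp [b₀, hij] at this) (by
        simp only [herm_add_left, hF₀.herm_add_right, herm_smul_left, herm_smul_right, hee, hij,
          Ne.symm hij, if_true, if_false]
        linear_combination hx)
    refine ⟨t, ?_⟩
    rwa [show (fun k => e ((b₀ i + x • b₀ j) k)) = b i + e x • b j by
      funext k; simp [b, b₀, Pi.single_apply, apply_ite e],
      show vmap ρ (b i + e x • b j) = b i + ρ (e x) • b j by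
      funext k; simp [vmap, b, Pi.single_apply, apply_ite ρ], Matrix.mulVec_add,
      Matrix.mulVec_smul] at ht
  obtain ⟨x₀, hx₀⟩ := hF₀.exists_norm (c := (-1 : F₀)) (by rw [hF₀.neg_pow, one_pow])
  rw [pow_succ'] at hx₀
  obtain ⟨ζ, hζ, hζ1⟩ := exists_norm_one_ne_one hF₀
  rw [pow_succ'] at hζ
  have hx₁ : x₀ * ζ * (x₀ * ζ) ^ q₀ = -1 := by
    rw [mul_pow]; linear_combination (ζ * ζ ^ q₀) * hx₀ - hζ
  have hx00 : x₀ ≠ 0 := fun e0 => by simp [e0] at hx₀
  have hdiag : ∀ i k, k ≠ i → (((g : GLn) : Mat) *ᵥ b i) k = 0 := by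
    intro i k hki
    obtain ⟨j, hji, hjk⟩ : ∃ j, j ≠ i ∧ j ≠ k := by
      obtain ⟨j, hj⟩ := Finset.card_pos.1 (show 0 < ({i, k}ᶜ : Finset (Fin n)).card by
        rw [Finset.card_compl, Finset.card_pair (Ne.symm hki), Fintype.card_fin]; omega)
      simp at hj
      exact ⟨j, hj.1, hj.2⟩
    obtain ⟨t, ht⟩ := hpair i j (Ne.symm hji) x₀ hx₀
    obtain ⟨t', ht'⟩ := hpair i j (Ne.symm hji) (x₀ * ζ) hx₁
    have h1 := congrFun ht k
    have h2 := congrFun ht' k
    simp [b, hki, Ne.symm hjk] at h1 h2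
    have hd : ρ (e x₀) * (ρ (e ζ) - 1) ≠ 0 :=
      mul_ne_zero (by simpa using hx00) (sub_ne_zero.2 fun e0 => hζ1
        (e.injective (ρ.injective (by rw [e0, map_one, map_one]))))
    have h3 : (((g : GLn) : Mat) *ᵥ b j) k = 0 := by
      have : ρ (e x₀) * (ρ (e ζ) - 1) * (((g : GLn) : Mat) *ᵥ b j) k = 0 := by
        simp only [b, Matrix.mulVec_single_one, Matrix.col_apply]
        linear_combination h2 - h1
      exact (mul_eq_zero.1 this).resolve_left hd
    simp [b] at h3 ⊢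
    linear_combination h1 - ρ (e x₀) * h3
  set t : Fin n → F := fun i => (((g : GLn) : Mat) *ᵥ b i) i with ht
  have hge : ∀ i, ((g : GLn) : Mat) *ᵥ b i = t i • b i := fun i => by
    funext k
    rcases eq_or_ne k i with rfl | hk
    · simp [ht, b]
    · rw [hdiag i k hk]; simp [b, hk]
  have hgen : ∀ i j, i ≠ j → ∀ x : F₀, x * x ^ q₀ = -1 → ρ (e x) * t j = e x * t i := by
    intro i j hij x hx
    obtain ⟨s, hs⟩ := hpair i j hij x hx
    rw [hge, hge] at hs
    have hi := congrFun hs i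
    have hj := congrFun hs j
    simp [b, hij, Ne.symm hij] at hi hj
    rw [hj, hi]
    ring
  have ht0 : ∀ i, t i ≠ 0 := fun i h0 =>
    mulVec_ne_zero (g : GLn) (v := b i) (by simp [b]) (by rw [hge, h0, zero_smul])
  have hex0 : e x₀ ≠ 0 := (map_ne_zero e).2 hx00
  have heq : ∀ i j, t i = t j := by
    intro i j
    rcases eq_or_ne i j with rfl | hij
    · rfl
    obtain ⟨k, hk⟩ := Finset.card_pos.1 (show 0 < ({i, j}ᶜ : Finset (Fin n)).card by
      rw [Finset.card_compl, Finset.card_pair hij, Fintype.card_fin]; omega)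
    simp at hk
    have h1 := hgen i j hij x₀ hx₀
    have h2 := hgen i k (Ne.symm hk.1) x₀ hx₀
    have h3 := hgen k j hk.2 x₀ hx₀
    have h4 : e x₀ * t i * (e x₀ - ρ (e x₀)) = 0 := by
      linear_combination (ρ (e x₀)) * h1 - e x₀ * h2 - ρ (e x₀) * h3
    have h5 : e x₀ - ρ (e x₀) = 0 := (mul_eq_zero.1 h4).resolve_left (mul_ne_zero hex0 (ht0 i))
    exact mul_left_cancel₀ hex0 (by linear_combination -h1 - t j * h5)
  obtain ⟨i₀, j₀, hij⟩ : ∃ i₀ j₀ : Fin n, i₀ ≠ j₀ := ⟨⟨0, by omega⟩, ⟨1, by omega⟩, by simp⟩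
  have hfix : ∀ x : F₀, x * x ^ q₀ = -1 → ρ (e x) = e x := fun x hx => by
    have h1 := hgen i₀ j₀ hij x hx
    rw [heq j₀ i₀] at h1
    exact mul_right_cancel₀ (ht0 i₀) h1
  have hnorm1 : ∀ x : F₀, x * x ^ q₀ = 1 → ρ (e x) = e x := fun x hx => by
    have h1 := hfix (x * x₀) (by rw [mul_pow]; linear_combination (x * x ^ q₀) * hx₀ - hx)
    rw [map_mul e, map_mul, hfix x₀ hx₀] at h1
    exact mul_right_cancel₀ hex0 h1
  -- the norm-one elements generate the subfield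
  have hρ : ∀ x, ρ (e x) = e x := by
    let K : Subfield F₀ := (AutPSL.fixedField ρ).comap e
    have hk : q₀ + 1 + 1 ≤ Nat.card ↥K := by
      let ι : Option {x : F₀ // x ^ (q₀ + 1) = 1} → ↥K := fun x =>
        x.elim ⟨0, zero_mem K⟩ fun y => ⟨y.1, hnorm1 y.1 (by rw [← pow_succ']; exact y.2)⟩
      have hι : Function.Injective ι := by
        rintro (_ | a) (_ | c) hac
        · rfl
        · exact absurd (congrArg Subtype.val hac).symm (fun e' : c.1 = 0 => by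
            have := c.2; rw [e', zero_pow (by omega)] at this; exact zero_ne_one this)
        · exact absurd (congrArg Subtype.val hac) (fun e' : a.1 = 0 => by
            have := a.2; rw [e', zero_pow (by omega)] at this; exact zero_ne_one this)
        · exact congrArg some (Subtype.ext (congrArg (fun z : ↥K => (z : F₀)) hac))
      have := Nat.card_le_card_of_injective ι hι
      rwa [Finite.card_option, hF₀.card_norm_one] at this
    have hc : Nat.card F₀ = Nat.card ↥K ^ Module.finrank ↥K F₀ := Module.natCard_eq_pow_finrank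
    have hd : Module.finrank ↥K F₀ = 1 := by
      have hpos : 0 < Module.finrank ↥K F₀ := Module.finrank_pos
      by_contra hne
      have h1 : Nat.card ↥K ^ 2 ≤ q₀ ^ 2 := by
        rw [← hF₀.2, hc]; exact Nat.pow_le_pow_right (by omega) (by omega)
      have h2 : q₀ ^ 2 < Nat.card ↥K ^ 2 := Nat.pow_lt_pow_left (by omega) two_ne_zero
      omega
    rw [hd, pow_one] at hc
    intro x
    have hb := ((Nat.bijective_iff_injective_and_card K.subtype).2 ⟨K.subtype.injective, hc.symm⟩).2 x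
    obtain ⟨y, rfl⟩ := hb
    exact y.2
  refine ⟨ρ, ?_, hρ⟩
  have htn : t i₀ * t i₀ ^ q = 1 := by
    have h1 := herm_gu g (b i₀) (b i₀)
    rwa [hge, herm_smul_self hF, show herm q (b i₀) (b i₀) = (1 : F) by
      simp [b, herm_single_one _ hF.q_ne_zero], mul_one] at h1
  have hg : g = scal (⟨Units.mk0 _ (ht0 i₀), mem_normOne.2 htn⟩ : ↥(normOne F q)) := by
    refine Subtype.ext (Units.ext ?_)
    rw [scal_coe]
    refine Matrix.ext_of_mulVec_single fun i => ?_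
    rw [Matrix.smul_mulVec, one_mulVec, Units.val_mk0]
    exact (hge i).trans (by rw [heq i i₀])
  rw [hg, conjAut_scal, one_mul]

theorem det_inc (s : ↥(Cfsg.SU n F₀ q₀)) :
    ((inc hF hF₀ e hq (suToGU s) : GUn) : GLn).1.det = 1 := by
  show ((mat s).map e).det = 1
  rw [← RingHom.mapMatrix_apply, ← RingHom.map_det, show (mat s).det = 1 from s.1.2, map_one]

/-- The inclusion of `SU_n(q₀)` in `SU_n(q)`. -/
def incSU (s : ↥(Cfsg.SU n F₀ q₀)) : ↥(Cfsg.SU n F q) :=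
  ⟨⟨_, det_inc hF hF₀ e hq s⟩, (inc hF hF₀ e hq (suToGU s)).2⟩

theorem subSU_eq_conj (s : ↥(Cfsg.SU n F₀ q₀)) :
    subSU hF hF₀ e hq s = MulAut.conj (proj (incSU hF hF₀ e hq s)) := by
  rw [← conjAut_suToGU]
  exact congrArg conjAut (Subtype.ext (Units.ext rfl))

variable (σ : F ≃+* F) (he : ∀ a : F, σ a = a ↔ ∃ b, e b = a)
include he

theorem subSU_mem (hn : 3 ≤ n) (s : ↥(Cfsg.SU n F₀ q₀)) :
    subSU hF hF₀ e hq s ∈ Cfsg.Inn PSUn ⊓ Subgroup.centralizer {(fieldAut σ : A⋆)} := by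
  refine Subgroup.mem_inf.2 ⟨?_, (conjAut_inc_mem hF hF₀ e hq σ he hn _).2⟩
  rw [subSU_eq_conj]
  exact conj_mem_inn _

theorem exists_sub (hn : 3 ≤ n) {c : A⋆}
    (hc : c ∈ Cfsg.Inn PSUn ⊓ Subgroup.centralizer {(fieldAut σ : A⋆)}) :
    ∃ g₀ : ↥(Cfsg.GU n F₀ q₀), c = conjAut (inc hF hF₀ e hq g₀) := by
  obtain ⟨hi, hcen⟩ := Subgroup.mem_inf.1 hc
  rw [inn_eq_map] at hi
  obtain ⟨g, -, rfl⟩ := hi
  obtain ⟨μ, hμ⟩ := (mem_cent_field hF hF₀ e hq σ he hn g).1 hcen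
  obtain ⟨g₀, hg₀⟩ := exists_preimage hF hF₀ e hq σ he _ hμ
  exact ⟨g₀, by rw [hg₀, map_mul, conjAut_scal, one_mul]⟩

theorem subSU_normalized (hn : 3 ≤ n) {c : A⋆}
    (hc : c ∈ Cfsg.Inn PSUn ⊓ Subgroup.centralizer {(fieldAut σ : A⋆)}) {l : A⋆}
    (hl : l ∈ (subSU hF hF₀ e hq (n := n)).range) :
    c * l * c⁻¹ ∈ (subSU hF hF₀ e hq (n := n)).range := by
  obtain ⟨g₀, rfl⟩ := exists_sub hF hF₀ e hq σ he hn hc
  obtain ⟨s, rfl⟩ := hl
  refine ⟨suConj g₀ s, ?_⟩
  show conjAut (inc hF hF₀ e hq (suToGU (suConj g₀ s))) = _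
  rw [show suToGU (suConj g₀ s) = g₀ * suToGU s * g₀⁻¹ from Subtype.ext (Units.ext rfl), map_mul,
    map_mul, map_inv, map_mul, map_mul, map_inv]
  rfl

theorem subSU_eq_one_iff (hn : 3 ≤ n) (s : ↥(Cfsg.SU n F₀ q₀)) :
    subSU hF hF₀ e hq s = (1 : A⋆) ↔ ∃ d : F₀, mat s = d • (1 : Matrix (Fin n) (Fin n) F₀) := by
  show conjAut (inc hF hF₀ e hq (suToGU s)) = 1 ↔ _
  rw [conjAut_inc_eq_one_iff hF hF₀ e hq hn]
  constructor
  · rintro ⟨c, hc⟩
    exact ⟨((c : F₀ˣ) : F₀), by rw [← suToGU_coe, hc, scal_coe]⟩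
  · rintro ⟨d, hd⟩
    have hd0 : d ≠ 0 := fun h0 => by
      haveI : Nonempty (Fin n) := ⟨⟨0, by omega⟩⟩
      have h1 : (mat s).det = 1 := s.1.2
      rw [hd, h0, zero_smul, det_zero] at h1
      exact zero_ne_one h1
    have hd1 : d * d ^ q₀ = 1 := by
      have h := herm_gu (suToGU s) (Pi.single ⟨0, by omega⟩ 1) (Pi.single ⟨0, by omega⟩ 1)
      rw [suToGU_coe, hd, Matrix.smul_mulVec, one_mulVec, herm_smul_left, herm_smul_right,
        herm_single_one _ hF₀.q_ne_zero, Pi.single_eq_same, mul_one] at h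
      exact h
    exact ⟨⟨Units.mk0 d hd0, mem_normOne.2 hd1⟩, Subtype.ext (Units.ext (by
      rw [scal_coe, suToGU_coe, hd]; rfl))⟩

theorem subSU_center_le (hn : 3 ≤ n) :
    Subgroup.center ↥(Cfsg.SU n F₀ q₀) ≤ (subSU hF hF₀ e hq (n := n)).ker := by
  intro s hs
  obtain ⟨c, hc⟩ := center_scalar hF₀ (by omega) hs
  rw [MonoidHom.mem_ker, subSU_eq_one_iff hF hF₀ e hq σ he hn]
  refine ⟨c, Matrix.ext_of_mulVec_single fun i => ?_⟩
  rw [smul_mulVec, one_mulVec]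
  exact hc _

theorem exists_ne_one (hn : 3 ≤ n) :
    ∃ s, subSU hF hF₀ e hq (n := n) s ≠ 1 ∧
      (fieldAut σ : A⋆) (proj (incSU hF hF₀ e hq s)) = proj (incSU hF hF₀ e hq s) := by
  obtain ⟨x₀, hx₀⟩ := hF₀.exists_norm (c := (-1 : F₀)) (by rw [hF₀.neg_pow, one_pow])
  rw [pow_succ'] at hx₀
  have h01 : (⟨0, by omega⟩ : Fin n) ≠ ⟨1, by omega⟩ := by simp [Fin.ext_iff]
  let w : Fin n → F₀ := Pi.single ⟨0, by omega⟩ 1 + x₀ • Pi.single ⟨1, by omega⟩ 1
  have hw : w ≠ 0 := fun h0 => by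
    have := congrFun h0 ⟨0, by omega⟩
    simp [w, h01] at this
  have hww : herm q₀ w w = 0 := by
    simp only [w, herm_add_left, hF₀.herm_add_right, herm_smul_left, herm_smul_right,
      herm_single_one _ hF₀.q_ne_zero, Pi.single_apply, h01, h01.symm, if_false, if_true]
    simp
    linear_combination hx₀
  obtain ⟨c, hc, hcw⟩ := exists_trvCond hF₀ hww
  refine ⟨tvU hF₀ hcw, fun h => ?_, ?_⟩
  · obtain ⟨d, hd⟩ := (subSU_eq_one_iff hF hF₀ e hq σ he hn _).1 h
    refine proj_tvU_ne_one hF₀ (by omega : 2 ≤ n) hcw hw hc ?_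
    rw [proj_apply, QuotientGroup.eq_one_iff]
    exact mem_center_of_scalar ⟨d, fun v => by
      show mat (tvU hF₀ hcw) *ᵥ v = _
      rw [hd, smul_mulVec, one_mulVec]⟩
  · rw [fieldAut_proj]
    congr 1
    apply Subtype.ext; apply Subtype.ext
    ext i j
    exact (he _).2 ⟨_, rfl⟩

/-- A prime dividing the fixed group divides the image of `SU_n(q₀)`. -/
theorem dvd_card_subSU (hn : 3 ≤ n) {p : ℕ} [Fact p.Prime]
    (hp : p ∣ Nat.card ↥(Cfsg.Inn PSUn ⊓ Subgroup.centralizer {(fieldAut σ : A⋆)})) :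
    p ∣ Nat.card ↥(subSU hF hF₀ e hq (n := n)).range := by
  classical
  haveI := hF.1
  haveI := hF₀.1
  obtain ⟨y, hy⟩ := exists_prime_orderOf_dvd_card' p hp
  have hy' : orderOf (y : A⋆) = p := by rw [Subgroup.orderOf_coe, hy]
  obtain ⟨g₀, hg₀⟩ := exists_sub hF hF₀ e hq σ he hn y.2
  set k := Nat.card ↥(normOne F₀ q₀) with hk
  set d := Nat.gcd n k with hdd
  set u : ↥(normOne F₀ q₀) := detU hF₀ g₀ with hu
  have hud : (u ^ Nat.gcdA n k) ^ n = u ^ d := by
    have h1 : u ^ ((d : ℕ) : ℤ) = u ^ (((n : ℤ) * Nat.gcdA n k) + (k : ℤ) * Nat.gcdB n k) := by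
      rw [hdd, Nat.gcd_eq_gcd_ab]
    rw [zpow_natCast, _root_.zpow_add, _root_.zpow_mul u (k : ℤ), zpow_natCast, hk, pow_card_eq_one',
      _root_.one_zpow, mul_one, mul_comm, _root_.zpow_mul, zpow_natCast] at h1
    exact h1.symm
  have hyd : (y : A⋆) ^ d ∈ (subSU hF hF₀ e hq (n := n)).range := by
    set z : ↥(normOne F₀ q₀) := u ^ Nat.gcdA n k
    set g₁ : ↥(Cfsg.GU n F₀ q₀) := scal z⁻¹ * g₀ ^ d with hg₁
    have hds : ∀ c : ↥(normOne F₀ q₀), detU hF₀ (scal c : ↥(Cfsg.GU n F₀ q₀)) = c ^ n := fun c => by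
      apply Subtype.ext
      apply Units.ext
      rw [detU_coe, GeneralLinearGroup.val_det_apply, scal_coe, det_smul, det_one, mul_one,
        Fintype.card_fin, SubmonoidClass.coe_pow, Units.val_pow_eq_pow_val]
    have hd : detU hF₀ g₁ = 1 := by
      rw [hg₁, map_mul, map_pow, hds, inv_pow, hud, hu, inv_mul_cancel]
    have hd' : (g₁ : GL (Fin n) F₀).1.det = 1 := by
      have := congrArg (fun c : ↥(normOne F₀ q₀) => ((c : F₀ˣ) : F₀)) hd
      simpa [detU_coe] using this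
    refine ⟨⟨⟨_, hd'⟩, g₁.2⟩, ?_⟩
    show conjAut (inc hF hF₀ e hq _) = _
    rw [show suToGU (⟨⟨_, hd'⟩, g₁.2⟩ : ↥(Cfsg.SU n F₀ q₀)) = g₁ from Subtype.ext (Units.ext rfl),
      hg₁, map_mul, map_mul, map_pow, map_pow, ← hg₀, inc_scal, conjAut_scal, one_mul]
  by_cases hpd : p ∣ d
  · have hpk : p ∣ k := hpd.trans (Nat.gcd_dvd_right n k)
    obtain ⟨ω, hω⟩ := exists_prime_orderOf_dvd_card' (G := ↥(normOne F₀ q₀)) p hpk
    let a : Fin n → F₀ := fun i => if i = ⟨0, by omega⟩ then ((ω : F₀ˣ) : F₀)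
      else if i = ⟨1, by omega⟩ then (((ω⁻¹ : ↥(normOne F₀ q₀)) : F₀ˣ) : F₀) else 1
    have h01 : (⟨0, by omega⟩ : Fin n) ≠ ⟨1, by omega⟩ := by simp [Fin.ext_iff]
    have hdet : (Matrix.diagonal a).det = 1 := by
      rw [det_diagonal, ← Finset.mul_prod_erase _ _ (Finset.mem_univ (⟨0, by omega⟩ : Fin n)),
        ← Finset.mul_prod_erase _ _ (show (⟨1, by omega⟩ : Fin n) ∈ Finset.univ.erase ⟨0, by omega⟩ from
          Finset.mem_erase.2 ⟨h01.symm, Finset.mem_univ _⟩),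
        Finset.prod_eq_one (fun i hi => by
          simp only [Finset.mem_erase] at hi
          simp [a, hi.1, hi.2.1]), mul_one]
      simp [a, h01.symm]
    have hmem : (⟨Matrix.diagonal a, hdet⟩ : Matrix.SpecialLinearGroup (Fin n) F₀) ∈
        Cfsg.SU n F₀ q₀ := by
      intro v w
      show herm q₀ (Matrix.diagonal a *ᵥ v) (Matrix.diagonal a *ᵥ w) = herm q₀ v w
      simp only [herm_def, mulVec_diagonal, mul_pow]
      refine Finset.sum_congr rfl fun i _ => ?_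
      have ha : a i * a i ^ q₀ = 1 := by
        simp only [a]
        split_ifs
        · exact mem_normOne.1 ω.2
        · exact mem_normOne.1 (ω⁻¹).2
        · simp
      linear_combination (v i * w i ^ q₀) * ha
    refine dvd_card_of_orderOf _ ⟨⟨_, hmem⟩, rfl⟩ (orderOf_eq_prime ?_ ?_)
    · rw [← map_pow, subSU_eq_one_iff hF hF₀ e hq σ he hn]
      refine ⟨1, ?_⟩
      show ((((⟨_, hmem⟩ : ↥(Cfsg.SU n F₀ q₀)) ^ p : ↥(Cfsg.SU n F₀ q₀)) :
        Matrix.SpecialLinearGroup (Fin n) F₀) : Matrix (Fin n) (Fin n) F₀) = _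
      rw [SubmonoidClass.coe_pow, Matrix.SpecialLinearGroup.coe_pow, one_smul]
      show Matrix.diagonal a ^ p = 1
      rw [Matrix.diagonal_pow, ← Matrix.diagonal_one]
      congr 1
      funext i
      have hωp : ω ^ p = 1 := by rw [← hω, pow_orderOf_eq_one]
      have h' : ∀ c : ↥(normOne F₀ q₀), c ^ p = 1 → ((c : F₀ˣ) : F₀) ^ p = 1 := fun c hc => by
        rw [← Units.val_pow_eq_pow_val, ← SubmonoidClass.coe_pow, hc]; rfl
      simp only [Pi.pow_apply, a]
      split_ifs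
      · exact h' ω hωp
      · exact h' _ (by rw [inv_pow, hωp, inv_one])
      · exact one_pow p
    · rw [Ne, subSU_eq_one_iff hF hF₀ e hq σ he hn]
      rintro ⟨c, hc⟩
      have h1 : Matrix.diagonal a = c • 1 := hc
      rw [smul_one_eq_diagonal, Matrix.diagonal_eq_diagonal_iff] at h1
      have e0 := h1 ⟨0, by omega⟩
      have e2 := h1 ⟨2, by omega⟩
      simp [a, Fin.ext_iff] at e0 e2
      have : ω = 1 := Subtype.ext (Units.ext (by rw [e0, ← e2]; rfl))
      rw [this, orderOf_one] at hω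
      exact (Fact.out : p.Prime).one_lt.ne hω
  · obtain ⟨m, hm⟩ := exists_pow_eq_self_of_coprime (x := (y : A⋆)) (n := d)
      (by rw [hy']; exact Nat.Coprime.symm ((Nat.Prime.coprime_iff_not_dvd Fact.out).2 hpd))
    exact dvd_card_of_orderOf _ (hm ▸ pow_mem hyd m) hy'

/-- The exceptional case `PSU_3(2)`. -/
theorem noPPrime_small (hn : 3 ≤ n) (hn2 : ¬(n = 3 ∧ q = 2)) (hsmall : n = 3 ∧ q₀ = 2) {p : ℕ}
    [Fact p.Prime] (hp2 : p ≠ 2) (hσ : ∀ ρ : F ≃+* F, (∀ x, ρ (e x) = e x) → ρ ^ p = 1)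
    (hpL : p ∣ Nat.card ↥(subSU hF hF₀ e hq (n := n)).range) :
    NoPPrime p (subSU hF hF₀ e hq (n := n)).range := by
  classical
  haveI := hF.1
  haveI := hF₀.1
  haveI := Fintype.ofFinite F₀
  obtain ⟨rfl, rfl⟩ := hsmall
  set ψ := subSU hF hF₀ e hq (n := 3)
  have hcard : Fintype.card F₀ = 4 := by rw [← Nat.card_eq_fintype_card, hF₀.2]; norm_num
  obtain ⟨N, hN, hN9, -, ⟨Q⟩⟩ := S0827.result (F := F₀) hcard
  haveI := hN
  have hker : ψ.ker = Subgroup.center ↥(Cfsg.SU 3 F₀ 2) := by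
    refine le_antisymm (fun s hs => ?_) (subSU_center_le hF hF₀ e hq σ he hn)
    obtain ⟨d, hd⟩ := (subSU_eq_one_iff hF hF₀ e hq σ he hn s).1 hs
    exact mem_center_of_scalar ⟨d, fun v => by
      show mat s *ᵥ v = _
      rw [hd, smul_mulVec, one_mulVec]⟩
  let E : Cfsg.PSU 3 F₀ 2 ≃* ↥ψ.range :=
    (QuotientGroup.quotientMulEquivOfEq hker.symm).trans (QuotientGroup.quotientKerEquivRange ψ)
  have h72 : Nat.card (Cfsg.PSU 3 F₀ 2) = 72 := by
    have h := Subgroup.card_eq_card_quotient_mul_card_subgroup N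
    rw [Nat.card_congr Q.toEquiv, hN9, Nat.card_eq_fintype_card (α := QuaternionGroup 2),
      QuaternionGroup.card] at h
    exact h
  have hp3 : p = 3 := by
    rw [← Nat.card_congr E.toEquiv, h72] at hpL
    rcases ((Fact.out : p.Prime).dvd_mul).1 (show p ∣ 2 ^ 3 * 3 ^ 2 by simpa using hpL) with h | h
    · exact absurd ((Nat.prime_dvd_prime_iff_eq Fact.out Nat.prime_two).1
        ((Fact.out : p.Prime).dvd_of_dvd_pow h)) hp2
    · exact (Nat.prime_dvd_prime_iff_eq Fact.out Nat.prime_three).1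
        ((Fact.out : p.Prime).dvd_of_dvd_pow h)
  subst hp3
  intro M hML hMn hMp
  let M' : Subgroup (Cfsg.PSU 3 F₀ 2) := (M.subgroupOf ψ.range).comap E.toMonoidHom
  haveI : (M.subgroupOf ψ.range).Normal := ⟨fun x hx l => hMn l.1 l.2 x.1 hx⟩
  haveI : M'.Normal := inferInstance
  have hM'c : Nat.card ↥M' = Nat.card ↥M := by
    rw [← Nat.card_congr (Subgroup.subgroupOfEquivOfLe hML).toEquiv]
    exact Nat.card_congr (Equiv.subtypeEquiv E.toEquiv fun _ => Iff.rfl)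
  have hMN : M' ⊓ N = ⊥ := by
    refine Subgroup.eq_bot_of_card_eq _ ?_
    have h1 : Nat.card ↥(M' ⊓ N) ∣ 9 := hN9 ▸ Subgroup.card_dvd_of_le inf_le_right
    have h2 : ¬ 3 ∣ Nat.card ↥(M' ⊓ N) := fun h => hMp (by
      rw [← hM'c]; exact h.trans (Subgroup.card_dvd_of_le inf_le_left))
    obtain ⟨k, -, hk⟩ := (Nat.dvd_prime_pow Nat.prime_three).1 (show Nat.card ↥(M' ⊓ N) ∣ 3 ^ 2 from h1)
    rcases k with _ | k
    · exact hk.trans (pow_zero 3)
    · exact absurd (hk ▸ dvd_pow_self 3 (Nat.succ_ne_zero k)) h2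
  let θ : ↥M' →* QuaternionGroup 2 := (Q.toMonoidHom.comp (QuotientGroup.mk' N)).comp M'.subtype
  have hθ : Function.Injective θ := by
    rw [injective_iff_map_eq_one]
    intro x hx
    have h1 : (QuotientGroup.mk' N) (x : Cfsg.PSU 3 F₀ 2) = 1 := Q.injective (by
      rw [map_one]; exact hx)
    have h2 : (x : Cfsg.PSU 3 F₀ 2) ∈ M' ⊓ N := ⟨x.2, (QuotientGroup.eq_one_iff _).1 h1⟩
    rw [hMN, Subgroup.mem_bot] at h2
    exact Subtype.ext h2
  have huniq : ∀ g h : QuaternionGroup 2, g * g = 1 → h * h = 1 → g ≠ 1 → h ≠ 1 → g = h := by decide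
  by_contra hne
  have hev : 2 ∣ Nat.card ↥M' := by
    have h1 : Nat.card ↥M' ∣ 2 ^ 3 := by
      have := Subgroup.card_dvd_of_injective θ hθ
      rwa [Nat.card_eq_fintype_card (α := QuaternionGroup 2), QuaternionGroup.card] at this
    obtain ⟨k, -, hk⟩ := (Nat.dvd_prime_pow Nat.prime_two).1 h1
    rcases k with _ | k
    · exact absurd (Subgroup.eq_bot_of_card_eq M (by rw [← hM'c, hk, pow_zero])) hne
    · exact hk ▸ dvd_pow_self 2 (Nat.succ_ne_zero k)
  obtain ⟨x, hx⟩ := exists_prime_orderOf_dvd_card' 2 hev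
  have hx2 : x * x = 1 := by
    have h0 := pow_orderOf_eq_one x
    rwa [hx, sq] at h0
  have hx1 : x ≠ 1 := fun h => by rw [h, orderOf_one] at hx; norm_num at hx
  set a : MulAut (Cfsg.PSU 3 F q) := (E (x : Cfsg.PSU 3 F₀ 2) : ↥ψ.range).1 with ha
  have hcentral : ∀ g : Cfsg.PSU 3 F₀ 2, Commute (x : Cfsg.PSU 3 F₀ 2) g := by
    intro g
    let x' : ↥M' := ⟨g * x * g⁻¹, Subgroup.Normal.conj_mem inferInstance _ x.2 g⟩
    have h1 : θ x = θ x' := by
      refine huniq _ _ ?_ ?_ ?_ ?_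
      · rw [← map_mul, hx2, map_one]
      · rw [← map_mul, show x' * x' = 1 from Subtype.ext (by
          have := congrArg Subtype.val hx2
          simp only [Subgroup.coe_mul, Subgroup.coe_one] at this ⊢
          show g * x * g⁻¹ * (g * x * g⁻¹) = 1
          rw [show g * (x : Cfsg.PSU 3 F₀ 2) * g⁻¹ * (g * x * g⁻¹) = g * ((x : Cfsg.PSU 3 F₀ 2) * x) * g⁻¹ by group,
            this, mul_one, mul_inv_cancel]), map_one]
      · exact fun h => hx1 (hθ (by rw [h, map_one]))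
      · intro h
        have h3 : x' = 1 := hθ (by rw [h, map_one])
        have h4 : g * (x : Cfsg.PSU 3 F₀ 2) * g⁻¹ = 1 := congrArg Subtype.val h3
        exact hx1 (Subtype.ext (conj_eq_one_iff.1 h4))
    have h2 : (x : Cfsg.PSU 3 F₀ 2) = g * x * g⁻¹ := congrArg Subtype.val (hθ h1)
    exact (eq_mul_inv_iff_mul_eq.1 h2)
  obtain ⟨ρ, hρa, hρ⟩ := eq_field_of_commute hF hF₀ e hq hn hn2 a fun s => by
    obtain ⟨g, hg⟩ := E.surjective ⟨ψ s, s, rfl⟩
    have := congrArg (fun z => (z : ↥ψ.range).1) (congrArg E (hcentral g).eq)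
    simp only [map_mul, hg, Subgroup.coe_mul] at this
    exact this
  have ha2 : a ^ 2 = 1 := by
    rw [ha, sq, ← Subgroup.coe_mul, ← map_mul, show (x : Cfsg.PSU 3 F₀ 2) * x = 1 from
      congrArg Subtype.val hx2, map_one, Subgroup.coe_one]
  have ha3 : a ^ 3 = 1 := by rw [hρa, ← map_pow, hσ ρ hρ, map_one]
  have ha1 : a = 1 := by
    calc a = a ^ 3 * (a ^ 2)⁻¹ := by group
      _ = 1 := by rw [ha2, ha3, inv_one, mul_one]
  exact hx1 (Subtype.ext (E.injective (Subtype.ext (by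
    rw [Subgroup.coe_one, map_one, Subgroup.coe_one]; exact ha1))))

end Cfsg.Agent.LocalBal.Uni
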