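import Mathlib
import Cfsg.Agent.GraphForms.Unitary
import Cfsg.Agent.LocalBal.Core
import Cfsg.Agent.LocalBal.OrthCore
import Cfsg.Agent.LocalBal.AltLines
import Cfsg.Agent.AutPSU.Main
import Cfsg.Agent.Linear.Symplectic

/-!
`O_{2'}` of centralizers of involutory graph automorphisms of `PSU_n(q)`, `q` odd, is trivial.
-/

set_option autoImplicit false
set_option linter.unusedSectionVars false

namespace Cfsg.Agent.LocalBal.Uni

open Matrix Cfsg.Agent.AutPSU Cfsg.Agent.Classical.U Cfsg.Agent.GraphForms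

universe u v

variable {F : Type u} [Field F] {n q : ℕ} {F₀ : Type v} [Field F₀]

local notation "Mat" => Matrix (Fin n) (Fin n) F
local notation "GLn" => GL (Fin n) F
local notation "Mat₀" => Matrix (Fin n) (Fin n) F₀
set_option quotPrecheck false
local notation "GUn" => ↥(Cfsg.GU n F q)
local notation "PSUn" => Cfsg.PSU n F q
local notation "A⋆" => MulAut (Cfsg.PSU n F q)

/-- `K ↦ b K b⁻¹` from the small general linear group. -/
def liftGL (e : F₀ →+* F) (b : GL (Fin n) F) : GL (Fin n) F₀ →* GL (Fin n) F :=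
  (MulAut.conj b).toMonoidHom.comp (GeneralLinearGroup.map e)

theorem liftGL_coe (e : F₀ →+* F) (b : GLn) (K : GL (Fin n) F₀) :
    (liftGL e b K : Mat) = (b : Mat) * (K : Mat₀).map e * ((b⁻¹ : GLn) : Mat) := rfl

theorem liftGL_central_iff (e : F₀ →+* F) (b : GLn) (K : GL (Fin n) F₀) :
    liftGL e b K ∈ Subgroup.center GLn ↔ ∃ c : F₀, c ≠ 0 ∧ (K : Mat₀) = c • (1 : Mat₀) := by
  constructor
  · intro h
    have hmap : GeneralLinearGroup.map e K ∈ Subgroup.center GLn := by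
      rw [Subgroup.mem_center_iff] at h ⊢
      intro x
      have := h (b * x * b⁻¹)
      simp only [liftGL, MonoidHom.coe_comp, MulEquiv.coe_toMonoidHom, Function.comp_apply,
        MulAut.conj_apply] at this
      refine mul_left_cancel (a := b) (mul_right_cancel (b := b⁻¹) ?_)
      calc b * (x * GeneralLinearGroup.map e K) * b⁻¹
          = b * x * b⁻¹ * (b * GeneralLinearGroup.map e K * b⁻¹) := by group
        _ = b * GeneralLinearGroup.map e K * b⁻¹ * (b * x * b⁻¹) := this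
        _ = _ := by group
    have hK : K ∈ Subgroup.center (GL (Fin n) F₀) := Subgroup.mem_center_iff.2 fun a => by
      have := Subgroup.mem_center_iff.1 hmap (GeneralLinearGroup.map e a)
      rw [← map_mul, ← map_mul] at this
      exact Units.ext (Matrix.ext fun i j => e.injective (congrArg (fun x : GLn => (x : Mat) i j) this))
    rw [GeneralLinearGroup.center_eq_range_scalar] at hK
    obtain ⟨c, rfl⟩ := hK
    exact ⟨(c : F₀), c.ne_zero, GraphForms.scalar_coe c⟩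
  · rintro ⟨c, -, hc⟩
    rw [Subgroup.mem_center_iff]
    intro x
    apply Units.ext
    have h1 : (liftGL e b K : Mat) = e c • (1 : Mat) := by
      rw [liftGL_coe, hc, show (c • (1 : Mat₀)).map e = e c • (1 : Mat) from
        Matrix.ext fun i j => by rcases eq_or_ne i j with rfl | h <;> simp [*],
        Matrix.mul_smul, mul_one, Matrix.smul_mul, ← Units.val_mul, mul_inv_cancel, Units.val_one]
    rw [Units.val_mul, Units.val_mul, h1, Matrix.mul_smul, mul_one, Matrix.smul_mul, one_mul]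

variable (hF : SqField F q)
include hF

theorem exists_scal_of_scalar (hn : 3 ≤ n) {h : GUn} {μ : F}
    (hμ : ((h : GLn) : Mat) = μ • (1 : Mat)) : ∃ c, h = scal c := by
  have h1 : μ * μ ^ q = 1 := by
    have := herm_gu h (Pi.single ⟨0, by omega⟩ 1) (Pi.single ⟨0, by omega⟩ 1)
    rw [hμ, smul_mulVec, one_mulVec, herm_smul_left, herm_smul_right,
      herm_single_one _ hF.q_ne_zero, Pi.single_eq_same, mul_one] at this
    exact this
  have hμ0 : μ ≠ 0 := left_ne_zero_of_mul (h1 ▸ one_ne_zero)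
  exact ⟨⟨Units.mk0 μ hμ0, mem_normOne.2 h1⟩, Subtype.ext (Units.ext (by rw [scal_coe, hμ]; rfl))⟩

theorem mem_inn_of_det {h : GUn} (hd : ((h : GLn) : Mat).det = 1) :
    (conjAut h : A⋆) ∈ Cfsg.Inn PSUn := by
  rw [inn_eq_map]
  exact ⟨h, ⟨⟨⟨_, hd⟩, h.2⟩, Subtype.ext (Units.ext rfl)⟩, rfl⟩

variable (e : F₀ →+* F) (he : ∀ a : F, a ^ q = a ↔ ∃ b, e b = a)
include he

/-- An element of odd order commuting with enough inner involutions is trivial. -/
theorem eq_one_of_commute_invols (hn : 3 ≤ n) (hn2 : ¬(n = 3 ∧ q = 2)) (b : GLn)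
    (S : Set (GL (Fin n) F₀)) (hS : ∀ K ∈ S, K * K = 1)
    (hrig : ∀ (g : Mat) (ρ : F ≃+* F), g.det ≠ 0 → (∀ K ∈ S, CommMap e ρ g (K : Mat₀)) →
      (∀ a, ρ (e a) = e a) ∧ ∃ c : F, c ≠ 0 ∧ g = c • (1 : Mat))
    {a : A⋆} (ho : ¬ 2 ∣ orderOf a)
    (hc : ∀ K ∈ S, ∃ h : GUn, (h : GLn) = liftGL e b K ∧ Commute a (conjAut h)) : a = 1 := by
  haveI := hF.1
  haveI : Nonempty (Fin n) := ⟨⟨0, by omega⟩⟩
  obtain ⟨g, ρ, rfl⟩ := exists_decomp hF hn hn2 a
  -- on each involution, up to sign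
  have hev : ∀ K ∈ S, ∃ c : F, c * c = 1 ∧
      ((g : GLn) : Mat) * (liftGL e b K : Mat).map ρ = c • ((liftGL e b K : Mat) * ((g : GLn) : Mat)) := by
    intro K hK
    obtain ⟨h, hh, hcm⟩ := hc K hK
    have h1 := hcm.eq
    rw [mul_assoc, fieldAut_mul_conjAut, ← mul_assoc, ← mul_assoc, mul_left_inj, ← map_mul,
      ← map_mul] at h1
    obtain ⟨z, hz⟩ := (conjAut_eq_one_iff hF hn).1
      (show conjAut (g * guMap ρ h * (h * g)⁻¹) = (1 : A⋆) by
        rw [map_mul, map_inv, h1, mul_inv_cancel])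
    have h2 : g * guMap ρ h = scal z * (h * g) := mul_inv_eq_iff_eq_mul.1 hz
    have e1 : ((g : GLn) : Mat) * (liftGL e b K : Mat).map ρ =
        ((z : Fˣ) : F) • ((liftGL e b K : Mat) * ((g : GLn) : Mat)) := by
      have h3 := congrArg (fun x : GUn => ((x : GLn) : Mat)) h2
      simp only [Subgroup.coe_mul, Units.val_mul, guMap_coe, scal_coe, Matrix.smul_mul, one_mul,
        hh] at h3
      exact h3
    refine ⟨_, ?_, e1⟩
    have hh2 : (liftGL e b K : Mat) * (liftGL e b K : Mat) = 1 := by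
      rw [← Units.val_mul, ← map_mul, hS K hK, map_one, Units.val_one]
    have hρ2 : (liftGL e b K : Mat).map ρ * (liftGL e b K : Mat).map ρ = 1 := by
      rw [← Matrix.map_mul, hh2, Matrix.map_one _ (map_zero ρ) (map_one ρ)]
    have h4 : ((g : GLn) : Mat) = (((z : Fˣ) : F) * ((z : Fˣ) : F)) • ((g : GLn) : Mat) := by
      calc ((g : GLn) : Mat) = ((g : GLn) : Mat) * (liftGL e b K : Mat).map ρ *
            (liftGL e b K : Mat).map ρ := by rw [mul_assoc, hρ2, mul_one]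
        _ = _ := by
            rw [e1, Matrix.smul_mul, mul_assoc, e1, Matrix.mul_smul, ← mul_assoc, hh2, one_mul,
              smul_smul]
    obtain ⟨i, j, hij⟩ : ∃ i j, ((g : GLn) : Mat) i j ≠ 0 := by
      by_contra h0
      push Not at h0
      exact Units.ne_zero (GeneralLinearGroup.det (g : GLn)) (by
        rw [GeneralLinearGroup.val_det_apply, show ((g : GLn) : Mat) = 0 from Matrix.ext h0, det_zero])
    have h5 := congrFun (congrFun h4 i) j
    rw [Matrix.smul_apply, smul_eq_mul] at h5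
    exact (mul_eq_right₀ hij).1 h5.symm
  -- the square commutes exactly
  set g₂ : GUn := g * guMap ρ g with hg₂
  set ρ₂ : F ≃+* F := ρ * ρ with hρ₂
  have hsq : (conjAut g * fieldAut ρ : A⋆) ^ 2 = conjAut g₂ * fieldAut ρ₂ := by
    rw [sq, mul_assoc, ← mul_assoc (fieldAut ρ), fieldAut_mul_conjAut, hg₂, hρ₂, map_mul, map_mul]
    simp only [mul_assoc]
  have hg₂c : ((g₂ : GLn) : Mat) = ((g : GLn) : Mat) * ((g : GLn) : Mat).map ρ := rfl
  set G : Mat := ((b⁻¹ : GLn) : Mat) * ((g₂ : GLn) : Mat) * (b : Mat).map ρ₂ with hG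
  have hex : ∀ K ∈ S, CommMap e ρ₂ G (K : Mat₀) := by
    intro K hK
    obtain ⟨c, hcc, e1⟩ := hev K hK
    have hρc : ρ c * c = 1 := by
      rcases mul_self_eq_one_iff.1 hcc with rfl | rfl <;> simp
    set h := (liftGL e b K : Mat) with hh
    have e2 : ((g : GLn) : Mat).map ρ * (h.map ρ).map ρ = ρ c • (h.map ρ * ((g : GLn) : Mat).map ρ) := by
      rw [← Matrix.map_mul, e1]
      ext i j
      simp [Matrix.mul_apply, map_sum, Finset.mul_sum]
    have e3 : ((g₂ : GLn) : Mat) * h.map ρ₂ = h * ((g₂ : GLn) : Mat) := by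
      rw [hg₂c, show h.map ρ₂ = (h.map ρ).map ρ from Matrix.ext fun _ _ => rfl, mul_assoc, e2,
        Matrix.mul_smul, ← mul_assoc, e1, Matrix.smul_mul, smul_smul, hρc, one_smul, mul_assoc]
    have hbb : (b : Mat).map ρ₂ * (((b⁻¹ : GLn) : Mat)).map ρ₂ = 1 := by
      rw [← Matrix.map_mul, ← Units.val_mul, mul_inv_cancel, Units.val_one,
        Matrix.map_one _ (map_zero ρ₂) (map_one ρ₂)]
    have hbi : ((b⁻¹ : GLn) : Mat) * (b : Mat) = 1 := by
      rw [← Units.val_mul, inv_mul_cancel, Units.val_one]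
    have hbb' : (((b⁻¹ : GLn) : Mat)).map ρ₂ * (b : Mat).map ρ₂ = 1 := mul_eq_one_comm.1 hbb
    have eh : h.map ρ₂ = (b : Mat).map ρ₂ * (((K : Mat₀).map e).map ρ₂) * (((b⁻¹ : GLn) : Mat)).map ρ₂ := by
      rw [hh, liftGL_coe, Matrix.map_mul, Matrix.map_mul]
    show G * ((K : Mat₀).map e).map ρ₂ = (K : Mat₀).map e * G
    calc G * ((K : Mat₀).map e).map ρ₂
        = ((b⁻¹ : GLn) : Mat) * (((g₂ : GLn) : Mat) * h.map ρ₂) * (b : Mat).map ρ₂ := by
          simp only [hG, eh, mul_assoc, hbb', mul_one]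
      _ = (K : Mat₀).map e * G := by
          rw [e3, hh, liftGL_coe, hG]
          simp only [mul_assoc]
          rw [← mul_assoc ((b⁻¹ : GLn) : Mat) (b : Mat), hbi, one_mul]
  have hdet : G.det ≠ 0 := by
    rw [hG, det_mul, det_mul]
    refine mul_ne_zero (mul_ne_zero (Units.ne_zero (GeneralLinearGroup.det b⁻¹))
      (Units.ne_zero (GeneralLinearGroup.det (g₂ : GLn)))) ?_
    exact Units.ne_zero (GeneralLinearGroup.det (GeneralLinearGroup.map ρ₂.toRingHom b))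
  obtain ⟨hfix, c, hc0, hGc⟩ := hrig G ρ₂ hdet hex
  have hρρ : ρ₂ * ρ₂ = 1 := by
    refine RingEquiv.ext fun x => ?_
    show ρ₂ (ρ₂ x) = x
    obtain ⟨s, hs⟩ := (he (x + x ^ q)).1 (by rw [hF.add_pow, hF.pow_pow, add_comm])
    obtain ⟨p, hp⟩ := (he (x * x ^ q)).1 (by rw [mul_pow, hF.pow_pow, mul_comm])
    have h1 : ρ₂ x + ρ₂ x ^ q = x + x ^ q := by rw [← map_pow, ← map_add, ← hs, hfix]
    have h2 : ρ₂ x * ρ₂ x ^ q = x * x ^ q := by rw [← map_pow, ← map_mul, ← hp, hfix]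
    have h3 : (ρ₂ x - x) * (ρ₂ x - x ^ q) = 0 := by linear_combination (ρ₂ x) * h1 - h2
    rcases mul_eq_zero.1 h3 with h | h <;> rw [sub_eq_zero] at h
    · rw [h, h]
    · rw [h, map_pow, h, hF.pow_pow]
  set m := orderOf (conjAut g * fieldAut ρ : A⋆) with hm
  have hρ1 : ρ₂ = 1 := by
    have h1 : (conjAut g₂ * fieldAut ρ₂ : A⋆) ^ m = 1 := by
      rw [← hsq, ← pow_mul, mul_comm, pow_mul, hm, pow_orderOf_eq_one, one_pow]
    have h2 := AutPSL.twistNorm_apply conjAut (fieldAut ρ₂ : A⋆) (guMap ρ₂)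
      (fun g => fieldAut_mul_conjAut ρ₂ g) g₂ m
    rw [h1, ← map_pow] at h2
    have h3 := (conj_field_eq_one hF hn h2.symm).1
    obtain ⟨k, hk⟩ := Nat.odd_iff.2 (show m % 2 = 1 by omega)
    rwa [hk, pow_succ, pow_mul, sq, hρρ, one_pow, one_mul] at h3
  have h4 : (conjAut g * fieldAut ρ : A⋆) ^ 2 = 1 := by
    rw [hsq, hρ1, map_one, mul_one, conjAut_eq_one_iff hF hn]
    refine exists_scal_of_scalar hF hn (μ := c) ?_
    have h5 : G = ((b⁻¹ : GLn) : Mat) * ((g₂ : GLn) : Mat) * (b : Mat) := by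
      rw [hG, hρ1]; rfl
    calc ((g₂ : GLn) : Mat) = (b : Mat) * G * ((b⁻¹ : GLn) : Mat) := by
          rw [h5]
          simp only [← mul_assoc, ← Units.val_mul, mul_inv_cancel, one_mul]
          simp [mul_assoc]
      _ = _ := by rw [hGc, Matrix.mul_smul, mul_one, Matrix.smul_mul, ← Units.val_mul, mul_inv_cancel,
          Units.val_one]
  rcases (Nat.dvd_prime Nat.prime_two).1 (orderOf_dvd_of_pow_eq_one h4) with h | h
  · exact orderOf_eq_one_iff.1 h
  · exact absurd (h ▸ dvd_rfl) ho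

variable {g : ↥(Cfsg.GU n F q)} {A : Matrix (Fin n) (Fin n) F₀} {b : GL (Fin n) F} {c d : F}

/-- Isometries of the descended form lift to centralizing elements of `GU`. -/
theorem exists_iso_lift (hn : 3 ≤ n) (hD : Uni.Desc q e g A b c d) {K : GL (Fin n) F₀} (hK : K ∈ Iso A) :
    ∃ h : GUn, (h : GLn) = liftGL e b K ∧
      conjAut h ∈ Subgroup.centralizer {(Uni.graphAut hF g : A⋆)} := by
  obtain ⟨h, hh, -⟩ := Uni.link_mem hF e he hn hD hD (K := K) (y := 1) (by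
    rw [one_pow, one_mul, one_mul, mem_Iso_iff.1 hK])
  rw [one_smul] at hh
  refine ⟨h, Units.ext ?_, Subgroup.mem_comap.1 ((Uni.mem_cent_iff hF e he hn hD h).2
    ⟨1, K, 1, ?_, ?_, ?_⟩)⟩
  · rw [liftGL_coe, ← hh, mul_assoc, ← Units.val_mul, mul_inv_cancel, Units.val_one, mul_one]
  · show _ = _
    rw [Units.val_one, one_smul]
    exact hK
  · rw [one_pow, one_mul, one_mul, Units.val_one, map_one]
  · rw [one_smul]
    exact hh

/-- Centralizing elements of `GU` are similitudes of the descended form up to scalars. -/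
theorem exists_sim_of_cent (hn : 3 ≤ n) (hD : Uni.Desc q e g A b c d) {h : GUn}
    (hh : conjAut h ∈ Subgroup.centralizer {(Uni.graphAut hF g : A⋆)}) :
    ∃ K ∈ Sim A, ∃ z ∈ Subgroup.center GLn, liftGL e b K = (h : GLn) * z := by
  obtain ⟨y, K, l, hK, hy, hhb⟩ := (Uni.mem_cent_iff hF e he hn hD h).1 (Subgroup.mem_comap.2 hh)
  have hy0 : y ≠ 0 := fun h0 => by rw [h0, zero_mul, zero_mul] at hy; exact zero_ne_one hy
  refine ⟨K, mem_Sim_iff.2 ⟨l, hK⟩, GeneralLinearGroup.scalar (Fin n) (Units.mk0 y hy0)⁻¹, ?_, ?_⟩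
  · rw [GeneralLinearGroup.center_eq_range_scalar]
    exact ⟨_, rfl⟩
  · apply Units.ext
    rw [liftGL_coe, Units.val_mul, GraphForms.scalar_coe, Matrix.mul_smul, mul_one,
      Units.val_inv_eq_inv_val, Units.val_mk0]
    calc (b : Mat) * (K : Mat₀).map e * ((b⁻¹ : GLn) : Mat)
        = y⁻¹ • (((h : GLn) : Mat) * (b : Mat)) * ((b⁻¹ : GLn) : Mat) := by
          rw [hhb, smul_smul, inv_mul_cancel₀ hy0, one_smul]
      _ = _ := by rw [Matrix.smul_mul, mul_assoc, ← Units.val_mul, mul_inv_cancel, Units.val_one, mul_one]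

theorem core_symm [Finite F₀] (hn : 3 ≤ n) (hn2 : ¬(n = 3 ∧ q = 2)) (h2 : (2 : F₀) ≠ 0)
    (hD : Uni.Desc q e g A b c d) (hA : Aᵀ = A) (B : Subgroup A⋆) (hinn : Cfsg.Inn PSUn ≤ B) :
    Cfsg.pPrimeCore 2 ↥(B ⊓ Subgroup.centralizer {(Uni.graphAut hF g : A⋆)}) = ⊥ := by
  classical
  haveI := hF.1
  have hH : IsHerm (RingEquiv.refl F₀) A :=
    ⟨fun _ => rfl, fun i j => congrFun (congrFun hA j) i, hD.det_ne_zero hF e he, h2⟩
  set y : A⋆ := Uni.graphAut hF g with hy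
  set C := Cfsg.Inn PSUn ⊓ Subgroup.centralizer {y} with hC
  set D := ((Subgroup.centralizer {y}).comap conjAut).map (conjAut : GUn →* A⋆) with hD'
  have hCD : C ≤ D := by
    rintro x ⟨hi, hx⟩
    rw [SetLike.mem_coe, inn_eq_map] at hi
    obtain ⟨h, -, rfl⟩ := hi
    exact ⟨h, hx, rfl⟩
  have hDC : ∀ x ∈ D, ∀ z ∈ C, x * z * x⁻¹ ∈ C := by
    rintro _ ⟨h, hh, rfl⟩ z hz
    exact inn_cent_normalized y ⊤ ⟨Subgroup.mem_top _, hh⟩ hz
  have hDn : NoPPrime 2 D := by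
    intro M hMD hMn hM
    obtain ⟨T, hTd⟩ : ∃ T : Subgroup GLn,
        T = (M.comap conjAut).map (Cfsg.GU n F q).subtype ⊔ Subgroup.center GLn := ⟨_, rfl⟩
    obtain ⟨K₀, hK₀⟩ : ∃ K₀ : Subgroup (GL (Fin n) F₀), K₀ = T.comap (liftGL e b) ⊓ Sim A := ⟨_, rfl⟩
    have hKs := symm_core hH hn K₀ (hK₀ ▸ inf_le_right) (fun x hx k hk => ?_) (fun k hk => ?_)
    · refine (Subgroup.eq_bot_iff_forall _).2 fun m hm => ?_
      obtain ⟨h, hh, rfl⟩ := hMD hm
      obtain ⟨K, hK, z, hz, hKz⟩ := exists_sim_of_cent hF e he hn hD hh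
      have hT : liftGL e b K ∈ T := by
        rw [hKz, hTd]
        exact Subgroup.mul_mem_sup (Subgroup.mem_map.2 ⟨h, hm, rfl⟩) hz
      have hc := (liftGL_central_iff e b K).2 (hKs K (hK₀ ▸ Subgroup.mem_inf.2 ⟨Subgroup.mem_comap.2 hT, hK⟩))
      have hhc : ((h : GUn) : GLn) ∈ Subgroup.center GLn := by
        rw [← mul_inv_cancel_right ((h : GUn) : GLn) z, ← hKz]
        exact mul_mem hc (inv_mem hz)
      rw [GeneralLinearGroup.center_eq_range_scalar] at hhc
      obtain ⟨μ, hμ⟩ := hhc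
      rw [conjAut_eq_one_iff hF hn]
      exact exists_scal_of_scalar hF hn (μ := (μ : F)) (by rw [← hμ, GraphForms.scalar_coe])
    · set r := rGL x (hφ (RingEquiv.refl F₀) A x) (hφ_self hx) with hr
      have hrI : r ∈ Iso A := rMat_mem_Iso hH hx
      obtain ⟨hr', her, hcr⟩ := exists_iso_lift hF e he hn hD hrI
      rw [hK₀, Subgroup.mem_inf] at hk ⊢
      refine ⟨?_, (Sim A).mul_mem ((Sim A).mul_mem (Iso_le_Sim A hrI) hk.2) (Iso_le_Sim A hrI)⟩
      rw [Subgroup.mem_comap, hTd]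
      have hk1 := hk.1
      rw [Subgroup.mem_comap, hTd, Subgroup.mem_sup_of_normal_right] at hk1
      obtain ⟨t, ⟨t', ht', rfl⟩, z, hz, htz⟩ := hk1
      rw [Subgroup.coe_subtype] at htz
      have hinv : r⁻¹ = r := inv_eq_of_mul_eq_one_right (Units.ext (rMat_mul_self (hφ_self hx)))
      rw [map_mul, map_mul]
      nth_rewrite 2 [← hinv]
      rw [map_inv, ← htz, ← her]
      rw [show ((hr' : GUn) : GLn) * ((t' : GLn) * z) * ((hr' : GUn) : GLn)⁻¹ =
          ((hr' * t' * hr'⁻¹ : GUn) : GLn) * z by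
        rw [Subgroup.coe_mul, Subgroup.coe_mul, Subgroup.coe_inv, mul_assoc, mul_assoc,
          ← Subgroup.mem_center_iff.1 hz]
        simp only [mul_assoc]]
      refine Subgroup.mul_mem_sup (Subgroup.mem_map.2 ⟨hr' * t' * hr'⁻¹, ?_, rfl⟩) hz
      show conjAut _ ∈ M
      rw [map_mul, map_mul, map_inv]
      exact hMn _ ⟨hr', hcr, rfl⟩ _ ht'
    · rw [hK₀, Subgroup.mem_inf] at hk
      have hk1 := hk.1
      rw [Subgroup.mem_comap, hTd, Subgroup.mem_sup_of_normal_right] at hk1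
      obtain ⟨t, ⟨t', ht', rfl⟩, z, hz, htz⟩ := hk1
      rw [Subgroup.coe_subtype] at htz
      refine ⟨orderOf (conjAut t' : A⋆), ?_, ?_⟩
      · rw [Nat.odd_iff]
        by_contra hne
        refine hM ((show 2 ∣ orderOf (conjAut t' : A⋆) by omega).trans ?_)
        rw [← Nat.card_zpowers]
        exact Subgroup.card_dvd_of_le (Subgroup.zpowers_le.2 ht')
      · obtain ⟨c', hc'⟩ := (conjAut_eq_one_iff hF hn).1
          (show conjAut (t' ^ orderOf (conjAut t' : A⋆)) = (1 : A⋆) by rw [map_pow, pow_orderOf_eq_one])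
        have hcen : liftGL e b (k ^ orderOf (conjAut t' : A⋆)) ∈ Subgroup.center GLn := by
          rw [map_pow, ← htz, (show Commute (t' : GLn) z from Subgroup.mem_center_iff.1 hz _).mul_pow]
          refine mul_mem ?_ (pow_mem hz _)
          rw [← SubmonoidClass.coe_pow, hc', GeneralLinearGroup.center_eq_range_scalar]
          exact ⟨(c' : Fˣ), rfl⟩
        obtain ⟨μ, -, hμ⟩ := (liftGL_central_iff e b _).1 hcen
        exact ⟨μ, hμ⟩
  refine core_eq_bot (C := C) (L := C) le_rfl (inf_le_inf hinn le_rfl)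
    (fun h hh c hc => inn_cent_normalized _ B hh hc)
    (fun c hc l hl => C.mul_mem (C.mul_mem hc hl) (C.inv_mem hc)) (noPPrime_of_normal hCD hDC hDn)
    fun a _ hcomm ho => ?_
  let S : Set (GL (Fin n) F₀) := {K | ∃ x z : Fin n → F₀, hB (RingEquiv.refl F₀) A x x ≠ 0 ∧
    hB (RingEquiv.refl F₀) A z z ≠ 0 ∧ hB (RingEquiv.refl F₀) A x z = 0 ∧
    ∃ (hx : hφ (RingEquiv.refl F₀) A x ⬝ᵥ x = 1) (hz : hφ (RingEquiv.refl F₀) A z ⬝ᵥ z = 1),
      K = rGL x _ hx * rGL z _ hz}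
  refine eq_one_of_commute_invols hF e he hn hn2 b S ?_ ?_ ho ?_
  · rintro K ⟨x, z, hx, hz, hxz, hx', hz', rfl⟩
    apply Units.ext
    rw [Units.val_mul, Units.val_mul, Units.val_one, rGL_coe, rGL_coe]
    refine Matrix.ext_of_mulVec_single fun i => ?_
    rw [← mulVec_mulVec, one_mulVec]
    show planeMat _ _ _ _ *ᵥ planeMat _ _ _ _ *ᵥ _ = _
    rw [planeMat_mulVec (hφ_perp (hH.swap_zero hxz)), planeMat_mulVec (hφ_perp (hH.swap_zero hxz))]
    simp only [dotProduct_sub, dotProduct_smul, hx', hz', hφ_perp (hH.swap_zero hxz), hφ_perp hxz]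
    module
  · intro g' ρ hg' hcm
    refine hH.scalar_of_planes e ρ hn (fun h => h2 (e.injective (by rw [map_ofNat, map_zero]; exact h)))
      hg' fun x z hx hz hxz => ?_
    have h := hcm (rGL x _ (hφ_self hx) * rGL z _ (hφ_self hz))
      ⟨x, z, hx, hz, hxz, hφ_self hx, hφ_self hz, rfl⟩
    rw [Units.val_mul, rGL_coe, rGL_coe] at h
    exact h
  · rintro K ⟨x, z, hx, hz, hxz, hx', hz', rfl⟩
    obtain ⟨h, heq, hcy⟩ := exists_iso_lift hF e he hn hD
      (K := rGL x _ hx' * rGL z _ hz') (mul_mem (rMat_mem_Iso hH hx) (rMat_mem_Iso hH hz))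
    refine ⟨h, heq, hcomm _ (Subgroup.mem_inf.2 ⟨mem_inn_of_det hF ?_, hcy⟩)⟩
    rw [heq, liftGL_coe, Matrix.det_units_conj, ← RingHom.mapMatrix_apply, ← RingHom.map_det,
      Units.val_mul, rGL_coe, rGL_coe, det_mul, det_rMat hx', det_rMat hz']
    simp

theorem core_alt [Finite F₀] (hn : 3 ≤ n) (hn2 : ¬(n = 3 ∧ q = 2)) (h2 : (2 : F₀) ≠ 0)
    (hD : Uni.Desc q e g A b c d) (hA : IsAltMat A) (B : Subgroup A⋆) (hinn : Cfsg.Inn PSUn ≤ B) :
    Cfsg.pPrimeCore 2 ↥(B ⊓ Subgroup.centralizer {(Uni.graphAut hF g : A⋆)}) = ⊥ := by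
  classical
  haveI := hF.1
  haveI := Fintype.ofFinite F₀
  have hd := hD.det_ne_zero hF e he
  have h2F : (2 : F) ≠ 0 := fun h => h2 (e.injective (by rw [map_ofNat, map_zero]; exact h))
  obtain ⟨m, eJ, hm, heJ⟩ := exists_alt_model hA hd
  rw [Fintype.card_fin] at hm
  haveI : NeZero m := ⟨by omega⟩
  set y : A⋆ := Uni.graphAut hF g with hy
  choose hl hle hlc using fun K : ↥(Iso A) => exists_iso_lift hF e he hn hD K.2
  let θ : ↥(Iso A) →* GUn := MonoidHom.mk' hl fun K K' => Subtype.ext (by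
    rw [Subgroup.coe_mul, hle, hle, hle, Subgroup.coe_mul, map_mul])
  set L := ((conjAut : GUn →* A⋆).comp θ).range with hL
  have hθ : ∀ K, ((θ K : GUn) : GLn) = liftGL e b K := hle
  have hdetIso : ∀ K : ↥(Iso A), ((θ K : GUn) : GLn).1.det = 1 := fun K => by
    rw [hθ, liftGL_coe, Matrix.det_units_conj, ← RingHom.mapMatrix_apply, ← RingHom.map_det,
      (alt_det hA hd (m := m) (by rw [Fintype.card_fin, hm])).1 K.1 1 one_ne_zero
        (show _ = _ by rw [one_smul]; exact K.2), one_pow, map_one]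
  have hLC : L ≤ Cfsg.Inn PSUn ⊓ Subgroup.centralizer {y} := by
    rintro _ ⟨K, rfl⟩
    exact ⟨mem_inn_of_det hF (hdetIso K), hlc K⟩
  -- simplicity of the image of `Sp`
  have key : ∀ K : GL (Fin n) F₀, K ∈ Iso A ↔ glConj eJ K ∈ Iso (Matrix.J (Fin m) F₀) := fun K => by
    rw [mem_Iso_iff_dot, mem_Iso_iff_dot]
    refine ⟨fun hh u v => ?_, fun hh u v => ?_⟩
    · obtain ⟨u, rfl⟩ := eJ.surjective u
      obtain ⟨v, rfl⟩ := eJ.surjective v
      rw [glConj_mulVec, glConj_mulVec, heJ, heJ, hh]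
    · rw [← heJ, ← glConj_mulVec, ← glConj_mulVec, hh, heJ]
  let Φ : Matrix.symplecticGroup (Fin m) F₀ →* ↥(Iso A) :=
    ((glConj eJ).symm.toMonoidHom.comp
      ((Iso (Matrix.J (Fin m) F₀)).subtype.comp (isoJEquiv m).symm.toMonoidHom)).codRestrict (Iso A)
      fun s => (key _).2 (by
        show glConj eJ ((glConj eJ).symm ((isoJEquiv m).symm s).1) ∈ _
        rw [MulEquiv.apply_symm_apply]
        exact ((isoJEquiv m).symm s).2)
  have hΦ : Function.Surjective Φ := fun K => by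
    refine ⟨isoJEquiv m ⟨glConj eJ K.1, (key _).1 K.2⟩, Subtype.ext ?_⟩
    show (glConj eJ).symm ((isoJEquiv m).symm (isoJEquiv m _)).1 = K.1
    rw [MulEquiv.symm_apply_apply]
    exact (glConj eJ).symm_apply_apply K.1
  have hLr : (((conjAut : GUn →* A⋆).comp θ).comp Φ).range = L := by
    rw [hL, MonoidHom.range_comp, MonoidHom.range_eq_top.2 hΦ, ← MonoidHom.range_eq_map]
  have hker : Subgroup.center (Matrix.symplecticGroup (Fin m) F₀) ≤
      (((conjAut : GUn →* A⋆).comp θ).comp Φ).ker := by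
    intro s hs
    obtain ⟨μ, hμ⟩ := Cfsg.Agent.Linear.Symp.exists_eq_scalar _
      (Cfsg.Agent.Linear.Symp.mem_center_iff.1 hs)
    have hc0 : μ ≠ 0 := by
      rintro rfl
      have h1 : s.1 = 0 := Matrix.ext_of_mulVec_single fun i => by
        rw [zero_mulVec]
        exact (hμ _).trans (zero_smul F₀ _)
      have h3 := SymplecticGroup.symplectic_det s.2
      rw [h1, det_zero] at h3
      exact not_isUnit_zero h3
    have hsc : ((isoJEquiv m).symm s).1 ∈ Cfsg.Geo.scalars (Fin m ⊕ Fin m) F₀ := by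
      have hcoe : (((isoJEquiv m).symm s).1 : Matrix (Fin m ⊕ Fin m) (Fin m ⊕ Fin m) F₀) = s.1 := by
        conv_rhs => rw [← (isoJEquiv m).apply_symm_apply s]
        rfl
      refine (Cfsg.Geo.mem_scalars_iff _).2 ⟨Units.mk0 μ hc0, ?_⟩
      rw [hcoe, Units.val_mk0]
      refine Matrix.ext_of_mulVec_single fun i => ?_
      rw [smul_mulVec, one_mulVec]
      exact hμ _
    have h1 : (Φ s).1 ∈ Cfsg.Geo.scalars (Fin n) F₀ := by
      rw [← glConj_mem_scalars_iff eJ]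
      show glConj eJ ((glConj eJ).symm _) ∈ _
      rw [MulEquiv.apply_symm_apply]
      exact hsc
    obtain ⟨ν, hν⟩ := (Cfsg.Geo.mem_scalars_iff _).1 h1
    have h2' := (liftGL_central_iff e b (Φ s).1).2 ⟨(ν : F₀), ν.ne_zero, hν⟩
    rw [GeneralLinearGroup.center_eq_range_scalar] at h2'
    obtain ⟨μ', hμ'⟩ := h2'
    show conjAut (θ (Φ s)) = 1
    rw [conjAut_eq_one_iff hF hn]
    exact exists_scal_of_scalar hF hn (μ := (μ' : F)) (by rw [hθ, ← hμ', GraphForms.scalar_coe])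
  have hq3 : 3 ≤ Fintype.card F₀ := by
    by_contra hlt
    have h1 := Fintype.one_lt_card (α := F₀)
    exact h2 (by
      have := Nat.cast_card_eq_zero F₀
      rw [show Fintype.card F₀ = 2 by omega] at this
      exact_mod_cast this)
  obtain ⟨x₀, hx₀⟩ : ∃ x : Fin n → F₀, x ≠ 0 := ⟨Pi.single ⟨0, by omega⟩ 1, by simp⟩
  obtain ⟨z₀, hxz₀⟩ : ∃ z : Fin n → F₀, x₀ ⬝ᵥ A *ᵥ z = 1 := by
    by_contra hcon
    push Not at hcon
    refine hx₀ (eq_zero_of_vecMul_eq_zero hd (dotProduct_eq_zero _ fun w => ?_))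
    rw [← dotProduct_mulVec]
    by_contra hw
    exact hcon ((x₀ ⬝ᵥ A *ᵥ w)⁻¹ • w) (by
      rw [mulVec_smul, dotProduct_smul, smul_eq_mul, inv_mul_cancel₀ hw])
  let p₀ : ↥(Iso A) := ⟨_, altPlane_mem_Iso hA hxz₀⟩
  have hp₀1 : (conjAut (θ p₀) : A⋆) ≠ 1 := fun h => by
    obtain ⟨z, hz⟩ := (conjAut_eq_one_iff hF hn).1 h
    have hc : liftGL e b p₀.1 ∈ Subgroup.center GLn := by
      rw [← hθ, hz, GeneralLinearGroup.center_eq_range_scalar]
      exact ⟨(z : Fˣ), rfl⟩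
    obtain ⟨μ, -, hμ⟩ := (liftGL_central_iff e b _).1 hc
    change altPlane A x₀ z₀ = μ • (1 : Mat₀) at hμ
    obtain ⟨w, hw0, hwx, hwz⟩ : ∃ w, w ≠ 0 ∧ x₀ ⬝ᵥ A *ᵥ w = 0 ∧ w ⬝ᵥ A *ᵥ z₀ = 0 := by
      let f : (Fin n → F₀) →ₗ[F₀] F₀ × F₀ :=
        { toFun := fun u => (x₀ ⬝ᵥ A *ᵥ u, u ⬝ᵥ A *ᵥ z₀)
          map_add' := fun u u' => by simp [mulVec_add, dotProduct_add, add_dotProduct]
          map_smul' := fun s u => by simp [mulVec_smul, dotProduct_smul, smul_dotProduct] }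
      obtain ⟨w, hw, hw0⟩ := Submodule.exists_mem_ne_zero_of_ne_bot (p := LinearMap.ker f) fun h0 => by
        have := LinearMap.finrank_le_finrank_of_injective (LinearMap.ker_eq_bot.1 h0)
        rw [Module.finrank_fintype_fun_eq_card, Fintype.card_fin, Module.finrank_prod,
          Module.finrank_self] at this
        omega
      rw [LinearMap.mem_ker, Prod.ext_iff] at hw
      exact ⟨w, hw0, hw.1, hw.2⟩
    have hx : altPlane A x₀ z₀ *ᵥ x₀ = -x₀ := by
      rw [altPlane_mulVec hA, hA x₀, hxz₀]; module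
    have hw : altPlane A x₀ z₀ *ᵥ w = w := by
      rw [altPlane_mulVec hA, hwx, hwz]; module
    rw [hμ, smul_mulVec, one_mulVec] at hx hw
    have hμ1 : μ = 1 := smul_left_injective F₀ hw0 (show μ • w = (1 : F₀) • w by rw [hw, one_smul])
    rw [hμ1, one_smul] at hx
    refine hx₀ (funext fun i => (mul_eq_zero.1 (show (2 : F₀) * x₀ i = 0 from ?_)).resolve_left h2)
    have := congrFun hx i
    simp at this
    linear_combination this
  haveI : IsSimpleGroup (Matrix.symplecticGroup (Fin m) F₀ ⧸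
      Subgroup.center (Matrix.symplecticGroup (Fin m) F₀)) :=
    Cfsg.Agent.Linear.Symp.isSimpleGroup_PSp_of_perfect (Cfsg.Agent.Linear.Symp.commutator_eq_top
      (by rcases (show 3 ≤ m ∨ m = 2 by omega) with h | h
          · exact Or.inl h
          · exact Or.inr (Or.inl ⟨h, hq3⟩)))
  haveI : IsSimpleGroup ↥L := by
    obtain ⟨s, hs⟩ := hΦ p₀
    have := isSimpleGroup_range_quot (((conjAut : GUn →* A⋆).comp θ).comp Φ) _ hker
      ⟨s, by rw [MonoidHom.comp_apply, hs]; exact hp₀1⟩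
    rwa [hLr] at this
  have hp₀2 : p₀ * p₀ = 1 := Subtype.ext (Units.ext (by
    show altPlane A x₀ z₀ * altPlane A x₀ z₀ = 1
    refine Matrix.ext_of_mulVec_single fun i => ?_
    rw [← mulVec_mulVec, altPlane_mulVec hA, altPlane_mulVec hA, one_mulVec]
    simp only [sub_dotProduct, smul_dotProduct, mulVec_sub, mulVec_smul, dotProduct_sub,
      dotProduct_smul, smul_eq_mul, hA x₀, hA z₀, hxz₀]
    module))
  refine core_eq_bot (L := L) hLC (inf_le_inf hinn le_rfl)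
    (fun h hh c hc => inn_cent_normalized _ B hh hc) ?_
    (noPPrime_of_simple L (dvd_card_of_orderOf L ⟨p₀, rfl⟩
      (orderOf_eq_prime (by rw [← map_pow, sq, hp₀2, map_one]) hp₀1)))
    fun a _ hcomm ho => ?_
  · rintro x hx _ ⟨K, rfl⟩
    obtain ⟨hi, hxy⟩ := Subgroup.mem_inf.1 hx
    rw [inn_eq_map] at hi
    obtain ⟨k, -, rfl⟩ := hi
    obtain ⟨κ, hκ, z, hz, hκz⟩ := exists_sim_of_cent hF e he hn hD hxy
    obtain ⟨l, hl'⟩ := mem_Sim_iff.1 hκ
    have hK' : κ * K.1 * κ⁻¹ ∈ Iso A := by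
      refine mem_Iso_iff_dot.2 fun u v => ?_
      have hk : ∀ u v : Fin n → F₀, ((κ : Mat₀) *ᵥ u) ⬝ᵥ A *ᵥ ((κ : Mat₀) *ᵥ v) =
          (l : F₀) * (u ⬝ᵥ A *ᵥ v) := fun u v => by
        rw [dot_mulVec_mulVec, hl', smul_mulVec, dotProduct_smul, smul_eq_mul]
      have hki : ∀ u : Fin n → F₀, (κ : Mat₀) *ᵥ (((κ⁻¹ : GL (Fin n) F₀) : Mat₀) *ᵥ u) = u := fun u => by
        rw [mulVec_mulVec, ← Units.val_mul, mul_inv_cancel, Units.val_one, one_mulVec]
      simp only [Units.val_mul, ← mulVec_mulVec]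
      rw [hk, mem_Iso_iff_dot.1 K.2, ← hk, hki, hki]
    refine ⟨⟨_, hK'⟩, ?_⟩
    show conjAut (θ _) = conjAut k * conjAut (θ K) * (conjAut k)⁻¹
    rw [← map_inv, ← map_mul, ← map_mul]
    congr 1
    apply Subtype.ext
    rw [hθ, Subgroup.coe_mul, Subgroup.coe_mul, Subgroup.coe_inv, hθ, map_mul, map_mul, map_inv, hκz]
    have hzc := Subgroup.mem_center_iff.1 hz
    rw [_root_.mul_inv_rev, mul_assoc ((k : GUn) : GLn) z (liftGL e b K.1), ← hzc, mul_assoc, mul_assoc,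
      ← mul_assoc z, mul_inv_cancel, one_mul, ← mul_assoc]
  let S : Set (GL (Fin n) F₀) := {K | ∃ x z : Fin n → F₀, x ⬝ᵥ A *ᵥ z = 1 ∧
    (K : Mat₀) = altPlane A x z}
  refine eq_one_of_commute_invols hF e he hn hn2 b S ?_ ?_ ho ?_
  · rintro K ⟨x, z, hxz, e'⟩
    apply Units.ext
    rw [Units.val_mul, e', Units.val_one]
    refine Matrix.ext_of_mulVec_single fun i => ?_
    rw [← mulVec_mulVec, altPlane_mulVec hA, altPlane_mulVec hA, one_mulVec]
    simp only [sub_dotProduct, smul_dotProduct, mulVec_sub, mulVec_smul, dotProduct_sub,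
      dotProduct_smul, smul_eq_mul, hA x, hA z, hxz]
    module
  · intro g' ρ hg' hcm
    refine alt_scalar_of_planes e ρ hA hd hn h2F hg' fun x z hxz => ?_
    exact hcm (GeneralLinearGroup.mkOfDetNeZero (altPlane A x z)
      (by rw [det_altPlane hA hxz]; exact one_ne_zero)) ⟨x, z, hxz, rfl⟩
  · rintro K ⟨x, z, hxz, e'⟩
    have hK : K ∈ Iso A := by
      have := altPlane_mem_Iso hA hxz
      rwa [show K = GeneralLinearGroup.mkOfDetNeZero (altPlane A x z)
        (by rw [det_altPlane hA hxz]; exact one_ne_zero) from Units.ext e']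
    exact ⟨θ ⟨K, hK⟩, hθ _, hcomm _ ⟨⟨K, hK⟩, rfl⟩⟩

end Cfsg.Agent.LocalBal.Uni
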