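import Mathlib
import Cfsg.Agent.LocalBal.UnitField
import Cfsg.Agent.LocalBal.UnitGraph

/-!
`O_{p'}` of centralizers of non-inner-diagonal automorphisms of prime order of `PSU_n(q)`.
-/

set_option autoImplicit false
set_option linter.unusedSectionVars false

namespace Cfsg.Agent.LocalBal.Uni

open Matrix Cfsg.Agent.AutPSU Cfsg.Agent.Classical.U
open Cfsg.Agent.AutPSL (fixedField)

universe u

variable {F : Type u} [Field F] {n q : ℕ}

local notation "GLn" => GL (Fin n) F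
set_option quotPrecheck false
local notation "GUn" => ↥(Cfsg.GU n F q)
local notation "PSUn" => Cfsg.PSU n F q
local notation "A⋆" => MulAut (Cfsg.PSU n F q)

theorem pow_eq_one_of_fix [Finite F] {F₀ : Type u} [Field F₀] (e : F₀ →+* F) (σ : F ≃+* F) {p : ℕ}
    (hσ : orderOf σ = p) (he : ∀ a : F, σ a = a ↔ ∃ b, e b = a) (ρ : F ≃+* F)
    (hρ : ∀ x, ρ (e x) = e x) : ρ ^ p = 1 := by
  classical
  haveI : Algebra.IsAlgebraic ↥(fixedField σ) F := Algebra.IsAlgebraic.of_finite _ _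
  have hcard : Nat.card (F ≃ₐ[↥(fixedField σ)] F) = p := by
    rw [IsGalois.card_aut_eq_finrank]
    have h : Nat.card F = Nat.card ↥(fixedField σ) ^ Module.finrank ↥(fixedField σ) F :=
      Module.natCard_eq_pow_finrank
    rw [AutPSL.card_fixedField_pow σ, hσ] at h
    exact (Nat.pow_right_injective (Finite.one_lt_card (α := ↥(fixedField σ))) h).symm
  have hfix : ∀ x : ↥(fixedField σ), ρ (x : F) = (x : F) := fun x => by
    obtain ⟨b, hb⟩ := (he _).1 x.2
    rw [← hb, hρ]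
  let ρ' : F ≃ₐ[↥(fixedField σ)] F := AlgEquiv.ofRingEquiv (f := ρ) fun x => hfix x
  have h := pow_card_eq_one' (x := ρ')
  rw [hcard] at h
  have hpow : ∀ k : ℕ, ∀ y, (ρ ^ k) y = (ρ' ^ k) y := by
    intro k
    induction k with
    | zero => intro y; rfl
    | succ k ih => intro y; rw [AutPSL.ringAut_pow_succ_apply, ih, pow_succ']; rfl
  exact RingEquiv.ext fun y => by rw [hpow, h]; rfl

/-- The criterion for a standard field automorphism of odd prime order. -/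
theorem local_std (hF : SqField F q) (hn : 3 ≤ n) (hn2 : ¬(n = 3 ∧ q = 2)) {p : ℕ} [Fact p.Prime]
    (hp2 : p ≠ 2) (σ : F ≃+* F) (hσ : orderOf σ = p) (A : Subgroup A⋆) (hinn : Cfsg.Inn PSUn ≤ A) :
    Cfsg.pPrimeCore p ↥(A ⊓ Subgroup.centralizer {(fieldAut σ : A⋆)}) ≠ ⊥ ↔
      Nat.Coprime p (Nat.card ↥(MonoidHom.eqLocus (fieldAut σ : A⋆).toMonoidHom
        (MonoidHom.id PSUn))) := by
  classical
  haveI := hF.1
  haveI : Finite PSUn := inferInstance
  have hodd : Odd p := (Fact.out : p.Prime).odd_of_ne_two hp2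
  obtain ⟨r, f, hr, -, hqr⟩ := hF.exists_char
  haveI := Fact.mk hr
  have hFc : Nat.card F = r ^ (2 * f) := by rw [hF.2, hqr, ← pow_mul, mul_comm]
  obtain ⟨hdiv, hcard⟩ := AutPSL.fixedField_exponent σ hFc hσ
  have hpf : p ∣ f := Nat.Coprime.dvd_of_dvd_mul_left ((Nat.coprime_two_right).2 hodd) hdiv
  rw [Nat.mul_div_assoc 2 hpf] at hcard
  obtain ⟨-, e, he, hS, hqe⟩ := exists_subfield hF σ hqr hσ hodd ↥(fixedField σ) hcard
  set q₀ := r ^ (f / p) with hq₀
  set ψ := subSU hF hS e hqe (n := n) with hψ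
  obtain ⟨s₀, hs₀, hs₀fix⟩ := exists_ne_one hF hS e hqe σ he hn
  refine criterion (conj_injective hF hn) _ A hinn
    ⟨proj (incSU hF hS e hqe s₀), fun h => hs₀ (by rw [subSU_eq_conj, h, map_one]), hs₀fix⟩ fun hp => ?_
  have hpL := dvd_card_subSU hF hS e hqe σ he hn hp
  have hσρ : ∀ ρ : F ≃+* F, (∀ x, ρ (e x) = e x) → ρ ^ p = 1 := pow_eq_one_of_fix e σ hσ he
  have hL : NoPPrime p ψ.range := by
    by_cases hs : n = 3 ∧ q₀ = 2
    · exact noPPrime_small hF hS e hqe σ he hn hn2 hs hp2 hσρ hpL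
    · haveI : IsSimpleGroup (↥(Cfsg.SU n ↥(fixedField σ) q₀) ⧸
          Subgroup.center ↥(Cfsg.SU n ↥(fixedField σ) q₀)) := isSimpleGroup_PSU hS hn hs
      haveI := isSimpleGroup_range_quot ψ _ (subSU_center_le hF hS e hqe σ he hn) ⟨s₀, hs₀⟩
      exact noPPrime_of_simple _ hpL
  refine core_eq_bot (L := ψ.range)
    (by rintro _ ⟨s, rfl⟩; exact subSU_mem hF hS e hqe σ he hn s) (inf_le_inf hinn le_rfl)
    (fun h hh c hc => inn_cent_normalized _ A hh hc)
    (fun c hc l hl => subSU_normalized hF hS e hqe σ he hn hc hl) hL fun a _ hcomm hpo => ?_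
  obtain ⟨ρ, rfl, hρ⟩ := eq_field_of_commute hF hS e hqe hn hn2 a fun s => hcomm _ ⟨s, rfl⟩
  have hpow : (fieldAut ρ : A⋆) ^ p = 1 := by rw [← map_pow, hσρ ρ hρ, map_one]
  rcases (Nat.dvd_prime Fact.out).1 (orderOf_dvd_of_pow_eq_one hpow) with h | h
  · exact orderOf_eq_one_iff.1 h
  · exact absurd (h ▸ dvd_rfl) hpo

theorem exists_invol_symm {F₀ : Type u} [Field F₀] (hn : 3 ≤ n) (h2 : (2 : F₀) ≠ 0)
    {A : Matrix (Fin n) (Fin n) F₀} (hd : A.det ≠ 0) (hA : Aᵀ = A) :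
    ∃ K : GL (Fin n) F₀, K ∈ GraphForms.Iso A ∧ K * K = 1 ∧
      (K : Matrix (Fin n) (Fin n) F₀).det = 1 ∧ ¬∃ t : F₀, (K : Matrix (Fin n) (Fin n) F₀) = t • 1 := by
  classical
  have hH : IsHerm (RingEquiv.refl F₀) A := ⟨fun _ => rfl, fun i j => congrFun (congrFun hA j) i, hd, h2⟩
  obtain ⟨P, hP⟩ := hH.exists_orth_basis
  obtain ⟨x, hx, -⟩ := hH.exists_perp (k := 0) (by omega) Fin.elim0 (fun i => i.elim0) (fun i => i.elim0)
  obtain ⟨z, hz, hzx⟩ := hH.exists_perp (k := 1) (by omega) ![x] (fun i => by simpa using hx)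
    (fun i j hij => absurd (Subsingleton.elim i j) hij)
  obtain ⟨hzx, hxz⟩ : hB (RingEquiv.refl F₀) A z x = 0 ∧ hB (RingEquiv.refl F₀) A x z = 0 := by
    simpa using hzx 0
  obtain ⟨w, hw, hwb⟩ := hH.exists_perp (k := 2) (by omega) ![x, z]
    (fun i => by fin_cases i <;> simpa) (fun i j hij => by
      fin_cases i <;> fin_cases j <;> first | exact absurd rfl hij | simpa)
  have hwx : hB (RingEquiv.refl F₀) A w x = 0 := by simpa using (hwb 0).1
  have hwz : hB (RingEquiv.refl F₀) A w z = 0 := by simpa using (hwb 1).1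
  refine ⟨rGL x _ (hφ_self hx) * rGL z _ (hφ_self hz),
    mul_mem (rMat_mem_Iso hH hx) (rMat_mem_Iso hH hz), Units.ext ?_, ?_, ?_⟩
  · rw [Units.val_mul, Units.val_mul, Units.val_one, rGL_coe, rGL_coe]
    refine Matrix.ext_of_mulVec_single fun i => ?_
    rw [← mulVec_mulVec, one_mulVec]
    show planeMat _ _ _ _ *ᵥ planeMat _ _ _ _ *ᵥ _ = _
    rw [planeMat_mulVec (hφ_perp hzx), planeMat_mulVec (hφ_perp hzx)]
    simp only [dotProduct_sub, dotProduct_smul, hφ_self hx, hφ_self hz, hφ_perp hzx, hφ_perp hxz]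
    module
  · rw [Units.val_mul, rGL_coe, rGL_coe, det_mul, det_rMat (hφ_self hx), det_rMat (hφ_self hz)]
    ring
  · rintro ⟨t, ht⟩
    change planeMat x _ z _ = _ at ht
    have hxv : planeMat x (hφ (RingEquiv.refl F₀) A x) z (hφ (RingEquiv.refl F₀) A z) *ᵥ x = -x := by
      rw [planeMat_mulVec (hφ_perp hzx), hφ_self hx, hφ_perp hxz]; module
    have hwv : planeMat x (hφ (RingEquiv.refl F₀) A x) z (hφ (RingEquiv.refl F₀) A z) *ᵥ w = w := by
      rw [planeMat_mulVec (hφ_perp hzx), hφ_perp hwx, hφ_perp hwz]; module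
    rw [ht, smul_mulVec, one_mulVec] at hxv hwv
    have hw0 : w ≠ 0 := fun e0 => hw (by rw [e0, hB_zero_left])
    have hx0 : x ≠ 0 := fun e0 => hx (by rw [e0, hB_zero_left])
    have ht1 : t = 1 := smul_left_injective F₀ hw0 (show t • w = (1 : F₀) • w by rw [hwv, one_smul])
    have ht2 : t = -1 := smul_left_injective F₀ hx0 (show t • x = (-1 : F₀) • x by rw [hxv, neg_one_smul])
    exact h2 (by linear_combination ht2 - ht1)

theorem exists_invol_alt {F₀ : Type u} [Field F₀] (hn : 3 ≤ n) (h2 : (2 : F₀) ≠ 0)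
    {A : Matrix (Fin n) (Fin n) F₀} (hd : A.det ≠ 0) (hA : GraphForms.IsAltMat A) :
    ∃ K : GL (Fin n) F₀, K ∈ GraphForms.Iso A ∧ K * K = 1 ∧
      (K : Matrix (Fin n) (Fin n) F₀).det = 1 ∧ ¬∃ t : F₀, (K : Matrix (Fin n) (Fin n) F₀) = t • 1 := by
  classical
  set x : Fin n → F₀ := Pi.single ⟨0, by omega⟩ 1 with hx
  have hx0 : x ≠ 0 := by simp [hx]
  obtain ⟨z, hxz⟩ : ∃ z : Fin n → F₀, x ⬝ᵥ A *ᵥ z = 1 := by
    by_contra hcon
    push Not at hcon
    refine hx0 (eq_zero_of_vecMul_eq_zero hd (dotProduct_eq_zero _ fun w => ?_))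
    rw [← dotProduct_mulVec]
    by_contra hw
    exact hcon ((x ⬝ᵥ A *ᵥ w)⁻¹ • w) (by
      rw [mulVec_smul, dotProduct_smul, smul_eq_mul, inv_mul_cancel₀ hw])
  refine ⟨_, altPlane_mem_Iso hA hxz, Units.ext ?_, det_altPlane hA hxz, ?_⟩
  · show altPlane A x z * altPlane A x z = 1
    refine Matrix.ext_of_mulVec_single fun i => ?_
    rw [← mulVec_mulVec, altPlane_mulVec hA, altPlane_mulVec hA, one_mulVec]
    simp only [sub_dotProduct, smul_dotProduct, mulVec_sub, mulVec_smul, dotProduct_sub,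
      dotProduct_smul, smul_eq_mul, hA x, hA z, hxz]
    module
  · rintro ⟨t, ht⟩
    change altPlane A x z = _ at ht
    obtain ⟨w, hw0, hwx, hwz⟩ : ∃ w, w ≠ 0 ∧ x ⬝ᵥ A *ᵥ w = 0 ∧ w ⬝ᵥ A *ᵥ z = 0 := by
      let f : (Fin n → F₀) →ₗ[F₀] F₀ × F₀ :=
        { toFun := fun u => (x ⬝ᵥ A *ᵥ u, u ⬝ᵥ A *ᵥ z)
          map_add' := fun u u' => by simp [mulVec_add, dotProduct_add, add_dotProduct]
          map_smul' := fun s u => by simp [mulVec_smul, dotProduct_smul, smul_dotProduct] }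
      obtain ⟨w, hw, hw0⟩ := Submodule.exists_mem_ne_zero_of_ne_bot (p := LinearMap.ker f) fun h0 => by
        have := LinearMap.finrank_le_finrank_of_injective (LinearMap.ker_eq_bot.1 h0)
        rw [Module.finrank_fintype_fun_eq_card, Fintype.card_fin, Module.finrank_prod,
          Module.finrank_self] at this
        omega
      rw [LinearMap.mem_ker, Prod.ext_iff] at hw
      exact ⟨w, hw0, hw.1, hw.2⟩
    have hxv : altPlane A x z *ᵥ x = -x := by rw [altPlane_mulVec hA, hA x, hxz]; module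
    have hwv : altPlane A x z *ᵥ w = w := by rw [altPlane_mulVec hA, hwx, hwz]; module
    rw [ht, smul_mulVec, one_mulVec] at hxv hwv
    have ht1 : t = 1 := smul_left_injective F₀ hw0 (show t • w = (1 : F₀) • w by rw [hwv, one_smul])
    have ht2 : t = -1 := smul_left_injective F₀ hx0 (show t • x = (-1 : F₀) • x by rw [hxv, neg_one_smul])
    exact h2 (by linear_combination ht2 - ht1)

/-- The main criterion. -/
theorem local_balance [Fintype F] {r : ℕ} [Fact r.Prime] [CharP F r] (hFq : Fintype.card F = q ^ 2)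
    (hn : 3 ≤ n) (hn2 : ¬(n = 3 ∧ q = 2)) (A : Subgroup A⋆) (hinn : Cfsg.Inn PSUn ≤ A) {p : ℕ}
    [Fact p.Prime] (hpr : p ≠ r) {β : A⋆} (hord : orderOf β = p)
    (hnot : ¬ Cfsg.IsInnerDiagonalAutPSU β) :
    Cfsg.pPrimeCore p ↥(A ⊓ Subgroup.centralizer {β}) ≠ ⊥ ↔
      ((∃ γ φ : A⋆, Cfsg.IsInnerDiagonalAutPSU γ ∧ (∃ σ : F ≃+* F, Cfsg.IsFieldAutPSUOf σ φ) ∧
          β = φ.trans γ) ∧
        Nat.Coprime p (Nat.card ↥(MonoidHom.eqLocus β.toMonoidHom (MonoidHom.id PSUn)))) := by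
  classical
  have hF : SqField F q := sqField_of_fintype hFq
  haveI : Finite PSUn := inferInstance
  have hp : β ^ p = 1 := by rw [← hord]; exact pow_orderOf_eq_one β
  obtain ⟨d, σ, rfl⟩ := exists_decomp hF hn hn2 β
  have hfield : ∃ γ φ : A⋆, Cfsg.IsInnerDiagonalAutPSU γ ∧
      (∃ τ : F ≃+* F, Cfsg.IsFieldAutPSUOf τ φ) ∧ conjAut d * fieldAut σ = φ.trans γ :=
    ⟨_, _, isInnerDiagonalAutPSU_iff.2 ⟨d, rfl⟩, ⟨σ, isFieldAutPSUOf_iff.2 rfl⟩, rfl⟩
  rw [and_iff_right hfield]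
  have hσ1 : σ ≠ 1 := fun h => hnot (isInnerDiagonalAutPSU_iff.2 ⟨d, by rw [h, map_one, mul_one]⟩)
  have hσp : σ ^ p = 1 := by
    have h := AutPSL.twistNorm_apply conjAut (fieldAut σ : A⋆) (guMap σ)
      (fun g => fieldAut_mul_conjAut σ g) d p
    rw [hp, ← map_pow] at h
    exact (conj_field_eq_one hF hn h.symm).1
  have hσ : orderOf σ = p := orderOf_eq_prime hσp hσ1
  by_cases hp2 : p = 2
  · subst hp2
    obtain rfl : σ = frobQ hF := GraphForms.Uni.eq_frobQ hF σ hσ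
    rw [show (conjAut d * fieldAut (frobQ hF) : A⋆) = GraphForms.Uni.graphAut hF d from rfl] at hord ⊢
    obtain ⟨g, hg, μ, hμ⟩ := GraphForms.Uni.exists_graph hF hn
      (GraphForms.Uni.isGraph_graphAut hF hn d) hord
    rw [hg] at hord ⊢
    let F₀ := ↥(fixedField (frobQ hF))
    have hF₀ : Nat.card F₀ = q := by
      have h := AutPSL.card_fixedField_pow (frobQ hF)
      rw [hF.2, show orderOf (frobQ hF) = 2 from hσ] at h
      exact Nat.pow_left_injective two_ne_zero h.symm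
    obtain ⟨e, he⟩ := GraphForms.Uni.exists_emb hF hF₀
    obtain ⟨A', b, c, d', hD, hA⟩ := GraphForms.Uni.exists_desc hF e he hn hμ
    have h2F : (2 : F) ≠ 0 := fun h0 => hpr (by
      have := (CharP.cast_eq_zero_iff F r 2).1 (by exact_mod_cast h0)
      exact ((Nat.prime_dvd_prime_iff_eq Fact.out Nat.prime_two).1 this).symm)
    have h2 : (2 : F₀) ≠ 0 := fun h => h2F (by rw [← map_ofNat e 2, h, map_zero])
    have hbot : Cfsg.pPrimeCore 2 ↥(A ⊓ Subgroup.centralizer {(GraphForms.Uni.graphAut hF g : A⋆)}) = ⊥ := by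
      rcases hA with hs | ⟨-, ha⟩
      · exact core_symm hF e he hn hn2 h2 hD hs A hinn
      · exact core_alt hF e he hn hn2 h2 hD ha A hinn
    refine iff_of_false (not_not.2 hbot) fun hcop => ?_
    -- the fixed points have even order
    have hH : ∃ K : GL (Fin n) F₀, K ∈ GraphForms.Iso A' ∧ K * K = 1 ∧
        (K : Matrix (Fin n) (Fin n) F₀).det = 1 ∧ ¬∃ t : F₀, (K : Matrix (Fin n) (Fin n) F₀) = t • 1 := by
      rcases hA with hs | ⟨-, ha⟩
      · exact exists_invol_symm hn h2 (hD.det_ne_zero hF e he) hs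
      · exact exists_invol_alt hn h2 (hD.det_ne_zero hF e he) ha
    obtain ⟨K, hK, hK2, hKd, hKs⟩ := hH
    obtain ⟨h, hh, hhc⟩ := exists_iso_lift hF e he hn hD hK
    rw [card_eqLocus (conj_injective hF hn)] at hcop
    refine (Nat.Prime.coprime_iff_not_dvd Nat.prime_two).1 hcop
      (dvd_card_of_orderOf _ (a := conjAut h) (Subgroup.mem_inf.2 ⟨mem_inn_of_det hF ?_, hhc⟩)
        (orderOf_eq_prime ?_ ?_))
    · rw [hh, liftGL_coe, Matrix.det_units_conj, ← RingHom.mapMatrix_apply, ← RingHom.map_det, hKd,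
        map_one]
    · rw [← map_pow, show h ^ 2 = 1 from Subtype.ext (by
        rw [sq, Subgroup.coe_mul, hh, ← map_mul, hK2, map_one]; rfl), map_one]
    · intro h1
      obtain ⟨z, hz⟩ := (conjAut_eq_one_iff hF hn).1 h1
      have hc : liftGL e b K ∈ Subgroup.center GLn := by
        rw [← hh, hz, GeneralLinearGroup.center_eq_range_scalar]
        exact ⟨(z : Fˣ), rfl⟩
      obtain ⟨t, -, ht⟩ := (liftGL_central_iff e b _).1 hc
      exact hKs ⟨t, ht⟩
  · obtain ⟨g, hg⟩ := field_coset' hF hn σ hσ ((Fact.out : p.Prime).odd_of_ne_two hp2) d hp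
    exact criterion_conj _ (fieldAut σ) (conjAut g)⁻¹ (by rw [hg]; group) A hinn
      fun B hB => local_std hF hn hn2 hp2 σ hσ B hB

end Cfsg.Agent.LocalBal.Uni
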